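import Cfsg.Agent.H10.RF.K

/-! Coordinates for an elementary abelian group of order `2 ^ 11` with `M24` acting. -/

set_option autoImplicit false
set_option linter.unusedSectionVars false
set_option linter.unusedVariables false
set_option maxRecDepth 100000
open Cfsg Subgroup H19 H0 H15
open scoped commutatorElement
namespace H10.RF
local notation "cj" => H19.cj

/-- column `j` of a packed matrix -/
def cl11 (M j : ℕ) : ℕ := getT M 11 2047 j
theorem cl11_lt (M j : ℕ) : cl11 M j < 2 ^ 11 := Nat.lt_succ_of_le Nat.and_le_right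
/-- selected column -/
def sc (M i j k : ℕ) : ℕ := Nat.mul (Nat.land (Nat.shiftRight i j) 1) (Nat.land (Nat.shiftRight M k) 2047)
/-- matrix times vector -/
def mv (M i : ℕ) : ℕ := Nat.xor (Nat.xor (Nat.xor (Nat.xor (Nat.xor (Nat.xor (Nat.xor (Nat.xor (Nat.xor (Nat.xor (sc M i 0 0)
  (sc M i 1 11)) (sc M i 2 22)) (sc M i 3 33)) (sc M i 4 44)) (sc M i 5 55)) (sc M i 6 66)) (sc M i 7 77)) (sc M i 8 88))
  (sc M i 9 99)) (sc M i 10 110)
theorem mv_eq (M i : ℕ) : mv M i = lin (cl11 M) 11 i := by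
  have : mv M i = Nat.xor (Nat.xor (Nat.xor (Nat.xor (Nat.xor (Nat.xor (Nat.xor (Nat.xor (Nat.xor (Nat.xor (Nat.xor 0 (sc M i 0 0))
    (sc M i 1 11)) (sc M i 2 22)) (sc M i 3 33)) (sc M i 4 44)) (sc M i 5 55)) (sc M i 6 66)) (sc M i 7 77)) (sc M i 8 88))
    (sc M i 9 99)) (sc M i 10 110) := by simp only [mv, xor_eq', Nat.zero_xor]
  exact this
theorem mv_lt (M i : ℕ) : mv M i < 2048 := mv_eq M i ▸ lin_lt _ _ 11 (fun j _ => cl11_lt M j) i
theorem mv_xor (M a b : ℕ) : mv M (a ^^^ b) = mv M a ^^^ mv M b := by simp only [mv_eq, lin_xor]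
theorem mv_zero (M : ℕ) : mv M 0 = 0 := by rw [mv_eq, lin_zero_right]
theorem lin_pow (f : ℕ → ℕ) {n j : ℕ} (h : j < n) : lin f n (2 ^ j) = f j := by
  induction n with
  | zero => omega
  | succ n ih =>
    rw [lin_succ, Nat.testBit_two_pow]
    rcases Nat.lt_succ_iff_lt_or_eq.1 h with k | rfl
    · rw [ih k]; simp [k.ne]
    · have : ∀ m ≤ j, lin f m (2 ^ j) = 0 := fun m hm => by
        induction m with
        | zero => rfl
        | succ m i => rw [lin_succ, i (by omega), Nat.testBit_two_pow]; simp; omega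
      simp [this j le_rfl]
theorem mv_pow (M : ℕ) {j : ℕ} (h : j < 11) : mv M (2 ^ j) = cl11 M j := by rw [mv_eq, lin_pow _ h]
/-- packing of a list of columns -/
noncomputable def pk (f : ℕ → ℕ) (n : ℕ) : ℕ → ℕ :=
  Nat.rec (fun _ => 0) (fun _ r k => Nat.add (f k) (Nat.mul 2048 (r (Nat.succ k)))) n
theorem cl11_add {a : ℕ} (h : a < 2048) (b : ℕ) : cl11 (a + 2048 * b) 0 = a ∧ ∀ j, cl11 (a + 2048 * b) (j + 1) = cl11 b j := by
  simp only [cl11, getT, Nat.land_eq, Nat.shiftRight_eq, Nat.mul_eq, Nat.shiftRight_eq_div_pow]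
  refine ⟨?_, fun j => ?_⟩
  · rw [show 2047 = 2 ^ 11 - 1 from rfl, Nat.and_two_pow_sub_one_eq_mod]; simp; omega
  · rw [mul_add, pow_add, mul_comm (2 ^ _), ← Nat.div_div_eq_div_mul, show (a + 2048 * b) / 2 ^ (11 * 1) = b by omega]
theorem cl11_pk {f : ℕ → ℕ} (h : ∀ j, f j < 2048) {n : ℕ} : ∀ k j, j < n → cl11 (pk f n k) j = f (k + j) := by
  induction n with
  | zero => intro _ _ h; omega
  | succ n ih =>
    intro k j hj
    change cl11 (f k + 2048 * pk f n (k + 1)) j = _
    cases j with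
    | zero => exact (cl11_add (h k) _).1
    | succ j => rw [(cl11_add (h k) _).2, ih _ _ (by omega)]; congr 1; omega
/-- iteration with evaluation -/
noncomputable def itf (f : ℕ → ℕ) (k i : ℕ) : ℕ := Nat.rec i (fun _ acc => force acc f) k
theorem itf_eq (f : ℕ → ℕ) (k i : ℕ) : itf f k i = f^[k] i := by
  induction k with
  | zero => rfl
  | succ k ih => rw [Function.iterate_succ_apply', ← ih]; exact force_eq _ _
/-- the packed orbit of a vector -/
noncomputable def orbP (M n : ℕ) : ℕ → ℕ :=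
  Nat.rec (fun _ => 0) (fun _ r y => force y fun y => Nat.add y (Nat.mul 2048 (r (mv M y)))) n
theorem cl11_orbP (M : ℕ) {n : ℕ} : ∀ y k, y < 2048 → k < n → cl11 (orbP M n y) k = (mv M)^[k] y := by
  induction n with
  | zero => intro _ _ _ h; omega
  | succ n ih =>
    intro y k hy hk
    rw [show orbP M (n + 1) y = y + 2048 * orbP M n (mv M y) from force_eq y fun y => y + 2048 * orbP M n (mv M y)]
    cases k with
    | zero => exact (cl11_add hy _).1
    | succ k => rw [(cl11_add hy _).2, ih _ _ (mv_lt _ _) (by omega)]; rfl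

/-- entry `j` of a table of masks -/
def c24 (T j : ℕ) : ℕ := getT T 24 16777215 j
/-- the mask of an index -/
noncomputable def U (ub i : ℕ) : ℕ := lin (c24 ub) 11 i
/-- the index of a mask -/
def D (dc m : ℕ) : ℕ := xor24 fun p => Nat.mul (Nat.land (Nat.shiftRight m p) 1) (cl11 dc p)
theorem D_eq (dc m : ℕ) : D dc m = lin (cl11 dc) 24 m := by
  apply xor24_eq
  intro j
  unfold Nat.testBit
  simp only [Nat.land_eq, Nat.shiftRight_eq, Nat.and_one_is_mod, Nat.one_and_eq_mod_two, bne_iff_ne, Nat.mul_eq]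
  rcases Nat.mod_two_eq_zero_or_one (m >>> j) with h | h <;> simp [h]
theorem D_lt (dc m : ℕ) : D dc m < 2048 := D_eq dc m ▸ lin_lt _ _ 11 (fun j _ => cl11_lt dc j) m
theorem D_xor (dc a b : ℕ) : D dc (a ^^^ b) = D dc a ^^^ D dc b := by simp only [D_eq, lin_xor]
theorem D_zero (dc : ℕ) : D dc 0 = 0 := by rw [D_eq, lin_zero_right]
/-- the matrix of a permutation code -/
noncomputable def mt (ub dc g : ℕ) : ℕ := pk (fun j => force (act g (c24 ub j)) (D dc)) 11 0
theorem cl11_mt (ub dc g : ℕ) {j : ℕ} (h : j < 11) : cl11 (mt ub dc g) j = D dc (act g (c24 ub j)) := by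
  rw [mt, cl11_pk (fun j => by rw [force_eq]; exact D_lt _ _) _ _ h, force_eq, zero_add]
theorem mv_mt (ub dc g i : ℕ) : mv (mt ub dc g) i = D dc (act g (U ub i)) := by
  rw [mv_eq, U, map_lin (fun m => D dc (act g m)) (by simp [act_zero, D_zero]) (fun a b => by simp [act_xor, D_xor])]
  exact lin_congr _ _ _ _ fun j h => cl11_mt _ _ _ h
theorem pack24_congr {f g : ℕ → ℕ} (h : ∀ i < 24, f i = g i) : pack24 f = pack24 g := by
  have : ∀ n k, k + n ≤ 24 → hor f n k = hor g n k := fun n => by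
    induction n with
    | zero => intros; rfl
    | succ n ih => intro k hk; rw [hor_succ, hor_succ, h k (by omega), ih _ (by omega)]
  rw [pack24_eq, pack24_eq, this _ _ le_rfl]
theorem Rep.code {σ : Equiv.Perm GolayPt} {g : ℕ} (h : Rep σ g) : codeOf σ = pmul g pid :=
  pack24_congr fun i hi => by rw [h.app hi, ix_pt (h.lt hi), ap_pid hi]
theorem code_mul (σ τ : Equiv.Perm GolayPt) : codeOf (σ * τ) = pmul (codeOf σ) (codeOf τ) :=
  pack24_congr fun i hi => by
    rw [Equiv.Perm.mul_apply, (rep_codeOf τ).app hi, (rep_codeOf σ).app ((rep_codeOf τ).lt hi),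
      ix_pt ((rep_codeOf σ).lt ((rep_codeOf τ).lt hi))]
theorem code_one : codeOf 1 = pid := (Rep.code Rep.one).trans (by decide +kernel)
theorem code_inj {σ τ : Equiv.Perm GolayPt} (h : codeOf σ = codeOf τ) : σ = τ := (rep_codeOf σ).unique (by rw [h]; exact rep_codeOf τ)
open scoped Pointwise in
theorem act_pmul {σ τ : Equiv.Perm GolayPt} {g h : ℕ} (hg : Rep σ g) (hh : Rep τ h) (m : ℕ) :
    act (pmul g h) m = act g (act h m) :=
  S_inj ((hg.mul hh).lt_act m) (hg.lt_act _) (by rw [← (hg.mul hh).smul_S, ← hg.smul_S, ← hh.smul_S, mul_smul])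

variable {G : Type*} [Group G]
/-- product of the selected elements -/
noncomputable def lp (f : ℕ → G) (n i : ℕ) : G := Nat.rec 1 (fun j acc => acc * (if i.testBit j then f j else 1)) n
theorem lp_succ (f : ℕ → G) (n i : ℕ) : lp f (n + 1) i = lp f n i * (if i.testBit n then f n else 1) := rfl
theorem lp_mem {V : Subgroup G} {f : ℕ → G} {n : ℕ} (h : ∀ j < n, f j ∈ V) (i : ℕ) : lp f n i ∈ V := by
  induction n with
  | zero => exact one_mem _
  | succ n ih =>
    refine mul_mem (ih fun j k => h j (by omega)) ?_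
    split_ifs
    exacts [h n (by omega), one_mem _]
theorem lp_congr {f g : ℕ → G} {n : ℕ} (h : ∀ j < n, f j = g j) (i : ℕ) : lp f n i = lp g n i := by
  induction n with
  | zero => rfl
  | succ n ih => rw [lp_succ, lp_succ, ih fun j k => h j (by omega), h n (by omega)]
theorem lp_one {f : ℕ → G} {n : ℕ} (h : ∀ j < n, f j = 1) (i : ℕ) : lp f n i = 1 :=
  mem_bot.1 (lp_mem (V := ⊥) h i)
theorem lp_xor {V : Subgroup G} (s : ∀ a ∈ V, a * a = 1) {f : ℕ → G} {n : ℕ} (h : ∀ j < n, f j ∈ V) (a b : ℕ) :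
    lp f n (a ^^^ b) = lp f n a * lp f n b := by
  induction n with
  | zero => exact (one_mul _).symm
  | succ n ih =>
    have h' := fun j (k : j < n) => h j (by omega)
    have c := csq s (h n (by omega)) (lp_mem h' b)
    rw [lp_succ, lp_succ, lp_succ, ih h', Nat.testBit_xor]
    cases a.testBit n <;> cases b.testBit n <;> simp [mul_assoc]
    · exact c.symm
    · rw [← mul_assoc, c, mul_assoc, s _ (h n (by omega)), mul_one]
theorem lp_cj (k : G) (f : ℕ → G) (n i : ℕ) : k * lp f n i * k⁻¹ = lp (fun j => k * f j * k⁻¹) n i := by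
  induction n with
  | zero => exact by simp [lp]
  | succ n ih => rw [lp_succ, lp_succ, cjmul, ih]; split_ifs <;> simp
theorem hom_lin {φ : ℕ → G} (h : ∀ a b, φ (a ^^^ b) = φ a * φ b) (t : ℕ → ℕ) (m i : ℕ) :
    φ (lin t m i) = lp (fun j => φ (t j)) m i := by
  have h0 : φ 0 = 1 := by simpa using h 0 0
  induction m with
  | zero => exact h0
  | succ m ih => rw [lin_succ, h, ih, lp_succ]; split_ifs <;> simp [h0]
theorem lp_pow (f : ℕ → G) {n j : ℕ} (h : j < n) : lp f n (2 ^ j) = f j := by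
  induction n with
  | zero => omega
  | succ n ih =>
    rw [lp_succ, Nat.testBit_two_pow]
    rcases Nat.lt_succ_iff_lt_or_eq.1 h with k | rfl
    · rw [ih k]; simp [k.ne]
    · have : ∀ m ≤ j, lp f m (2 ^ j) = 1 := fun m hm => by
        induction m with
        | zero => rfl
        | succ m i => rw [lp_succ, i (by omega), Nat.testBit_two_pow]; simp; omega
      simp [this j le_rfl]

/-- `ρ` codes the map from the normalizer of `V` onto `M24`. -/
structure IF0 (V : Subgroup G) (ρ : G → ℕ) : Prop where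
  sq : ∀ a ∈ V, a * a = 1
  cV : #V = 2048
  cent : C(V) = V
  mul : ∀ a ∈ N(V), ∀ b ∈ N(V), ρ (a * b) = pmul (ρ a) (ρ b)
  eqv : ∀ a ∈ N(V), ∀ b ∈ N(V), ρ a = ρ b ↔ a⁻¹ * b ∈ V
  one : ρ 1 = pid
  sur : ∀ g, band (isM g) (Nat.beq (pmul g pid) g) = true → ∃ a ∈ N(V), ρ a = g
  rep : ∀ a ∈ N(V), ∃ σ ∈ M24, Rep σ (ρ a)
  card : #N(V) = 2048 * 244823040
  simp : ∀ D, V ≤ D → D ⊴ N(V) → D = V ∨ D = N(V)
  gen : ∀ X, V ≤ X → (∀ a ∈ N(V), ρ a = cAlpha ∨ ρ a = cGamma ∨ ρ a = cDelta → a ∈ X) → N(V) ≤ X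

theorem exIF0 [Finite G] {V : Subgroup G} (s : ∀ a ∈ V, a * a = 1) (c : #V = 2048) (hC : C(V) = V)
    (hM : Nonempty (Quo V ≃* M24)) : ∃ ρ, IF0 V ρ := by
  classical
  obtain ⟨φ⟩ := hM
  let μ : N(V) →* Equiv.Perm GolayPt := M24.subtype.comp (φ.toMonoidHom.comp (qmk V))
  have m : ∀ a, μ a ∈ M24 := fun a => (φ (qmk V a)).2
  have sj : ∀ σ ∈ M24, ∃ a, μ a = σ := fun σ h => by
    obtain ⟨a, e⟩ := qmk_surj V (φ.symm ⟨σ, h⟩)
    exact ⟨a, by simp [μ, e]⟩
  have ev : ∀ a b, μ a = μ b ↔ (a : G)⁻¹ * b ∈ V := fun a b => by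
    rw [← qmk_eq]; simp [μ]
  have cN : #N(V) = 2048 * 244823040 := by
    rw [← card_M24, ← Nat.card_congr φ.toEquiv, ← c, mul_comm, ← card_subgroupOf' (le_normalizer (H := V))]
    exact card_eq_card_quotient_mul_card_subgroup _
  refine ⟨fun a => if h : a ∈ N(V) then codeOf (μ ⟨a, h⟩) else 0, s, c, hC, fun a ha b hb => ?_, fun a ha b hb => ?_, ?_,
    fun g hg => ?_, fun a ha => ⟨_, m ⟨a, ha⟩, by simp only [ha, dif_pos]; exact rep_codeOf _⟩, cN, fun D l n => ?_,
    fun X l h => ?_⟩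
  · simp only [ha, hb, mul_mem ha hb, dif_pos]
    rw [← code_mul, ← map_mul]; rfl
  · simp only [ha, hb, dif_pos]
    exact ⟨fun e => (ev _ _).1 (code_inj e), fun e => congrArg _ ((ev ⟨a, ha⟩ ⟨b, hb⟩).2 e)⟩
  · simp only [one_mem, dif_pos]
    rw [← code_one, ← map_one μ]; rfl
  · rw [band_iff, Nat.beq_eq] at hg
    obtain ⟨a, e⟩ := sj _ (isM_mem hg.1)
    exact ⟨a, a.2, by simp only [a.2, dif_pos, Subtype.coe_eta, e]; rw [Rep.code (isM_rep hg.1), hg.2]⟩
  · have := simple_M24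
    have := φ.isSimpleGroup
    have nn : (quo V D).Normal := ⟨fun x hx g => by
      obtain ⟨g, rfl⟩ := qmk_surj V g
      exact (n.quo V).conj_mem (mem_im_of g.2) hx⟩
    rcases nn.eq_bot_or_eq_top with e | e
    · exact .inl (le_antisymm ((quo_eq_bot_iff n.le).1 e) l)
    · exact .inr (le_antisymm n.le (le_of_quo_le le_rfl l (e ▸ le_top)))
  · have : ∀ σ ∈ K24, ∀ a, μ a = σ → (a : G) ∈ X := fin_ind (fun a e => l (by simpa using (ev 1 a).1 (by simp [e])))
      fun σ τ hτ ih a e => by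
        obtain ⟨b, eb⟩ := sj τ (K24_le (subset_closure hτ))
        have hb := h b b.2 (by
          simp only [b.2, dif_pos, Subtype.coe_eta, eb]
          rcases hτ with rfl | rfl | rfl
          exacts [.inl ((Rep.code rep_alpha).trans (by decide +kernel)),
            .inr (.inl ((Rep.code rep_gamma).trans (by decide +kernel))),
            .inr (.inr ((Rep.code rep_delta).trans (by decide +kernel)))])
        simpa using mul_mem (ih (a * b⁻¹) (by simp [e, eb])) hb
    exact fun a ha => this _ (K24_eq ▸ m ⟨a, ha⟩) ⟨a, ha⟩ rfl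

end H10.RF
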