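import Cfsg.Agent.H10.RF.A

/-! The two modules of order `2 ^ 11` for `M24`. -/

set_option autoImplicit false
set_option linter.unusedSectionVars false
set_option linter.unusedVariables false
set_option maxRecDepth 100000
open Cfsg Subgroup H19 H0 H15
open scoped commutatorElement Pointwise
namespace H10.RF
local notation "cj" => H19.cj
variable {G : Type*} [Group G]

/-- coordinates on `V` -/
structure VB (V : Subgroup G) (v : ℕ → G) : Prop where
  vx : ∀ a b, v (a ^^^ b) = v a * v b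
  vm : ∀ i, v i ∈ V
  vs : ∀ x ∈ V, ∃ i < 2048, v i = x
  vi : ∀ i < 2048, ∀ j < 2048, v i = v j → i = j
  vd : ∀ i, v (i % 2048) = v i
/-- `n` acts on the coordinates by `f` -/
def Ac (v : ℕ → G) (n : G) (f : ℕ → ℕ) : Prop := ∀ i, n * v i * n⁻¹ = v (f i)
/-- the module in coordinates -/
structure IF (V : Subgroup G) (ρ : G → ℕ) (v : ℕ → G) (ub dc : ℕ) : Prop extends IF0 V ρ, VB V v where
  ac : ∀ n ∈ N(V), Ac v n (mv (mt ub dc (ρ n)))

variable {V : Subgroup G} {ρ : G → ℕ} {v : ℕ → G} {a b c n w : G} {f g : ℕ → ℕ}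
theorem Ac.mul (h1 : Ac v a f) (h2 : Ac v b g) : Ac v (a * b) (fun i => f (g i)) := fun i => by
  rw [← cjcj, h2, h1]
theorem Ac.pow (h : Ac v a f) (k : ℕ) : Ac v (a ^ k) (itf f k) := by
  induction k with
  | zero => exact fun i => by simp [itf]
  | succ k ih => rw [pow_succ']; exact fun i => (h.mul ih i).trans (by simp only [itf_eq, Function.iterate_succ_apply'])
theorem basis (hx : ∀ a b, v (a ^^^ b) = v a * v b) (hd : ∀ i, v (i % 2048) = v i)
    (h : ∀ j < 11, n * v (2 ^ j) * n⁻¹ = v (f j)) : Ac v n (lin f 11) := fun i => by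
  rw [← hd i, show i % 2048 = _ from (lin_two_pow 11 i).symm, hom_lin hx, hom_lin hx, lp_cj]
  exact lp_congr h i
theorem basisM {M : ℕ} (hx : ∀ a b, v (a ^^^ b) = v a * v b) (hd : ∀ i, v (i % 2048) = v i)
    (h : ∀ j < 11, n * v (2 ^ j) * n⁻¹ = v (cl11 M j)) : Ac v n (mv M) := fun i => mv_eq M i ▸ basis hx hd h i
theorem mv_mv (A B x : ℕ) : mv A (mv B x) = lin (fun j => mv A (cl11 B j)) 11 x := by
  rw [mv_eq B, map_lin (mv A) (mv_zero A) (mv_xor A)]

namespace IF0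
variable (h : IF0 V ρ)
include h
theorem VN : V ≤ N(V) := le_normalizer
theorem ker (ha : a ∈ N(V)) : ρ a = pid ↔ a ∈ V := by rw [← h.one, eq_comm, h.eqv _ (one_mem _) _ ha]; simp
theorem pow (ha : a ∈ N(V)) (k : ℕ) : ρ (a ^ k) = ppow (ρ a) k := by
  induction k with
  | zero => rw [pow_zero, h.one]; rfl
  | succ k ih => rw [pow_succ', h.mul _ ha _ (pow_mem ha k), ih]; rfl
theorem cjv (ha : a ∈ V) (hw : w ∈ V) : a * w * a⁻¹ = w := by rw [csq h.sq ha hw]; simp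
theorem same (ha : a ∈ N(V)) (hb : b ∈ N(V)) (e : ρ a = ρ b) (hw : w ∈ V) : a * w * a⁻¹ = b * w * b⁻¹ := by
  have := h.cjv ((h.eqv _ ha _ hb).1 e) hw
  nth_rw 1 [← this]
  rw [cjcj]; simp
theorem lift {g k : ℕ} (hg : band (band (isM g) (Nat.beq (pmul g pid) g)) (band (Nat.beq (ppow g (2 * k + 1)) pid)
    (Nat.beq (ppow g (2 * k + 2)) g)) = true) : ∃ a ∈ N(V), ρ a = g ∧ a ^ (2 * k + 1) = 1 := by
  rw [band_iff, band_iff (Nat.beq _ _), Nat.beq_eq, Nat.beq_eq] at hg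
  obtain ⟨a, ha, rfl⟩ := h.sur g hg.1
  refine ⟨_, pow_mem ha (2 * k + 2), (h.pow ha _).trans hg.2.2, ?_⟩
  rw [← pow_mul, mul_comm (2 * k + 2), pow_mul, show 2 * k + 2 = 2 * (k + 1) by ring, pow_mul, _root_.sq,
    h.sq _ ((h.ker (pow_mem ha _)).1 ((h.pow ha _).trans hg.2.1)), one_pow]
theorem ind [Finite G] {P : G → Prop} (h1 : P 1) (hs : ∀ n ∈ N(V), ∀ a ∈ N(V), ρ a = pid ∨ ρ a = cAlpha ∨ ρ a = cGamma ∨
    ρ a = cDelta → P n → P (n * a)) : ∀ n ∈ N(V), P n := fun n hn =>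
  (fin_ind (S := {a | a ∈ N(V) ∧ (ρ a = pid ∨ ρ a = cAlpha ∨ ρ a = cGamma ∨ ρ a = cDelta)}) (P := fun n => n ∈ N(V) ∧ P n)
    ⟨one_mem _, h1⟩ (fun x s k e => ⟨mul_mem e.1 k.1, hs _ e.1 _ k.1 k.2 e.2⟩) n
    (h.gen _ (fun x hx => Subgroup.subset_closure (by exact ⟨h.VN hx, .inl ((h.ker (h.VN hx)).2 hx)⟩))
      (fun a ha e => Subgroup.subset_closure (by exact ⟨ha, .inr e⟩)) hn)).2
theorem pg [Finite G] : PG 2 V := PiN.of_card_pow (k := 11) Nat.prime_two h.cV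
theorem irr [Finite G] (ha : a ∈ N(V)) (e : ρ a = cAlpha) (o : a ^ 23 = 1) :
    V ⊓ C[a] = ⊥ ∧ ∀ X ≤ V, a ∈ N(X) → X = ⊥ ∨ X = V := by
  have k : ∀ X ≤ V, #X % 23 = 1 → X = ⊥ ∨ X = V := fun X l c => by
    obtain ⟨i, hi⟩ := (h.pg.of_le l).exists_card
    have : i ≤ 11 := (Nat.pow_le_pow_iff_right (by decide)).1 (hi ▸ (card_le l).trans h.cV.le)
    rw [hi] at c
    have : i = 0 ∨ i = 11 := by interval_cases i <;> simp at c ⊢
    rcases this with rfl | rfl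
    exacts [.inl (card_eq_one.1 hi), .inr (eq_of_le_of_card_eq l (hi.trans h.cV.symm))]
  have k0 : V ⊓ C[a] = ⊥ := (k _ inf_le_left (by rw [← fix_sub (by norm_num) o ha, h.cV])).resolve_right fun e' => by
    have := (h.ker ha).2 (h.cent ▸ le_cent1_iff.1 (inf_eq_left.1 e'))
    rw [e] at this
    revert this; decide +kernel
  refine ⟨k0, fun X l n => k X l ?_⟩
  rw [fix_sub (by norm_num) o n, le_bot_iff.1 (k0 ▸ inf_le_inf_right _ l : X ⊓ C[a] ≤ ⊥), card_bot]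
end IF0

/-- relation check -/
noncomputable def rel (OY Pm M r : ℕ) : Bool :=
  allTo (fun j => Nat.beq (itf (fun x => force (mv M x) fun x => force (mv Pm x) (mv OY)) r (Nat.pow 2 j)) (Nat.pow 2 j)) 11
/-- the matrix of a generator is determined -/
noncomputable def dchk (Mb Mb' M1 M2 r1 r2 n0 Pm Mc : ℕ) : Bool :=
  force Mb fun Mb => force Mb' fun Mb' => force M1 fun M1 => force M2 fun M2 => force Mc fun Mc =>
  band (band (Nat.blt n0 2048) (force (orbP Mb 11 n0) fun NB => allTo (fun j => Nat.beq (mv NB (cl11 Pm j)) (Nat.pow 2 j)) 11))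
    (allTo2 (fun y => force y fun y => force (orbP Mb' 11 y) fun OY => bimp (rel OY Pm M1 r1) (bimp (rel OY Pm M2 r2)
      (allTo (fun j => Nat.beq (mv OY (cl11 Pm j)) (cl11 Mc j)) 11))) 32 64)
theorem det (h : IF0 V ρ) (hv : VB V v) {b' a1 a2 : G} {Mb Mb' M1 M2 r1 r2 n0 Pm Mc : ℕ} (hc : c ∈ N(V)) (hb : b ∈ N(V))
    (hb' : b' ∈ N(V)) (h1 : a1 ∈ N(V)) (h2 : a2 ∈ N(V)) (k : Ac v b (mv Mb)) (k' : Ac v b' (mv Mb')) (k1 : Ac v a1 (mv M1))
    (k2 : Ac v a2 (mv M2)) (e : ρ (c * b) = ρ (b' * c)) (e1 : ρ ((c * a1) ^ r1) = pid) (e2 : ρ ((c * a2) ^ r2) = pid)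
    (d : dchk Mb Mb' M1 M2 r1 r2 n0 Pm Mc = true) : Ac v c (mv Mc) := by
  simp only [dchk, force_eq, band_iff, allTo_iff, allTo2_iff, bimp_iff, Nat.beq_eq, Nat.blt_eq, Nat.pow_eq] at d
  obtain ⟨y, hy, ey⟩ := hv.vs _ (conj_mem_of_norm hc (hv.vm n0))
  have s : ∀ i, c * v ((mv Mb)^[i] n0) * c⁻¹ = v ((mv Mb')^[i] y) := fun i => by
    induction i with
    | zero => exact ey.symm
    | succ i ih =>
      rw [Function.iterate_succ_apply', Function.iterate_succ_apply', ← k, ← k', ← ih, cjcj, cjcj]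
      exact h.same (mul_mem hc hb) (mul_mem hb' hc) e (hv.vm _)
  have s2 : ∀ j < 11, c * v (2 ^ j) * c⁻¹ = v (mv (orbP Mb' 11 y) (cl11 Pm j)) := fun j hj => by
    rw [← d.1.2 j hj, mv_eq, mv_eq, hom_lin hv.vx, hom_lin hv.vx, lp_cj]
    exact lp_congr (fun i hi => by rw [cl11_orbP _ _ _ d.1.1 hi, cl11_orbP _ _ _ hy hi, s]) _
  have s3 : Ac v c fun x => mv (orbP Mb' 11 y) (mv Pm x) := fun x =>
    (basis hv.vx hv.vd s2 x).trans (congrArg v (mv_mv _ _ x).symm)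
  have r : ∀ {a M r}, a ∈ N(V) → Ac v a (mv M) → ρ ((c * a) ^ r) = pid → rel (orbP Mb' 11 y) Pm M r = true :=
    fun {a M r} ha k e => by
      simp only [rel, allTo_iff, force_eq, Nat.beq_eq, Nat.pow_eq]
      intro j hj
      have := ((s3.mul k).pow r (2 ^ j)).symm.trans (h.cjv ((h.ker (pow_mem (mul_mem hc ha) r)).1 e) (hv.vm _))
      refine hv.vi _ ?_ _ (Nat.pow_lt_pow_right (by decide) hj) this
      cases r with
      | zero => exact Nat.pow_lt_pow_right (by decide) hj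
      | succ r => rw [itf_eq, Function.iterate_succ_apply']; exact mv_lt _ _
  exact basisM hv.vx hv.vd fun j hj => (s2 j hj).trans (by rw [d.2 y hy (r h1 k1 e1) (r h2 k2 e2) j hj])

/-- cyclic shift -/
noncomputable def rot (m : ℕ) : ℕ := lin (fun j => Nat.pow 2 (Nat.mod (Nat.succ j) 23)) 23 m
/-- squaring -/
noncomputable def dbl (m : ℕ) : ℕ := lin (fun j => Nat.pow 2 (Nat.mod (Nat.mul 2 j) 23)) 23 m
/-- multiples of a polynomial -/
noncomputable def KT (θ x : ℕ) : ℕ := lin (fun k => itf rot k θ) 23 x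
/-- the code of multiplication by two -/
def cBeta : ℕ := 0xbd6717b56939461b52507314831040
/-- the cyclic module -/
noncomputable def EE (a w : G) (m : ℕ) : G := lp (fun j => a ^ j * w * (a ^ j)⁻¹) 23 m
section
variable (h : IF0 V ρ) (ha : a ∈ N(V)) (hw : w ∈ V)
include h ha hw
theorem EE_mem (m : ℕ) : EE a w m ∈ V := lp_mem (fun j _ => conj_mem_of_norm (pow_mem ha j) hw) m
theorem EE_xor (x y : ℕ) : EE a w (x ^^^ y) = EE a w x * EE a w y :=
  lp_xor h.sq (fun j _ => conj_mem_of_norm (pow_mem ha j) hw) x y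
theorem EE_rot (o : a ^ 23 = 1) : Ac (EE a w) a rot := fun m => by
  rw [rot, hom_lin (EE_xor h ha hw), EE, lp_cj]
  refine lp_congr (fun j hj => ?_) m
  simp only [Nat.pow_eq, mod_eq', EE]
  rw [lp_pow _ (Nat.mod_lt _ (by decide)), cjcj, ← pow_succ', ← pow_eq_pow_mod _ o]
theorem EE_dbl (hb : b ∈ N(V)) (ea : ρ a = cAlpha) (eb : ρ b = cBeta) (e : b * w * b⁻¹ = w) : Ac (EE a w) b dbl := fun m => by
  rw [dbl, hom_lin (EE_xor h ha hw), EE, lp_cj]
  refine lp_congr (fun j hj => ?_) m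
  simp only [Nat.pow_eq, mod_eq', EE, Nat.mul_eq]
  rw [lp_pow _ (Nat.mod_lt _ (by decide)), cjcj]
  nth_rw 2 [← e]
  rw [cjcj]
  refine h.same (mul_mem hb (pow_mem ha _)) (mul_mem (pow_mem ha _) hb) ?_ hw
  rw [h.mul _ hb _ (pow_mem ha _), h.mul _ (pow_mem ha _) _ hb, h.pow ha, h.pow ha, ea, eb]
  revert j; decide +kernel
theorem EE_KT (o : a ^ 23 = 1) (θ x : ℕ) : EE a w (KT θ x) = EE a (EE a w θ) x := by
  rw [KT, hom_lin (EE_xor h ha hw)]
  exact lp_congr (fun k _ => ((EE_rot h ha hw o).pow k θ).symm) x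
end
/-- the data of a module -/
noncomputable def mchk (ub dc θ t xa xb w0 n0 Pm : ℕ) (Kp : ℕ → Bool) : Bool :=
  force (mt ub dc cAlpha) fun Ma => force (mt ub dc cBeta) fun Mb =>
  band (band (allTo (fun j => band (Nat.beq (Nat.xor (rot (c24 t j)) (U t (cl11 Ma j))) (KT θ (c24 xa j)))
    (Nat.beq (Nat.xor (dbl (c24 t j)) (U t (cl11 Mb j))) (KT θ (c24 xb j)))) 11) (Nat.beq (U t w0) 1))
  (band (allL (fun g => allTo (fun j => Kp (Nat.xor (act g (c24 ub j)) (U ub (cl11 (mt ub dc g) j)))) 11) [pid, cAlpha, cGamma, cDelta])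
  (band (allTo (fun j => band (Nat.beq (cl11 (mt ub dc pid) j) (Nat.pow 2 j)) (band (Nat.beq (itf (mv Ma) 3 (Nat.pow 2 j))
    (cl11 (mt ub dc (ppow cAlpha 3)) j)) (band (Nat.beq (itf (mv Mb) 3 (Nat.pow 2 j)) (cl11 (mt ub dc (ppow cBeta 3)) j))
    (Nat.beq (itf (mv Mb) 10 (Nat.pow 2 j)) (cl11 (mt ub dc (ppow cBeta 10)) j))))) 11)
  (band (dchk Mb (mt ub dc (ppow cBeta 10)) Ma (mt ub dc (ppow cAlpha 3)) 3 12 n0 Pm (mt ub dc cGamma))
    (dchk Mb (mt ub dc (ppow cBeta 3)) Ma (mt ub dc (ppow cAlpha 3)) 6 7 n0 Pm (mt ub dc cDelta)))))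
theorem U_xor (t a b : ℕ) : U t (a ^^^ b) = U t a ^^^ U t b := lin_xor _ _ _ _
theorem U_mod (t i : ℕ) : U t (i % 2048) = U t i := by
  have := map_lin (U t) (lin_zero_right _ _) (U_xor t) (fun j => 2 ^ j) 11 i
  rw [lin_two_pow] at this
  exact this.trans (lin_congr _ _ _ _ fun j hj => lin_pow _ hj)
theorem cls [Finite G] (h : IF0 V ρ) {ub dc θ t xa xb w0 n0 Pm : ℕ} {Kp : ℕ → Bool}
    (hK : ∀ σ ∈ M24, ∀ g, Rep σ g → ∀ m, Kp m = true → D dc (act g m) = 0) (d : mchk ub dc θ t xa xb w0 n0 Pm Kp = true)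
    (ha : a ∈ N(V)) (hb : b ∈ N(V)) (ea : ρ a = cAlpha) (eb : ρ b = cBeta) (o : a ^ 23 = 1) (hw : w ∈ V) (w1 : w ≠ 1)
    (e : b * w * b⁻¹ = w) (e0 : EE a w θ = 1) : ∃ v, IF V ρ v ub dc := by
  simp only [mchk, force_eq, band_iff, allTo_iff, allL_iff, Nat.beq_eq, Nat.pow_eq, xor_eq'] at d
  obtain ⟨⟨d1, d2⟩, d3, d4, d5, d6⟩ := d
  let v := fun i => EE a w (U t i)
  have vx : ∀ i j, v (i ^^^ j) = v i * v j := fun i j => by simp only [v, U_xor, EE_xor h ha hw]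
  have vd : ∀ i, v (i % 2048) = v i := fun i => by simp only [v, U_mod]
  have vm : ∀ i, v i ∈ V := fun i => EE_mem h ha hw _
  have k : ∀ {n f M x}, Ac (EE a w) n f → (∀ j < 11, f (c24 t j) ^^^ U t (cl11 M j) = KT θ (c24 x j)) → Ac v n (mv M) :=
    fun {n f M x} k e => basisM vx vd fun j hj => by
      have := congrArg (EE a w) (e j hj)
      rw [EE_KT h ha hw o, e0, EE_xor h ha hw, show EE a 1 _ = 1 from lp_one (by simp) _,
        mul_eq_one_iff_eq_inv, inv_eq_of_mul_eq_one_right (h.sq _ (EE_mem h ha hw _))] at this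
      simp only [v, U, lin_pow _ hj]
      exact (k _).trans this
  have ka := k (EE_rot h ha hw o) fun j hj => (d1 j hj).1
  have kb := k (EE_dbl h ha hw hb ea eb e) fun j hj => (d1 j hj).2
  have v0 : v 0 = 1 := by simpa using vx 0 0
  let X : Subgroup G := ⟨⟨⟨Set.range v, by rintro _ _ ⟨i, rfl⟩ ⟨j, rfl⟩; exact ⟨_, vx i j⟩⟩, ⟨0, v0⟩⟩, by
    rintro _ ⟨i, rfl⟩; exact ⟨i, (inv_eq_of_mul_eq_one_right (h.sq _ (vm i))).symm⟩⟩
  have XV : X = V := ((h.irr ha ea o).2 X (by rintro _ ⟨i, rfl⟩; exact vm i) (mem_norm_of_cj_le fun y hy => by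
    obtain ⟨_, ⟨i, rfl⟩, rfl⟩ := mem_cj'.1 hy
    exact ⟨_, (ka i).symm⟩)).resolve_left (ne_bot_of_mem (x := w) ⟨w0, by
      simp only [v, d2, EE]; simpa using lp_pow (fun j => a ^ j * w * (a ^ j)⁻¹) (n := 23) (j := 0) (by decide)⟩ w1)
  have vs : ∀ x ∈ V, ∃ i < 2048, v i = x := fun x hx => by
    obtain ⟨i, rfl⟩ : x ∈ X := XV ▸ hx
    exact ⟨_, Nat.mod_lt _ (by decide), vd i⟩
  have hv : VB V v := ⟨vx, vm, vs, fun i hi j hj => Set.injOn_of_ncard_image_eq (s := Set.Iio 2048) (f := v) (by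
    rw [show v '' Set.Iio 2048 = V from Set.ext fun x => ⟨by rintro ⟨i, -, rfl⟩; exact vm i, fun k => vs x k⟩]
    exact h.cV.trans (by simp)) (Set.finite_Iio _) hi hj, vd⟩
  have kp : ∀ {n M k g}, Ac v n (mv M) → (∀ j < 11, itf (mv M) k (2 ^ j) = cl11 g j) → Ac v (n ^ k) (mv g) :=
    fun {n M k g} k1 e => basisM vx vd fun j hj => (k1.pow k _).trans (by rw [e j hj])
  have a3 := kp ka fun j hj => (d4 j hj).2.1
  have m3 := pow_mem ha 3
  have k1 : ∀ n ∈ N(V), ρ n = pid → Ac v n (mv (mt ub dc pid)) := fun n hn e =>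
    basisM vx vd fun j hj => (h.cjv ((h.ker hn).1 e) (vm _)).trans (by rw [(d4 j hj).1])
  refine ⟨v, h, hv, h.ind (h.one ▸ k1 1 (one_mem _) h.one) fun n hn c hc ec ih i => ?_⟩
  have kc : Ac v c (mv (mt ub dc (ρ c))) := by
    rcases ec with ec | ec | ec | ec <;> rw [ec]
    · exact k1 c hc ec
    · exact fun i => (h.same hc ha (ec.trans ea.symm) (vm i)).trans (ka i)
    · refine det h hv hc hb (pow_mem hb 10) ha m3 kb (kp kb fun j hj => (d4 j hj).2.2.2) ka a3 ?_ ?_ ?_ d5 <;>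
      simp only [h.mul _ hc _ hb, h.mul _ (pow_mem hb _) _ hc, h.pow (mul_mem hc ha), h.pow (mul_mem hc m3), h.mul _ hc _ ha,
        h.mul _ hc _ m3, h.pow ha, h.pow hb, ea, eb, ec] <;> decide +kernel
    · refine det h hv hc hb (pow_mem hb 3) ha m3 kb (kp kb fun j hj => (d4 j hj).2.2.1) ka a3 ?_ ?_ ?_ d6 <;>
      simp only [h.mul _ hc _ hb, h.mul _ (pow_mem hb _) _ hc, h.pow (mul_mem hc ha), h.pow (mul_mem hc m3), h.mul _ hc _ ha,
        h.mul _ hc _ m3, h.pow ha, h.pow hb, ea, eb, ec] <;> decide +kernel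
  obtain ⟨σ, hσ, r1⟩ := h.rep n hn
  obtain ⟨τ, -, r2⟩ := h.rep c hc
  rw [ih.mul kc i]
  beta_reduce
  rw [mv_mv, h.mul _ hn _ hc, mv_eq]
  refine congrArg v (lin_congr _ _ _ _ fun j hj => ?_)
  have := hK σ hσ _ r1 _ (d3 (ρ c) (by simpa using ec) j hj)
  rw [act_xor, D_xor, Nat.xor_eq_zero_iff] at this
  rw [mv_mt, cl11_mt _ _ (pmul _ _) hj, act_pmul r1 r2, this]

def ubA : ℕ := 0x410000500000c000000500044000014000400400002400000900000380000b
def dcA : ℕ := 0x1e53ff635cf74ac4f570f5425e337c1c9111eaec27a0f01c47e0700621c02807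
def ubB : ℕ := 0xecc04013e0058ea0035a1007f0480598081b20ab90099590182d500527c082402f
def dcB : ℕ := 0x7606aa47e63be636d83b4de162d9ca1bd000000000000000000000000000000000
theorem mA : mchk ubA dcA 8047776 0x410000500000c00000050004400001400006e700002400000900000300000b
    0xc75000000000c75000000000000000000000000 0xbba000bba000f870000000000780003a4000927000000000000000000000000 7 1
    0xe39b495a8e74b1201dbe4471f1c801 isC = true := by decide +kernel
theorem mB : mchk ubB dcB 340830 0x5cd0002300007b100032800041500025600026900024a0006720001580001c7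
    0xae3000000000ae3000000000ae3000000000000000000000ae3000000000000
    0xacd000781000c150009090001210006d80006d80006d80007f9000fd1000bec 447 128 0x19ff5d17f002496255c5b7cacf93725
    (fun m => bor (Nat.beq m 0) (Nat.beq m 16777215)) = true := by decide +kernel
theorem classify [Finite G] (h : IF0 V ρ) : (∃ v, IF V ρ v ubA dcA) ∨ ∃ v, IF V ρ v ubB dcB := by
  obtain ⟨a, ha, ea, oa⟩ := h.lift (g := cAlpha) (k := 11) (by decide +kernel)
  obtain ⟨b, hb, eb, ob⟩ := h.lift (g := cBeta) (k := 5) (by decide +kernel)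
  obtain ⟨w, hw, w1⟩ := exists_ne_one (H := V ⊓ C[b]) fun e => by
    have := fix_sub (p := 11) (by norm_num) ob hb
    rw [e, h.cV, card_bot] at this
    revert this; decide
  have e := cjc (mem_cent1_symm.1 hw.2)
  by_cases k : EE a w 340830 = 1
  · refine .inr (cls h (fun σ _ g r m hm => ?_) mB ha hb ea eb oa hw.1 w1 e k)
    simp only [bor_iff, Nat.beq_eq] at hm
    rcases hm with rfl | rfl
    · rw [act_zero, D_zero]
    · rw [S_inj (r.lt_act _) (by norm_num) ((r.smul_S _).symm.trans (smul_S_all σ))]; decide +kernel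
  refine .inl (cls h (fun σ hσ g r m hm => ?_) mA ha hb ea eb oa (EE_mem h ha hw.1 _) k
    ((EE_dbl h ha hw.1 hb ea eb e _).trans (congrArg _ (by decide +kernel))) ?_)
  · have := isC_iff.1 ((S_mem_cw_iff (r.lt_act m)).1 (r.smul_S m ▸ smul_mem_cw hσ (S_mem_cw hm)))
    rw [← this, enc_eq_lin, map_lin _ (D_zero _) (D_xor _)]
    exact lin_induction (· = 0) rfl (fun a b h1 h2 => by simp [h1, h2]) _ _ (by decide +kernel) _
  · rw [← EE_KT h ha hw.1 oa, show KT 340830 8047776 = 8388607 by decide +kernel, ← mem_bot, ← (h.irr ha ea oa).1]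
    exact ⟨EE_mem h ha hw.1 _, mem_cent1_symm.1 (of_cjc ((EE_rot h ha hw.1 oa _).trans (congrArg _ (by decide +kernel))))⟩

end H10.RF
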