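import Cfsg.Agent.H10.RF.A2

/-! Subgroups given by tables, masks of fixed vectors, enumeration of elementary abelian subgroups. -/

set_option autoImplicit false
set_option linter.unusedSectionVars false
set_option linter.unusedVariables false
set_option maxRecDepth 100000
open Cfsg Subgroup H19 H0 H15
open scoped commutatorElement Pointwise
namespace H10.RF
local notation "cj" => H19.cj
variable {G : Type*} [Group G]

theorem cos_ub' [Finite G] {X Y : Subgroup G} (φ : G → ℕ) (S : Finset ℕ) (h1 : ∀ x ∈ X, φ x ∈ S)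
    (h2 : ∀ x ∈ X, ∀ y ∈ X, φ x = φ y → x⁻¹ * y ∈ Y) : #X ≤ S.card * #(X ⊓ Y) := by
  classical
  let r : ℕ → G := fun i => if h : ∃ x ∈ X, φ x = i then h.choose else 1
  have hr : ∀ x ∈ X, r (φ x) ∈ X ∧ φ (r (φ x)) = φ x := fun x hx => by
    have : ∃ y ∈ X, φ y = φ x := ⟨x, hx, rfl⟩
    simp only [r, dif_pos this]; exact this.choose_spec
  have := Nat.card_le_card_of_injective (fun x : X => ((⟨φ x, h1 _ x.2⟩, ⟨(r (φ x))⁻¹ * x, X.mul_mem (X.inv_mem (hr _ x.2).1) x.2,
    h2 _ (hr _ x.2).1 _ x.2 (hr _ x.2).2⟩) : S × (X ⊓ Y : Subgroup G))) fun p q e => by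
    have e1 : φ p = φ q := congrArg (fun z : S × (X ⊓ Y : Subgroup G) => (z.1 : ℕ)) e
    have e2 : (r (φ p))⁻¹ * p = (r (φ q))⁻¹ * q := congrArg (fun z : S × (X ⊓ Y : Subgroup G) => (z.2 : G)) e
    rw [e1] at e2
    exact Subtype.ext (mul_left_cancel e2)
  simpa using this
theorem adj {B : Subgroup G} {a x : G} (ha : a ∈ N(B)) (s : a * a ∈ B) (h : x ∈ B ⊔ zpowers a) : x ∈ B ∨ ∃ b ∈ B, x = a * b := by
  let X : Subgroup G := ⟨⟨⟨{x | x ∈ B ∨ ∃ b ∈ B, x = a * b}, by
    rintro x y (hx | ⟨b, hb, rfl⟩) (hy | ⟨c, hc, rfl⟩)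
    · exact .inl (mul_mem hx hy)
    · exact .inr ⟨_, mul_mem (conj_mem_of_norm' ha hx) hc, by group⟩
    · exact .inr ⟨_, mul_mem hb hy, mul_assoc _ _ _⟩
    · exact .inl (by convert mul_mem (mul_mem s (conj_mem_of_norm' ha hb)) hc using 1; group)⟩, .inl (one_mem _)⟩, by
    rintro x (hx | ⟨b, hb, rfl⟩)
    · exact .inl (inv_mem hx)
    · exact .inr ⟨_, mul_mem (conj_mem_of_norm' ha (inv_mem hb)) (inv_mem s), by group⟩⟩
  exact (sup_le (fun _ h => .inl h) (zpowers_le.2 (.inr ⟨1, one_mem _, by simp⟩)) : B ⊔ zpowers a ≤ X) h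
theorem adj_card [Finite G] {B : Subgroup G} {a : G} (ha : a ∈ N(B)) (s : a * a ∈ B) (n : a ∉ B) : #(B ⊔ zpowers a) = 2 * #B := by
  refine le_antisymm (cos_ub (fun i => if i = 0 then 1 else a) fun x hx => ?_) (cos_lb le_sup_left
    (fun i => if i = 0 then 1 else a) (fun i _ => ?_) fun i hi j hj => ?_)
  · rcases adj ha s hx with k | ⟨b, hb, rfl⟩
    exacts [⟨0, by decide, by simpa using k⟩, ⟨1, by decide, by simpa using hb⟩]
  · split_ifs
    exacts [one_mem _, mem_sup_right (mem_zpowers a)]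
  · interval_cases i <;> interval_cases j <;> simp [n]

variable {V : Subgroup G} {ρ : G → ℕ} {v : ℕ → G} {ub dc : ℕ} {A B X Y : Subgroup G} {a b c n w x y : G}
/-- entry of a table of short numbers -/
def g12 (T k : ℕ) : ℕ := getT T 12 4095 k
/-- a canonical code of an element of `M24` -/
noncomputable def okM (g : ℕ) : Bool := band (isM g) (Nat.beq (pmul g pid) g)
/-- the subgroup generated by lifts -/
def TG (V : Subgroup G) (ρ : G → ℕ) (gt m : ℕ) : Subgroup G := closure {a | a ∈ N(V) ∧ (ρ a = pid ∨ ∃ j < m, ρ a = getP gt j)}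
/-- the table of a subgroup -/
noncomputable def tchk (gt m tab n1 n2 nx pr srt : ℕ) : Bool :=
  band (band (allTo (fun j => okM (getP gt j)) m) (Nat.beq (getP tab 0) pid)) (allTo2 (fun k => force k fun k =>
    force (getP tab k) fun g => band (allTo (fun j => force (g12 nx (Nat.add (Nat.mul k m) j)) fun l =>
      band (Nat.blt l (Nat.mul n1 n2)) (force (getP gt j) fun a => Nat.beq (pmul g a) (getP tab l))) m)
    (band (bor (Nat.beq k 0) (force (g12 pr k) fun l => band (Nat.blt (Nat.div l m) k) (Nat.beq (g12 nx l) k)))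
      (band (Nat.blt (g12 srt k) (Nat.mul n1 n2)) (bor (Nat.beq k 0)
        (Nat.blt (getP tab (g12 srt (Nat.pred k))) (getP tab (g12 srt k))))))) n1 n2)
namespace IF0
variable [Finite G] (h : IF0 V ρ)
include h
theorem VT {gt m : ℕ} : V ≤ TG V ρ gt m := fun x hx =>
  Subgroup.subset_closure (by exact ⟨h.VN hx, .inl ((h.ker (h.VN hx)).2 hx)⟩)
theorem TN {gt m : ℕ} : TG V ρ gt m ≤ N(V) := (closure_le _).2 fun _ k => k.1
theorem memr (l : V ≤ X) (ha : a ∈ X) (na : a ∈ N(V)) (nb : b ∈ N(V)) (e : ρ a = ρ b) : b ∈ X := by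
  simpa using mul_mem ha (l ((h.eqv _ na _ nb).1 e))
theorem mulV (ha : a ∈ N(V)) (hb : b ∈ V) : ρ (a * b) = ρ a := ((h.eqv _ ha _ (mul_mem ha (h.VN hb))).2 (by simpa using hb)).symm
theorem Vmul (ha : a ∈ N(V)) (hb : b ∈ V) : ρ (b * a) = ρ a := by
  rw [show b * a = a * (a⁻¹ * b * a) by group, h.mulV ha (conj_mem_of_norm' ha hb)]
theorem tspec {gt m tab n1 n2 nx pr srt : ℕ} (d : tchk gt m tab n1 n2 nx pr srt = true) (p : 0 < n1 * n2) (pm : 0 < m) :
    (∀ a ∈ TG V ρ gt m, ∃ k < n1 * n2, ρ a = getP tab k) ∧ (∀ k < n1 * n2, ∃ a ∈ TG V ρ gt m, ρ a = getP tab k) ∧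
    #(TG V ρ gt m) = n1 * n2 * 2048 := by
  simp only [tchk, force_eq, band_iff, bor_iff, allTo_iff, allTo2_iff, Nat.beq_eq, Nat.blt_eq, Nat.mul_eq, Nat.add_eq, div_eq',
    Nat.pred_eq_sub_one] at d
  obtain ⟨⟨d1, d2⟩, d⟩ := d
  have h1 : ∀ a ∈ TG V ρ gt m, ∃ k < n1 * n2, ρ a = getP tab k := fun a ha =>
    (fin_ind (P := fun a => a ∈ N(V) ∧ ∃ k < n1 * n2, ρ a = getP tab k) ⟨one_mem _, 0, p, h.one.trans d2.symm⟩
      (fun x s hs ⟨hx, k, hk, e⟩ => ⟨mul_mem hx hs.1, by
        rcases hs.2 with e' | ⟨j, hj, e'⟩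
        · exact ⟨k, hk, (h.mulV hx ((h.ker hs.1).1 e')).trans e⟩
        · exact ⟨_, ((d k hk).1 j hj).1, by rw [h.mul _ hx _ hs.1, e, e', ((d k hk).1 j hj).2]⟩⟩) a ha).2
  have h2 : ∀ k < n1 * n2, ∃ a ∈ TG V ρ gt m, ρ a = getP tab k := fun k => by
    induction k using Nat.strong_induction_on with
    | _ k ih =>
      intro hk
      rcases (d k hk).2.1 with rfl | ⟨l, e⟩
      · exact ⟨1, one_mem _, h.one.trans d2.symm⟩
      obtain ⟨a, ha, ea⟩ := ih _ l (l.trans hk)
      have lj := Nat.mod_lt (g12 pr k) pm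
      obtain ⟨b, hb, eb⟩ := h.sur _ (d1 _ lj)
      refine ⟨a * b, mul_mem ha (Subgroup.subset_closure (by exact ⟨hb, .inr ⟨_, lj, eb⟩⟩)), ?_⟩
      rw [h.mul _ (h.TN ha) _ hb, ea, eb, ((d _ (l.trans hk)).1 _ lj).2, Nat.div_add_mod', e]
  refine ⟨h1, h2, ?_⟩
  choose! r r1 r2 using h2
  rw [← h.cV]
  refine le_antisymm (cos_ub r fun x hx => ?_) (cos_lb h.VT (fun k => r (g12 srt k)) (fun k hk => r1 _ (d k hk).2.2.1)
    fun i hi j hj e => ?_)
  · obtain ⟨k, hk, e⟩ := h1 x hx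
    exact ⟨k, hk, (h.eqv _ (h.TN (r1 k hk)) _ (h.TN hx)).1 ((r2 k hk).trans e.symm)⟩
  · have := (h.eqv _ (h.TN (r1 _ (d i hi).2.2.1)) _ (h.TN (r1 _ (d j hj).2.2.1))).2 e
    rw [r2 _ (d i hi).2.2.1, r2 _ (d j hj).2.2.1] at this
    have mono : StrictMonoOn (fun k => getP tab (g12 srt k)) (Set.Iio (n1 * n2)) := fun i hi j hj l => by
      induction j with
      | zero => omega
      | succ j ih =>
        have k := ((d _ hj).2.2.2).resolve_left (by omega)
        rcases Nat.lt_succ_iff_lt_or_eq.1 l with l | rfl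
        exacts [(ih (Nat.lt_of_succ_lt hj) l).trans k, k]
    exact mono.injOn hi hj this
end IF0

/-- all slots -/
def FULL : ℕ := Nat.div (Nat.pred (Nat.pow 4096 2048)) 4095
/-- number of filled slots -/
def cnt (x : ℕ) : ℕ := Nat.mod (Nat.land x FULL) 4095
/-- slot test -/
def sl (x i : ℕ) : Bool := tb x (Nat.mul 12 i)
theorem sl_eq (x i : ℕ) : sl x i = x.testBit (12 * i) := tb_eq _ _
theorem sl_and (x y i : ℕ) : sl (x &&& y) i = (sl x i && sl y i) := by simp only [sl_eq, Nat.testBit_and]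
theorem sl_FULL {i : ℕ} (h : i < 2048) : sl FULL i = true :=
  (allTo2_iff (fun i => sl FULL i) 32 64).1 (by decide +kernel) i h
theorem cnt_eq (x : ℕ) : cnt x = ((Finset.range 2048).filter fun i => sl x i = true).card := by
  have e : FULL = sumTo2 (fun i => Nat.pow 2 (Nat.mul 12 i)) 32 64 := by decide +kernel
  have k : ∀ n, ∑ i ∈ Finset.range n, 2 ^ (12 * i) < 2 ^ (12 * n) ∧ (x &&& ∑ i ∈ Finset.range n, 2 ^ (12 * i)) % 4095 =
      ((Finset.range n).filter fun i => sl x i = true).card % 4095 := fun n => by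
    induction n with
    | zero => simp
    | succ n ih =>
      rw [Finset.sum_range_succ, Finset.range_add_one, Finset.filter_insert, add_comm, mul_add, pow_add]
      refine ⟨by omega, ?_⟩
      have p : 2 ^ (12 * n) % 4095 = 1 := by rw [pow_mul, Nat.pow_mod]; simp
      have l := lt_of_le_of_lt (Nat.and_le_right (n := x)) ih.1
      have q : ∀ {b}, b < 2 ^ (12 * n) → 2 ^ (12 * n) + b = 2 ^ (12 * n) ||| b := fun hb => by
        simpa using Nat.two_pow_add_eq_or_of_lt hb 1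
      rw [q ih.1, Nat.and_or_distrib_left, Nat.and_two_pow, sl_eq]
      cases x.testBit (12 * n)
      · simpa using ih.2
      · rw [if_pos rfl, Finset.card_insert_of_notMem (by simp), Bool.toNat_true, one_mul, ← q l]
        omega
  have := (k 2048).2
  rw [Nat.mod_eq_of_lt (a := Finset.card _) (lt_of_le_of_lt (Finset.card_filter_le _ _) (by simp))] at this
  rw [cnt, e, sumTo2_eq]
  exact this
/-- doubling step -/
noncomputable def hs (f M k a : ℕ) : ℕ := Nat.lor a (Nat.shiftLeft (Bool.rec (motive := fun _ => ℕ) a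
  (Nat.xor a (Nat.mod FULL (Nat.pow 4096 (Nat.pow 2 k)))) (tb (cl11 M k) f)) (Nat.mul 12 (Nat.pow 2 k)))
/-- the vectors on which a linear form vanishes -/
noncomputable def hp (f k : ℕ) (M : ℕ) : ℕ := Nat.rec 1 (fun k acc => force acc (hs f M k)) k
theorem hp_spec (f M : ℕ) : ∀ k ≤ 11, hp f k M < 2 ^ (12 * 2 ^ k) ∧ ∀ i < 2 ^ k, sl (hp f k M) i = !(lin (cl11 M) k i).testBit f := by
  intro k
  induction k with
  | zero => exact fun _ => ⟨by simp [hp], fun i hi => by obtain rfl : i = 0 := by simpa using hi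
                                                         simp [hp, lin_zero]; rfl⟩
  | succ k ih =>
    intro hk
    obtain ⟨i1, i2⟩ := ih (by omega)
    have e : hp f (k + 1) M = hp f k M ||| (if (cl11 M k).testBit f then hp f k M ^^^ FULL % 2 ^ (12 * 2 ^ k) else hp f k M) <<<
      (12 * 2 ^ k) := by
      rw [show hp f (k + 1) M = force (hp f k M) (hs f M k) from rfl]
      simp [hs, brec_eq_ite, tb_eq, pow_mul]
    have l : (if (cl11 M k).testBit f then hp f k M ^^^ FULL % 2 ^ (12 * 2 ^ k) else hp f k M) < 2 ^ (12 * 2 ^ k) := by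
      split_ifs
      exacts [Nat.xor_lt_two_pow i1 (Nat.mod_lt _ (by positivity)), i1]
    rw [e]
    refine ⟨Nat.or_lt_two_pow (i1.trans (Nat.pow_lt_pow_right (by decide) (by rw [pow_succ]; have := Nat.two_pow_pos k; omega))) ?_,
      fun i hi => ?_⟩
    · rw [Nat.shiftLeft_eq, pow_succ, show 12 * (2 ^ k * 2) = 12 * 2 ^ k + 12 * 2 ^ k by ring, pow_add]
      exact Nat.mul_lt_mul_of_pos_right l (by positivity)
    rw [sl_eq, Nat.testBit_or, Nat.testBit_shiftLeft, lin_succ]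
    by_cases c : i < 2 ^ k
    · rw [← sl_eq, i2 i c, Nat.testBit_lt_two_pow c]; simp [show ¬ 12 * 2 ^ k ≤ 12 * i by omega]
    obtain ⟨j, rfl⟩ : ∃ j, i = 2 ^ k + j := ⟨i - 2 ^ k, by omega⟩
    have hj : j < 2 ^ k := by rw [pow_succ] at hi; omega
    have e2 : ∀ m ≤ k, lin (cl11 M) m (2 ^ k + j) = lin (cl11 M) m j := fun m hm => by
      induction m with
      | zero => rfl
      | succ m i => rw [lin_succ, lin_succ, i (by omega), Nat.testBit_two_pow_add_gt (by omega)]
    have f2 := sl_FULL (i := j) (hj.trans_le (Nat.pow_le_pow_right (by decide) (show k ≤ 11 by omega)))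
    have f3 := i2 j hj
    rw [sl_eq] at f2 f3
    rw [Nat.testBit_lt_two_pow (i1.trans_le (Nat.pow_le_pow_right (by decide) (by omega))), e2 k le_rfl,
      Nat.testBit_two_pow_add_eq, Nat.testBit_lt_two_pow hj, show 12 * (2 ^ k + j) - 12 * 2 ^ k = 12 * j by omega]
    cases c2 : (cl11 M k).testBit f <;> simp [Nat.testBit_xor, Nat.testBit_mod_two_pow, f2, f3, c2, hj]
/-- the identity matrix -/
def IDM : ℕ := 0x1001001001001001001001001001001
/-- the vectors fixed modulo the first `2 ^ z` ones -/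
noncomputable def fm (z M : ℕ) : ℕ := force (Nat.xor M IDM) fun M =>
  Nat.rec FULL (fun b acc => force acc fun a => Bool.rec (Nat.land a (hp b 11 M)) a (Nat.blt b z)) 11
theorem fm_spec (z M : ℕ) {i : ℕ} (h : i < 2048) : sl (fm z M) i = true ↔ mv M i ^^^ i < 2 ^ z := by
  have e : lin (cl11 (M ^^^ IDM)) 11 i = mv M i ^^^ i := by
    have e1 : ∀ j < 11, cl11 IDM j = 2 ^ j := by decide +kernel
    have : ∀ n ≤ 11, lin (cl11 (M ^^^ IDM)) n i = lin (cl11 M) n i ^^^ lin (fun j => 2 ^ j) n i := fun n hn => by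
      induction n with
      | zero => simp [lin_zero]
      | succ n ih =>
        rw [lin_succ, lin_succ, lin_succ, ih (by omega), ← e1 n (by omega)]
        split_ifs
        · simp only [cl11, getT, Nat.land_eq, Nat.shiftRight_eq, Nat.shiftRight_xor_distrib, Nat.and_xor_distrib_right]; ac_rfl
        · simp
    rw [this 11 le_rfl, lin_two_pow, mv_eq, Nat.mod_eq_of_lt (b := 2 ^ 11) h]
  have l : mv M i ^^^ i < 2 ^ 11 := Nat.xor_lt_two_pow (n := 11) (mv_lt _ _) h
  have : ∀ n, sl (Nat.rec FULL (fun b acc => force acc fun a => Bool.rec (Nat.land a (hp b 11 (M ^^^ IDM))) a (Nat.blt b z)) n) i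
      = true ↔ ∀ b < n, z ≤ b → (mv M i ^^^ i).testBit b = false := fun n => by
    induction n with
    | zero => simpa using sl_FULL h
    | succ n ih =>
      simp only [force_eq, brec_eq_ite, Nat.blt_eq, Nat.land_eq] at ih ⊢
      rw [Nat.forall_lt_succ_right, ← ih]
      split_ifs with c
      · simp [show ¬ z ≤ n by omega]
      · simp [sl_and, (hp_spec n _ 11 le_rfl).2 i h, e, show z ≤ n by omega]
  rw [fm, force_eq]
  refine (this 11).trans ⟨fun k => Nat.lt_pow_two_of_testBit _ fun b hb => ?_, fun k b _ hb =>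
    Nat.testBit_lt_two_pow (k.trans_le (Nat.pow_le_pow_right (by decide) hb))⟩
  by_cases c : b < 11
  exacts [k b c hb, Nat.testBit_lt_two_pow (l.trans_le (Nat.pow_le_pow_right (by decide) (by omega)))]
namespace VB
variable [Finite G] (h : VB V v)
include h
theorem v0 : v 0 = 1 := by simpa using h.vx 0 0
open Classical in
theorem card (l : X ≤ V) : #X = ((Finset.range 2048).filter fun i => v i ∈ X).card := by
  rw [← Set.ncard_coe_finset, ← Set.InjOn.ncard_image (f := v) fun i hi j hj => h.vi i (by simp at hi; exact hi.1) j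
    (by simp at hj; exact hj.1)]
  refine congrArg Set.ncard (Set.ext fun x => ⟨fun hx => ?_, by rintro ⟨i, hi, rfl⟩; simp at hi; exact hi.2⟩)
  obtain ⟨i, hi, rfl⟩ := h.vs x (l hx)
  exact ⟨i, by simpa using ⟨hi, hx⟩, rfl⟩
theorem cub {p : ℕ → Prop} [DecidablePred p] (l : X ≤ V) (k : ∀ i < 2048, v i ∈ X → p i) :
    #X ≤ ((Finset.range 2048).filter p).card := by
  rw [h.card l]
  exact Finset.card_le_card fun i hi => by simp at hi ⊢; exact ⟨hi.1, k i hi.1 hi.2⟩
theorem clb {p : ℕ → Prop} [DecidablePred p] (k : ∀ i < 2048, p i → v i ∈ X) : ((Finset.range 2048).filter p).card ≤ #X := by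
  refine le_trans ?_ (card_le (inf_le_left : X ⊓ V ≤ X))
  rw [h.card inf_le_right]
  exact Finset.card_le_card fun i hi => by simp at hi ⊢; exact ⟨hi.1, k i hi.1 hi.2, h.vm i⟩
theorem ubm {m : ℕ} (l : X ≤ V) (k : ∀ i < 2048, v i ∈ X → sl m i = true) : #X ≤ cnt m := cnt_eq m ▸ h.cub l k
theorem lbm {m : ℕ} (k : ∀ i < 2048, sl m i = true → v i ∈ X) : cnt m ≤ #X := cnt_eq m ▸ h.clb k
end VB

end H10.RF
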