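import Cfsg.Agent.H10.RF.B1

/-! A Sylow `2`-subgroup of `M24` and its elementary abelian subgroups. -/

set_option autoImplicit false
set_option linter.unusedSectionVars false
set_option linter.unusedVariables false
set_option maxRecDepth 100000
open Cfsg Subgroup H19 H0 H15
open scoped commutatorElement Pointwise
namespace H10.RF
local notation "cj" => H19.cj
variable {G : Type*} [Group G]

/-- mask of the values of a function -/
noncomputable def orTo (g : ℕ → ℕ) (n : ℕ) : ℕ := Nat.rec 0 (fun k acc => Nat.lor acc (Nat.pow 2 (g k))) n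
theorem orTo_spec {g : ℕ → ℕ} {n e : ℕ} : (orTo g n).testBit e = true ↔ ∃ k < n, g k = e := by
  induction n with
  | zero => simp [orTo]
  | succ n ih =>
    rw [show orTo g (n + 1) = orTo g n ||| 2 ^ g n from rfl, Nat.testBit_or, Bool.or_eq_true, ih, Nat.testBit_two_pow,
      Nat.exists_lt_succ_right]
    simp
/-- the elements of the next node -/
noncomputable def nel (r f els : ℕ) : ℕ :=
  pk (fun k => Bool.rec (motive := fun _ => ℕ) (g8 r (cl11 els (Nat.sub k f))) (cl11 els k) (Nat.blt k f)) (Nat.mul 2 f) 0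
/-- a number with varied last digits -/
def sx (x : ℕ) : ℕ := Nat.add (Nat.shiftLeft x 64) (Nat.mod x 18446744073709551557)
/-- removes the last digits -/
def un (x : ℕ) : ℕ := Nat.shiftRight x 64
theorem un_sx (x : ℕ) : un (sx x) = x := by
  simp only [un, sx, Nat.shiftRight_eq, Nat.add_eq, shiftLeft_eq'', mod_eq', Nat.shiftLeft_eq, Nat.shiftRight_eq_div_pow]
  omega
/-- position of the lowest bit -/
def lowb (m : ℕ) : ℕ := g8 0x62635364bb54306544bc7f557b31ac663d4538bd21801656507c353286ad2b67703e89465e396cbe0c22b0819d17a45700512e7daa36143329876aaea22c12681071733f078a75478f5f413a4d6d09bf260d8c2396b17782999e49181ca59158b4006152ba2f437e7aab3c3720154f34852a6f885d6b0baf9ca3002da9132869a1110f7206748e404c08258b957698481b90b360b942793b1f4e846e5c0a9b00a827a00e058d4b2494971ab2b8781e835b9aa79f044a9319b71d5aa60392b65902b5010000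
  (Nat.mod (Nat.shiftRight (Nat.add (Nat.xor m (Nat.sub m 1)) 1) 1) 197)
/-- loop over the bits of a number -/
noncomputable def allB (f : ℕ → Bool) (n : ℕ) : ℕ → Bool := Nat.rec (fun _ => false) (fun _ R m => bor (Nat.beq (un m) 0)
  (force (lowb (un m)) fun e => band (f e) (force (sx (Nat.xor (un m) (Nat.pow 2 e))) R))) n
theorem allB_spec {f : ℕ → Bool} {n : ℕ} : ∀ {m}, allB f n (sx m) = true → ∀ e, m.testBit e = true → f e = true := by
  induction n with
  | zero => intro m h; exact absurd h (by simp [allB])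
  | succ n ih =>
    intro m h e he
    rw [show allB f (n + 1) (sx m) = bor (Nat.beq (un (sx m)) 0) (force (lowb (un (sx m))) fun e => band (f e)
      (force (sx (Nat.xor (un (sx m)) (Nat.pow 2 e))) (allB f n))) from rfl] at h
    simp only [bor_iff, band_iff, force_eq, un_sx, Nat.beq_eq, xor_eq', Nat.pow_eq] at h
    rcases h with rfl | h
    · simp at he
    by_cases c : lowb m = e
    exacts [c ▸ h.1, ih h.2 e (by simp [he, Nat.testBit_two_pow, c])]
/-- removes bits -/
def rmv (x y : ℕ) : ℕ := Nat.xor (Nat.lor x y) y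
/-- one node -/
noncomputable def dst (FT : ℕ → ℕ) (P : ℕ → ℕ → ℕ → Bool) (R : ℕ → ℕ → ℕ → ℕ → ℕ → Bool) (f els fmk cand fix : ℕ) : Bool :=
  band (P f (un fmk) (un fix)) (allB (fun e =>
    (force (rmu e) fun r => bimp (allTo (fun k => Nat.ble e (g8 r (cl11 (un els) k))) f) (force (sx (nel r f (un els))) fun els' =>
      force (Nat.mul 2 f) fun f' => force (sx (orTo (cl11 (un els')) f')) fun fm' =>
      force (sx (rmv (Nat.land (un cand) (rcm e)) (Nat.lor (un fm') (Nat.sub (Nat.pow 2 e) 1)))) fun cand' =>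
      force (sx (Nat.land (un fix) (FT e))) fun fix' => R f' els' fm' cand' fix'))) 193 cand)
/-- enumeration of the elementary abelian subgroups -/
noncomputable def dfs (FT : ℕ → ℕ) (P : ℕ → ℕ → ℕ → Bool) (fuel : ℕ) : ℕ → ℕ → ℕ → ℕ → ℕ → Bool :=
  Nat.rec (fun _ _ _ _ _ => false) (fun _ R => dst FT P R) fuel

variable {V : Subgroup G} {ρ : G → ℕ} {v : ℕ → G} {ub dc : ℕ} {A B X Y : Subgroup G} {a b c n w x y : G}
local notation "T" => TG V ρ gT 4
namespace IF0
variable [Finite G] (h : IF0 V ρ)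
include h
theorem cT : #T = 2 ^ 21 := (h.tspec ckT (by decide) (by decide)).2.2
theorem pT : PG 2 T := PiN.of_card_pow Nat.prime_two h.cT
theorem sT : Syl 2 T N(V) := syl_mk h.TN h.pT (by
  have := card_mul_relIndex (h.TN (gt := gT) (m := 4))
  rw [h.cT, h.card] at this
  omega)
theorem exT (ha : a ∈ T) : ∃ k < 1024, ρ a = getP tT k := (h.tspec ckT (by decide) (by decide)).1 a ha
theorem mT (ha : a ∈ N(V)) {k : ℕ} (hk : k < 1024) (e : ρ a = getP tT k) : a ∈ T := by
  obtain ⟨b, hb, eb⟩ := (h.tspec ckT (by decide) (by decide)).2.1 k hk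
  exact h.memr h.VT hb (h.TN hb) ha (eb.trans e.symm)
theorem exI (ha : a ∈ T) (s : a * a ∈ V) : ∃ e < 192, ρ a = getP tI e := by
  obtain ⟨k, hk, e⟩ := h.exT ha
  have := (allTo2_iff _ _ _).1 ckI k hk
  simp only [force_eq, bimp_iff, band_iff, Nat.beq_eq, Nat.blt_eq] at this
  rw [← e, ← h.mul _ (h.TN ha) _ (h.TN ha), h.ker (h.TN (mul_mem ha ha))] at this
  exact ⟨_, this s⟩
theorem cmul (ha : a ∈ N(V)) (hb : b ∈ N(V)) (k : ⁅a, b⁆ ∈ V) : pmul (ρ a) (ρ b) = pmul (ρ b) (ρ a) := by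
  rw [← h.mul _ ha _ hb, ← h.mul _ hb _ ha, ← h.Vmul (mul_mem hb ha) k]; congr 1; simp [commutatorElement_def, mul_assoc]
end IF0
namespace IF
variable [Finite G] (h : IF V ρ v ub dc)
include h
theorem dfs_sound {FT : ℕ → ℕ} {P : ℕ → ℕ → ℕ → Bool} (hF : ∀ e < 192, FT e = fm 0 (mt ub dc (getP tI e)))
    (hA : A ≤ T) (s : ∀ a ∈ A, a * a ∈ V) (fuel : ℕ) : ∀ {f els fmk cand fix : ℕ} {B : Subgroup G}, V ≤ B → B ≤ A →
    #B = f * 2048 → (∀ k < f, cl11 els k < 192 ∧ ∃ b ∈ B, ρ b = getP tI (cl11 els k)) →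
    (∀ b ∈ B, ∃ k < f, ρ b = getP tI (cl11 els k)) → (∀ e, fmk.testBit e = true → e < 192 ∧ ∃ b ∈ B, ρ b = getP tI e) →
    (∀ a ∈ A, a ∉ B → ∀ e < 192, ρ a = getP tI e → cand.testBit e = true) → (∀ i < 2048, v i ∈ C(B) → sl fix i = true) →
    dfs FT P fuel f (sx els) (sx fmk) (sx cand) (sx fix) = true → ∃ f fmk fix, P f fmk fix = true ∧ #A = f * 2048 ∧
      (∀ e, fmk.testBit e = true → e < 192 ∧ ∃ b ∈ A, ρ b = getP tI e) ∧ ∀ i < 2048, v i ∈ C(A) → sl fix i = true := by
  classical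
  have AN := hA.trans h.TN
  have cm' : ∀ a ∈ A, ∀ b ∈ A, ⁅a, b⁆ ∈ V := fun a ha b hb => by
    convert mul_mem (mul_mem (s _ (mul_mem ha hb)) (conj_mem_of_norm' (AN hb) (s _ (inv_mem ha)))) (s _ (inv_mem hb)) using 1
    simp only [commutatorElement_def]; group
  induction fuel with
  | zero => intro _ _ _ _ _ _ _ _ _ _ _ _ _ _ d; exact absurd d (by simp [dfs])
  | succ fuel ih =>
    intro f els fmk cand fix B l1 l2 c k1 k2 k3 k4 k5 d
    rw [show dfs FT P (fuel + 1) = dst FT P (dfs FT P fuel) from rfl, dst, band_iff] at d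
    replace d := And.intro d.1 (allB_spec d.2)
    simp only [band_iff, allTo_iff, bimp_iff, force_eq, tb_eq, Nat.ble_eq, Nat.mul_eq, Nat.pow_eq, Nat.land_eq, Nat.lor_eq,
      xor_eq', Nat.sub_eq, un_sx, rmv] at d
    by_cases e : B = A
    · exact ⟨f, fmk, fix, d.1, e ▸ c, e ▸ k3, e ▸ k5⟩
    have ex : ∃ e, e < 192 ∧ ∃ a ∈ A, a ∉ B ∧ ρ a = getP tI e := by
      obtain ⟨a, ha, n⟩ := SetLike.exists_of_lt (lt_of_le_of_ne l2 e)
      obtain ⟨e, he, k⟩ := h.exI (hA ha) (s a ha)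
      exact ⟨e, he, a, ha, n, k⟩
    obtain ⟨he, a, ha, na, ea⟩ := Nat.find_spec ex
    have mn := fun e k => Nat.find_min' ex (m := e) k
    generalize Nat.find ex = e at he ea mn
    have aB : a ∈ N(B) := mem_norm_of_cj_le fun y hy => by
      obtain ⟨y, k, rfl⟩ := mem_cj'.1 hy
      exact cjcm a y ▸ mul_mem (l1 (cm' _ ha _ (l2 k))) k
    have mu : ∀ b ∈ A, ∀ x < 192, ρ b = getP tI x → (rcm e).testBit x = true ∧ g8 (rmu e) x < 192 ∧
        ρ (a * b) = getP tI (g8 (rmu e) x) := fun b hb x hx k => by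
      rw [h.mul _ (AN ha) _ (AN hb), ea, k]
      exact mu_spec he hx (by rw [← ea, ← k]; exact h.cmul (AN ha) (AN hb) (cm' _ ha _ hb))
    have ne : ∀ k < 2 * f, cl11 (nel (rmu e) f els) k = if k < f then cl11 els k else g8 (rmu e) (cl11 els (k - f)) :=
      fun k hk => by
        rw [nel, Nat.mul_eq, cl11_pk (fun j => ?_) _ _ hk]
        · simp [brec_eq_ite]
        · rw [brec_eq_ite]
          split_ifs
          exacts [cl11_lt _ _, (g8_lt _ _).trans (by decide)]
    have ma : a ∈ B ⊔ zpowers a := mem_sup_right (mem_zpowers a)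
    have l3 : B ⊔ zpowers a ≤ A := sup_le l2 (zpowers_le.2 ha)
    have k1' : ∀ k < 2 * f, cl11 (nel (rmu e) f els) k < 192 ∧ ∃ b ∈ B ⊔ zpowers a, ρ b = getP tI (cl11 (nel (rmu e) f els) k) :=
      fun k hk => by
        rw [ne k hk]
        split_ifs with c
        · exact ⟨(k1 k c).1, (k1 k c).2.imp fun b hb => ⟨mem_sup_left hb.1, hb.2⟩⟩
        · obtain ⟨q, b, hb, eb⟩ := k1 (k - f) (by omega)
          exact ⟨(mu b (l2 hb) _ q eb).2.1, _, mul_mem ma (mem_sup_left hb), (mu b (l2 hb) _ q eb).2.2⟩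
    have k3' : ∀ x, (orTo (cl11 (nel (rmu e) f els)) (2 * f)).testBit x = true → x < 192 ∧ ∃ b ∈ B ⊔ zpowers a, ρ b = getP tI x :=
      fun x hx => by
        obtain ⟨k, hk, rfl⟩ := orTo_spec.1 hx
        exact k1' k hk
    refine ih (l1.trans le_sup_left) l3 (by rw [adj_card aB (l1 (s a ha)) na, c, mul_assoc]) k1' (fun b hb => ?_) k3'
      (fun b hb nb x hx eb => ?_) (fun i hi k => ?_) (d.2 e (k4 a ha na e he ea) fun k hk => ?_)
    · rcases adj aB (l1 (s a ha)) hb with k | ⟨b, k, rfl⟩ <;> obtain ⟨j, hj, ej⟩ := k2 b k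
      · exact ⟨j, by omega, by rw [ne j (by omega), if_pos hj, ej]⟩
      · exact ⟨f + j, by omega, by
          rw [ne _ (by omega), if_neg (by omega), Nat.add_sub_cancel_left, (mu b (l2 k) _ (k1 j hj).1 ej).2.2]⟩
    · have n1 := fun k => nb (mem_sup_left k)
      have n2 : (orTo (cl11 (nel (rmu e) f els)) (2 * f)).testBit x = false := Bool.eq_false_iff.2 fun k => by
        obtain ⟨-, c, hc, ec⟩ := k3' x k
        exact nb (h.memr (l1.trans le_sup_left) hc (AN (l3 hc)) (AN hb) (ec.trans eb.symm))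
      have := mn x ⟨hx, b, hb, n1, eb⟩
      simp [Nat.testBit_xor, n2, k4 b hb n1 x hx eb, (mu b hb x hx eb).1, show ¬ x < e by omega]
    · rw [sl_and, k5 i hi (cent_mono le_sup_left k), hF e he, (fm_spec _ _ hi).2, Bool.and_self]
      have := (h.ac a (AN ha) i).symm.trans (cjc (mem_cent1_symm.1 (cent_le_cent1 ma k)))
      rw [← ea, h.vi _ (mv_lt _ _) _ hi this]; simp
    · obtain ⟨q, b, hb, eb⟩ := k1 k hk
      exact mn _ ⟨(mu b (l2 hb) _ q eb).2.1, _, mul_mem ha (l2 hb), fun k => na ((Subgroup.mul_mem_cancel_right _ hb).1 k),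
        (mu b (l2 hb) _ q eb).2.2⟩
end IF

/-- packing of long masks -/
noncomputable def pkW (f : ℕ → ℕ) (n : ℕ) : ℕ := Nat.rec 0 (fun k acc => force acc fun a => Nat.add a (Nat.shiftLeft (f k)
  (Nat.mul 24576 k))) n
/-- the involutions with small fixed space -/
def B2 : ℕ := 0x7eeeee0beeefafade7ebef6de0f6f6fc07ebe00000000001
/-- the property of the elementary abelian subgroups -/
noncomputable def PP (fl : Bool) (D2 f fmk fix : ℕ) : Bool := force (cnt (Nat.land fix D2)) fun c =>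
  band (band (bor (Nat.beq f 1) (Nat.blt (Nat.mul f (cnt fix)) 2048)) (bimp (Nat.beq (Nat.lor fmk B2) B2) (Nat.ble f 8)))
  (band (band (bimp (Nat.ble 8 c) (Nat.ble f 16)) (bimp (Nat.ble 4 c) (Nat.ble f 32))) (band (Nat.ble f 64)
    (bimp (Nat.ble 16 c) (bor fl (Nat.blt (Nat.mul (Nat.mul f f) c) 4096)))))
/-- vectors of the second kind modulo the first basis vector -/
noncomputable def d2 (ty i : ℕ) : Bool := bnot (band (tb ty i) (tb ty (Nat.xor i 1)))
/-- the check of all elementary abelian subgroups -/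
noncomputable def echk (ub dc ty : ℕ) (fl : Bool) : Bool :=
  force (pkW (fun e => fm 0 (mt ub dc (getP tI e))) 192) fun FT => force (Nat.pred (Nat.pow 2 24576)) fun mk =>
  force (sumTo2 (fun i => Bool.rec 0 (Nat.pow 2 (Nat.mul 12 i)) (d2 ty i)) 32 64) fun D2 =>
  band (band (allTo (fun e => force (getT FT 24576 mk e) fun m => band (Nat.beq m (fm 0 (mt ub dc (getP tI e))))
    (bor (tb B2 e) (Nat.blt 64 (cnt m)))) 192) (allTo2 (fun i => bimp (d2 ty i) (sl D2 i)) 32 64))
    (dfs (getT FT 24576 mk) (PP fl D2) 8 1 (sx 0) (sx 1) (sx (Nat.sub (Nat.pow 2 192) 2)) (sx FULL))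
/-- orbits on vectors -/
noncomputable def tychk (ub dc ty dp d0 : ℕ) : Bool :=
  force (mt ub dc cAlpha) fun M1 => force (mt ub dc cGamma) fun M2 => force (mt ub dc cDelta) fun M3 =>
  band (band (band (tb ty 1) (Nat.blt d0 2048)) (band (bnot (tb ty 0)) (bnot (tb ty d0)))) (allTo2 (fun i => force i fun i =>
    band (allL (fun M => Nat.beq (getT ty 1 1 (mv M i)) (getT ty 1 1 i)) [M1, M2, M3]) (bor (memL i [0, 1, d0])
      (anyL (fun M => Nat.blt (getT dp 5 31 (mv M i)) (getT dp 5 31 i)) [M1, M2, M3]))) 32 64)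
/-- an involution above a given one -/
noncomputable def l2chk (ub dc r g IM Pm : ℕ) : Bool := band (band (Nat.beq (pmul r r) pid) (Nat.beq (pmul g r) (pmul r g)))
  (force (mt ub dc r) fun Mr => force (mt ub dc g) fun Mg => allTo2 (fun i => force i fun i => band (tb IM (Nat.xor (mv Mr i) i))
    (bimp (Nat.beq (mv Mr i) i) (bimp (tb IM (Nat.xor (mv Mg i) i)) (force (mv Pm i) fun j => Nat.beq (Nat.xor (mv Mr j) j) i)))) 32 64)
/-- the checks on a module -/
structure MD (ub dc ty dp d0 : ℕ) (fl : Bool) : Prop where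
  e : echk ub dc ty fl = true
  t : tychk ub dc ty dp d0 = true
  s : allTo (fun j => Nat.beq (mv (mt ub dc (getP gT j)) 1) 1) 4 = true
  q : ∃ i < 2048, i ≠ 1 ∧ tb ty i = true ∧ tb ty (i ^^^ 1) = true
  l : ∃ r g IM Pm, r ≠ pid ∧ okM r = true ∧ okM g = true ∧ l2chk ub dc r g IM Pm = true
  p : fl = true → allTo2 (fun i => force i fun i => bimp (bnot (tb ty i)) (bimp (bnot (tb ty (Nat.xor i d0))) (bor (memL i [0, d0])
    (allTo2 (fun j => force j fun j => bor (bor (tb ty j) (tb ty (Nat.xor j d0))) (bor (bor (tb ty (Nat.xor j i))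
      (tb ty (Nat.xor (Nat.xor j i) d0))) (memL j [0, d0, i, Nat.xor i d0]))) 32 64)))) 32 64 = true

end H10.RF
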