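import Cfsg.Agent.H10.RF.B2

/-! Weak closure, fusion, and the case that the centralizer of a central involution normalizes `V`. -/

set_option autoImplicit false
set_option linter.unusedSectionVars false
set_option linter.unusedVariables false
set_option maxRecDepth 100000
open Cfsg Subgroup H19 H0 H15
open scoped commutatorElement Pointwise
namespace H10.RF
local notation "cj" => H19.cj
variable {G : Type*} [Group G] [Finite G]

section
variable {H T A B E Z X : Subgroup G} {a b d g : G}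
theorem zp2 (h : a * a = 1) : b ∈ zpowers a ↔ b = 1 ∨ b = a :=
  ⟨fun k => (adj (B := ⊥) (norm_bot.ge (mem_top _)) h (mem_sup_right k)).imp mem_bot.1 fun ⟨c, k, e⟩ => by
    simpa [mem_bot.1 k] using e, by rintro (rfl | rfl); exacts [one_mem _, mem_zpowers _]⟩
theorem cmsq (nz : A ≤ N(Z)) (s : ∀ a ∈ A, a * a ∈ Z) (ha : a ∈ A) (hb : b ∈ A) : ⁅a, b⁆ ∈ Z := by
  convert mul_mem (mul_mem (s _ (mul_mem ha hb)) (conj_mem_of_norm' (nz hb) (s _ (inv_mem ha)))) (s _ (inv_mem hb)) using 1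
  simp only [commutatorElement_def]; group
theorem nrm (nz : A ≤ N(Z)) (s : ∀ a ∈ A, a * a ∈ Z) (l1 : Z ≤ X) (l2 : X ≤ A) : A ≤ N(X) := fun a ha =>
  mem_norm_of_cj_le fun y hy => by
    obtain ⟨y, k, rfl⟩ := mem_cj'.1 hy
    exact cjcm a y ▸ mul_mem (l1 (cmsq nz s ha (l2 k))) k
theorem sqcj (nz : g ∈ N(Z)) (s : ∀ a ∈ A, a * a ∈ Z) : ∀ a ∈ cj g A, a * a ∈ Z := fun x hx => by
  obtain ⟨w, hw, rfl⟩ := mem_cj'.1 hx
  exact cjmul g w w ▸ conj_mem_of_norm nz (s w hw)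
/-- the setting of the pushing argument -/
structure PLs (H T A Z : Subgroup G) : Prop where
  sT : Syl 2 T H
  AT : A ≤ T
  TA : T ≤ N(A)
  ZA : Z ≤ A
  HZ : H ≤ N(Z)
  sq : ∀ a ∈ A, a * a ∈ Z
  wc : ∀ g ∈ H, cj g A ≤ T → cj g A = A
/-- a maximal bad pair -/
structure Bad (H A : Subgroup G) (g d : G) : Prop where
  hg : g ∈ H
  hd : d ∈ cj g A
  nd : d ∈ N(A)
  n : d ∉ A
  mx : ∀ g' ∈ H, ∀ d' ∈ cj g' A, d' ∈ N(A) → d' ∉ A → #(A ⊓ cj g' A) ≤ #(A ⊓ cj g A)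
theorem exBad (hg : g ∈ H) (hd : d ∈ cj g A) (nd : d ∈ N(A)) (n : d ∉ A) : ∃ g d, Bad H A g d := by
  obtain ⟨p, hp, mx⟩ := Set.exists_max_image {p : G × G | p.1 ∈ H ∧ p.2 ∈ cj p.1 A ∧ p.2 ∈ N(A) ∧ p.2 ∉ A}
    (fun p => #(A ⊓ cj p.1 A)) (Set.toFinite _) ⟨(g, d), hg, hd, nd, n⟩
  exact ⟨p.1, p.2, hp.1, hp.2.1, hp.2.2.1, hp.2.2.2, fun g' h1 d' h2 h3 h4 => mx (g', d') ⟨h1, h2, h3, h4⟩⟩
namespace PLs
variable (h : PLs H T A Z)
include h
theorem AH : A ≤ H := h.AT.trans h.sT.le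
theorem Zc (hg : g ∈ H) : Z ≤ cj g A := cj_of_mem_norm (h.HZ hg) ▸ cj_mono g h.ZA
theorem nA (l1 : Z ≤ X) (l2 : X ≤ A) : A ≤ N(X) := nrm (h.AH.trans h.HZ) h.sq l1 l2
theorem nC (hg : g ∈ H) (l1 : Z ≤ X) (l2 : X ≤ cj g A) : cj g A ≤ N(X) :=
  nrm ((cj_le_of_mem hg h.AH).trans h.HZ) (sqcj (h.HZ hg) h.sq) l1 l2
theorem step (b : Bad H A g d) : ∃ k ∈ H, cj k (A ⊓ cm (A ⊓ cj g A) {d}) ≤ T ∧ A ⊓ cj k A = cj k (A ⊓ cj g A) := by
  have zb : Z ≤ A ⊓ cj g A := le_inf h.ZA (h.Zc b.hg)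
  have l : (A ⊓ cj g A) ⊔ zpowers d ≤ cj g A := sup_le inf_le_right (zpowers_le.2 b.hd)
  have pA := h.sT.pi.of_le h.AT
  obtain ⟨R, sR, lR⟩ := (pA.J g).exists_syl (le_inf (cj_le_of_mem b.hg h.AH) (h.nC b.hg (zb.trans le_sup_left) l))
  obtain ⟨k, hk, e⟩ := sR.scj_le (K := A ⊓ cm (A ⊓ cj g A) {d}) (le_inf (inf_le_left.trans h.AH) fun e he =>
    mem_norm_of_cj_le (by
      rw [cj_sup, cj_zpowers, cj_of_mem_norm he.2.1, cjcm]
      exact sup_le le_sup_left (zpowers_le.2 (mul_mem (mem_sup_left (mem_cm1.1 he.2).2) (mem_sup_right (mem_zpowers d))))))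
    (pA.infl _)
  obtain ⟨u, hu, e1⟩ := h.sT.scj_le (sR.le.trans inf_le_left) sR.pi
  have e2 : cj u (cj g A) = A := by rw [cj_cj]; exact h.wc _ (mul_mem hu b.hg) (cj_cj u g A ▸ (cj_mono u lR).trans e1)
  have e3 : cj (u * k) ((A ⊓ cj g A) ⊔ zpowers d) ≤ A := by rw [cj_mul, cj_of_mem_norm hk.2]; exact (cj_mono u l).trans e2.le
  refine ⟨_, mul_mem hu hk.1, cj_mul u k _ ▸ (cj_mono u e).trans e1, (eq_of_le_of_card_ge (le_inf ((cj_mono _ le_sup_left).trans e3)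
    (cj_mono _ inf_le_left)) ?_).symm⟩
  have := b.mx _ (inv_mem (mul_mem hu hk.1)) d (mem_cj_inv.2 (e3 (conj_mem_cj.2 (mem_sup_right (mem_zpowers d))))) b.nd b.n
  rwa [← card_cj (u * k), cj_inf, cj_cj_inv, inf_comm, ← card_cj (u * k) (A ⊓ cj g A)] at this
theorem main (b : Bad H A g d) : ∃ k ∈ H, ∃ E, E ≤ T ∧ E ≤ cj k A ∧ A ⊓ cj k A ≤ E ∧ #E = #(A ⊓ cm (A ⊓ cj g A) {d}) ∧
    #(A ⊓ cj k A) = #(A ⊓ cj g A) ∧ #A * #(A ⊓ cj k A) ≤ #E * #E ∧ ¬ E ≤ A ∧ ∀ e ∈ E, e ∉ A → Bad H A k e := by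
  obtain ⟨k, hk, l, e⟩ := h.step b
  have zb : Z ≤ A ⊓ cj g A := le_inf h.ZA (h.Zc b.hg)
  have dB := h.nC b.hg zb inf_le_right b.hd
  have q := lbq inf_le_left (h.nA zb inf_le_left) (fun a ha => zb (h.sq a ha)) dB b.nd (zb (sqcj (h.HZ b.hg) h.sq d b.hd))
  have c : #(A ⊓ cj k A) = #(A ⊓ cj g A) := by rw [e, card_cj]
  refine ⟨k, hk, _, l, cj_mono k inf_le_left, e ▸ cj_mono k (le_inf inf_le_left (le_cm1 dB)), card_cj _ _, c,
    by rwa [c, card_cj], fun n => b.n ?_, fun e he n => ⟨hk, cj_mono k inf_le_left he, h.TA (l he), n, c ▸ b.mx⟩⟩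
  have c2 := card_le (le_inf n (cj_mono k inf_le_left))
  rw [c, card_cj] at c2
  have := eq_of_le_of_card_ge (inf_le_left : A ⊓ cj g A ≤ A) (Nat.le_of_mul_le_mul_right (q.trans (Nat.mul_le_mul c2 c2)) (card_pos _))
  exact eq_of_le_of_card_eq (inf_eq_left.1 this) (card_cj g A).symm ▸ b.hd
theorem scl (n : ∀ g d, ¬ Bad H A g d) : ∀ g ∈ H, ∀ d ∈ cj g A, d ∈ N(A) → d ∈ A := fun g hg d hd nd => by
  by_contra k
  obtain ⟨g, d, b⟩ := exBad hg hd nd k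
  exact n g d b
theorem SC (n : ∀ g d, ¬ Bad H A g d) : H17.GS.SCl A H := ⟨h.AH, h.sT.pi.of_le h.AT, fun P p l a ha g hg k => by
  obtain ⟨u, hu, e⟩ := h.sT.scj_le (K := P ⊓ H) inf_le_right (p.infl _)
  have e1 := mem_norm_iff_cj.2 (h.wc u hu ((cj_mono u (le_inf l h.AH)).trans e))
  refine h.scl n g hg _ (conj_mem_cj.2 ha) ?_
  simpa [mul_assoc] using conj_mem_of_norm' (norm_le_norm_norm _ e1) (h.TA (e (conj_mem_cj.2 (mem_inf.2 ⟨k, mul_mem (mul_mem hg (h.AH ha))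
    (inv_mem hg)⟩))))⟩
end PLs
end

variable {V : Subgroup G} {ρ : G → ℕ} {v : ℕ → G} {ub dc ty dp d0 : ℕ} {fl : Bool} {A B X Y P : Subgroup G} {a b c g n w x y : G}
  {i j : ℕ}
local notation "T" => TG V ρ gT 4
local notation:max "Ai" n:max i:max => mv (mt ub dc (ρ n)) i
namespace IF
variable (h : IF V ρ v ub dc)
include h
theorem acg {g : ℕ} (hn : n ∈ N(V)) (e : ρ n = g) (i : ℕ) : n * v i * n⁻¹ = v (mv (mt ub dc g) i) := e ▸ h.ac n hn i
theorem vv (i : ℕ) : v i * v i = 1 := h.sq _ (h.vm i)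
theorem vinv (i : ℕ) : (v i)⁻¹ = v i := inv_eq_of_mul_eq_one_right (h.vv i)
theorem v1 (hi : i < 2048) : v i = 1 ↔ i = 0 := ⟨fun e => h.vi _ hi _ (by decide) (e.trans h.v0.symm), fun e => e ▸ h.v0⟩
theorem cmv (hn : n ∈ N(V)) (i : ℕ) : ⁅n, v i⁆ = v (Ai n i ^^^ i) := by rw [commutatorElement_def, h.ac n hn, h.vinv, h.vx]
theorem fixi (hn : n ∈ N(V)) (hi : i < 2048) : n ∈ C[v i] ↔ Ai n i = i :=
  ⟨fun e => h.vi _ (mv_lt _ _) _ hi ((h.ac n hn i).symm.trans (cjc e)), fun e => of_cjc ((h.ac n hn i).trans (congrArg v e))⟩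
theorem Amul (ha : a ∈ N(V)) (hb : b ∈ N(V)) (i : ℕ) : Ai (a * b) i = Ai a (Ai b i) :=
  h.vi _ (mv_lt _ _) _ (mv_lt _ _) ((h.ac _ (mul_mem ha hb) i).symm.trans ((h.ac a ha).mul (h.ac b hb) i))
theorem lift2 {r g IM Pm : ℕ} (d : l2chk ub dc r g IM Pm = true) (hn : n ∈ N(V)) (e : ρ n = r) (o : okM g = true) :
    ∃ j, v j * n * (v j * n) = 1 := by
  simp only [l2chk, force_eq, band_iff, bimp_iff, allTo2_iff, Nat.beq_eq, xor_eq', tb_eq] at d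
  obtain ⟨k, hk, ek⟩ := h.sur g o
  obtain ⟨i, hi, ei⟩ := h.vs _ ((h.ker (mul_mem hn hn)).1 (by rw [h.mul _ hn _ hn, e, d.1.1]))
  obtain ⟨j, hj, ej⟩ := h.vs _ (conj_mem_of_norm (mul_mem hn hk) ((h.eqv _ (mul_mem hn hk) _ (mul_mem hk hn)).1 (by
    rw [h.mul _ hn _ hk, h.mul _ hk _ hn, e, ek, d.1.2])))
  have q : ∀ j, v j * n * (v j * n) = v (mv (mt ub dc r) j ^^^ j ^^^ i) := fun j => by
    rw [Nat.xor_comm _ j, h.vx, h.vx, ← h.acg hn e, ei]; group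
  have lt : mv (mt ub dc r) j ^^^ j ^^^ i < 2 ^ 11 := Nat.xor_lt_two_pow (Nat.xor_lt_two_pow (mv_lt _ _) hj) hi
  have e1 := h.vi _ (mv_lt _ _) _ lt ((h.acg hk ek i).symm.trans (by rw [← q, ej, ei]; group))
  have e2 := (d.2 i hi).2 (e ▸ (h.fixi hn hi).1 (ei ▸ mem_cent1.2 (mul_assoc _ _ _).symm)) (by
    rw [e1, Nat.xor_assoc, Nat.xor_self, Nat.xor_zero]; exact (d.2 j hj).1)
  exact ⟨_, by rw [q, e2, Nat.xor_self, h.v0]⟩
variable (m : MD ub dc ty dp d0 fl)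
include m
theorem ea (l : V ≤ A) (hA : A ≤ T) (s : ∀ a ∈ A, a * a ∈ V) : ∃ f c, #A = f * 2048 ∧ (f = 1 ∨ f * #(V ⊓ C(A)) < 2048) ∧
    ((∀ a ∈ A, a ∉ V → #(V ⊓ C[a]) ≤ 64) → f ≤ 8) ∧ (∀ B ≤ V ⊓ C(A), (∀ i < 2048, v i ∈ B → d2 ty i = true) → #B ≤ c) ∧
    (8 ≤ c → f ≤ 16) ∧ (4 ≤ c → f ≤ 32) ∧ f ≤ 64 ∧ (16 ≤ c → fl = true ∨ f * f * c < 4096) := by
  have d := m.e
  simp only [echk, force_eq, band_iff, bor_iff, bimp_iff, allTo_iff, allTo2_iff, Nat.beq_eq, Nat.blt_eq, tb_eq, Nat.mul_eq] at d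
  obtain ⟨⟨d1, d2'⟩, d3⟩ := d
  have z : getP tI 0 = pid := by decide +kernel
  obtain ⟨f, fmk, fix, p, c, k1, k2⟩ := h.dfs_sound (fun e he => (d1 e he).1) hA s 8 le_rfl l (by rw [h.cV])
    (fun k hk => by obtain rfl : k = 0 := by omega
                    exact ⟨by decide, 1, one_mem _, h.one.trans z.symm⟩)
    (fun b hb => ⟨0, by decide, by exact ((h.ker (h.VN hb)).2 hb).trans z.symm⟩)
    (fun e he => by obtain rfl : e = 0 := Nat.testBit_one_eq_true_iff_self_eq_zero.1 he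
                    exact ⟨by decide, 1, one_mem _, h.one.trans z.symm⟩)
    (fun a ha n e he ea => by
      have : e ≠ 0 := by rintro rfl; exact n ((h.ker (h.TN (hA ha))).1 (ea.trans z))
      clear ea; revert this; revert e; decide +kernel) (fun i hi _ => sl_FULL hi) d3
  simp only [PP, force_eq, band_iff, bor_iff, bimp_iff, Nat.beq_eq, Nat.blt_eq, Nat.ble_eq, Nat.mul_eq, Nat.land_eq,
    Nat.lor_eq] at p
  refine ⟨f, _, c, p.1.1.imp_right (lt_of_le_of_lt (Nat.mul_le_mul_left _ (h.ubm inf_le_left fun i hi k => k2 i hi k.2))),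
    fun k => p.1.2 (Nat.eq_of_testBit_eq fun e => ?_), fun B l k => h.ubm (l.trans inf_le_left) fun i hi q => by
      rw [sl_and, k2 i hi (l q).2, d2' i hi (k i hi q)]; rfl, p.2.1.1, p.2.1.2, p.2.2⟩
  rw [Nat.testBit_or, Bool.or_eq_right_iff_imp]
  intro he
  obtain ⟨lt, b, hb, eb⟩ := k1 e he
  have nb := h.TN (hA hb)
  by_cases bv : b ∈ V
  · have : ∀ e < 192, getP tI e = pid → e = 0 := by decide +kernel
    obtain rfl := this e lt (eb.symm.trans ((h.ker nb).2 bv))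
    decide
  refine (d1 e lt).2.resolve_right fun q => ?_
  rw [(d1 e lt).1] at q
  refine q.not_ge ((h.lbm fun i hi r => mem_inf.2 ⟨h.vm i, mem_cent1_symm.1 ((h.fixi nb hi).2 ?_)⟩).trans (k b hb bv))
  simpa [eb] using (fm_spec _ _ hi).1 r
theorem wcT (hA : A ≤ T) (s : ∀ a ∈ A, a * a = 1) (c : #A = 2048) : A = V := by
  have n := hA.trans h.TN
  obtain ⟨f, -, c1, k, -⟩ := h.ea m le_sup_left (sup_le h.VT hA) fun x hx => by
    obtain ⟨a, ha, b, hb, rfl⟩ := (mem_sup_of_norm n).1 hx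
    convert mul_mem ha (conj_mem_of_norm (n hb) ha) using 1
    rw [inv_eq_of_mul_eq_one_right (s b hb)]; simp [mul_assoc]
  have e := card_sup_mul_inf n
  rw [c1, h.cV, c] at e
  rcases k with rfl | k
  · exact eq_of_le_of_card_eq (sup_eq_left.1 (eq_of_le_of_card_eq le_sup_left (by rw [c1, h.cV])).symm) (c.trans h.cV.symm)
  · have := card_le (le_inf inf_le_left (cents_sup (inf_le_left.trans h.cent.ge) (inf_le_right.trans (ab_sq s))) :
      V ⊓ A ≤ V ⊓ C(V ⊔ A))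
    nlinarith
theorem wcN (k : cj g V ≤ N(V)) : cj g V = V := by
  obtain ⟨n, hn, e⟩ := h.sT.scj_le k (h.pg.J g)
  have := h.wcT m e (sq_cj (sq_cj h.sq g) n) (by rw [card_cj, card_cj, h.cV])
  rw [cj_eq_iff, cj_of_mem_norm (inv_mem hn)] at this
  exact this
theorem memN (k : cj g V ≤ N(V)) : g ∈ N(V) := mem_norm_iff_cj.2 (h.wcN m k)
theorem sG (l : T ≤ X) : Syl 2 T X :=
  (h.sT.syl_of_norm_le le_top fun g hg => h.memN m ((cj_le_of_mem_norm hg.2 h.VT).trans h.TN)).of_le l le_top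
theorem wcP (p : PG 2 P) (h1 : cj a V ≤ P) (h2 : cj b V ≤ P) : cj a V = cj b V := by
  obtain ⟨g, -, e⟩ := (h.sG m le_top).scj_le le_top p
  have : ∀ {a}, cj a V ≤ P → cj g (cj a V) = V := fun k => by
    rw [cj_cj]; exact h.wcN m (cj_cj g _ V ▸ ((cj_mono g k).trans e).trans h.TN)
  exact cj_inj.1 ((this h1).trans (this h2).symm)
theorem fus (l : X ≤ V) (k : cj g X ≤ V) : ∃ n ∈ N(V), ∀ x ∈ X, n * x * n⁻¹ = g * x * g⁻¹ := by
  obtain ⟨R, sR, lR⟩ := h.pg.exists_syl (cents_symm (l.trans h.cent.ge))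
  obtain ⟨c, hc, e⟩ := sR.scj_le (K := cj g⁻¹ V) (by
    rw [cj_le_iff, inv_inv, cj_cent]; exact cents_symm (k.trans h.cent.ge)) (h.pg.J _)
  rw [cj_cj] at e
  have := h.wcP m sR.pi e ((cj_one V).symm ▸ lR)
  rw [cj_one] at this
  refine ⟨_, inv_mem (mem_norm_iff_cj.2 this), fun x hx => ?_⟩
  have := mem_cent.1 hc x hx
  rw [mul_inv_rev, inv_inv, ← cjcj, inv_inv, mul_assoc c⁻¹, this]; group
theorem fus1 (hx : x ∈ V) (k : g * x * g⁻¹ ∈ V) : ∃ n ∈ N(V), n * x * n⁻¹ = g * x * g⁻¹ := by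
  obtain ⟨n, hn, e⟩ := h.fus m (zpowers_le.2 hx) (g := g) (by rw [cj_zpowers]; exact zpowers_le.2 k)
  exact ⟨n, hn, e x (mem_zpowers x)⟩
theorem tyd : ty.testBit 1 = true ∧ d0 < 2048 ∧ ty.testBit 0 = false ∧ ty.testBit d0 = false := by
  have d := m.t
  simp only [tychk, force_eq, band_iff, bnot_iff, tb_eq, Nat.blt_eq, Bool.not_eq_true] at d
  exact ⟨d.1.1.1, d.1.1.2, d.1.2⟩
theorem tyk : (∀ a ∈ N(V), ρ a = cAlpha ∨ ρ a = cGamma ∨ ρ a = cDelta → ∀ i < 2048, ty.testBit (Ai a i) = ty.testBit i) ∧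
    ∀ i < 2048, (i = 0 ∨ i = 1 ∨ i = d0) ∨ ∃ a ∈ N(V), (ρ a = cAlpha ∨ ρ a = cGamma ∨ ρ a = cDelta) ∧
      getT dp 5 31 (Ai a i) < getT dp 5 31 i := by
  have d := m.t
  simp only [tychk, force_eq, band_iff, bor_iff, allTo2_iff, allL_iff, anyL_iff, memL_iff, Nat.blt_eq, Nat.beq_eq, List.mem_cons,
    List.not_mem_nil, or_false, forall_eq_or_imp, forall_eq, exists_eq_or_imp, exists_eq_left] at d
  have t : ∀ i j, getT ty 1 1 i = getT ty 1 1 j → ty.testBit i = ty.testBit j := fun i j e => by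
    rw [← tb_eq, ← tb_eq, tb, tb]; simp only [getT, Nat.mul_eq, one_mul] at e; rw [e]
  refine ⟨fun a ha e i hi => t _ _ ?_, fun i hi => (d.2 i hi).2.imp_right fun k => ?_⟩
  · rcases e with e | e | e <;> rw [e]
    exacts [(d.2 i hi).1.1, (d.2 i hi).1.2.1, (d.2 i hi).1.2.2]
  · obtain ⟨a, ha, ea⟩ := h.sur cAlpha (by decide +kernel)
    obtain ⟨b, hb, eb⟩ := h.sur cGamma (by decide +kernel)
    obtain ⟨c, hc, ec⟩ := h.sur cDelta (by decide +kernel)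
    rcases k with k | k | k
    exacts [⟨a, ha, .inl ea, ea ▸ k⟩, ⟨b, hb, .inr (.inl eb), eb ▸ k⟩, ⟨c, hc, .inr (.inr ec), ec ▸ k⟩]
theorem tyi (hn : n ∈ N(V)) : ∀ i < 2048, ty.testBit (Ai n i) = ty.testBit i :=
  h.ind (P := fun n => ∀ i < 2048, ty.testBit (Ai n i) = ty.testBit i)
    (fun i hi => congrArg _ ((h.fixi (one_mem _) hi).1 (one_mem _))) (fun n hn a ha e ih i hi => by
      rw [h.Amul hn ha, ih _ (mv_lt _ _)]
      rcases e with e | e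
      exacts [congrArg _ ((h.fixi ha hi).1 (cent_le_cent1 (h.vm i) (h.cent.ge ((h.ker ha).1 e)))), (h.tyk m).1 a ha e i hi]) n hn
theorem tr (hi : i < 2048) : ∃ n ∈ N(V), Ai n i = 0 ∨ Ai n i = 1 ∨ Ai n i = d0 := by
  induction e : getT dp 5 31 i using Nat.strong_induction_on generalizing i with
  | _ k ih =>
    rcases (h.tyk m).2 i hi with q | ⟨a, ha, -, q⟩
    · exact ⟨1, one_mem _, by rwa [(h.fixi (one_mem _) hi).1 (one_mem _)]⟩
    · obtain ⟨n, hn, r⟩ := ih _ (e ▸ q) (mv_lt _ _) rfl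
      exact ⟨_, mul_mem hn ha, by rwa [h.Amul hn ha]⟩
theorem tr1 (hi : i < 2048) (t : ty.testBit i = true) : ∃ n ∈ N(V), n * v i * n⁻¹ = v 1 := by
  obtain ⟨n, hn, e⟩ := h.tr m hi
  have := (h.tyi m hn i hi).trans t
  have d := h.tyd m
  refine ⟨n, hn, (h.ac n hn i).trans (congrArg v ?_)⟩
  rcases e with e | e | e <;> simp_all
theorem tr2 (hi : i < 2048) (t : ty.testBit i = false) (i0 : i ≠ 0) : ∃ n ∈ N(V), n * v i * n⁻¹ = v d0 := by
  obtain ⟨n, hn, e⟩ := h.tr m hi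
  have := (h.tyi m hn i hi).trans t
  have d := h.tyd m
  refine ⟨n, hn, (h.ac n hn i).trans (congrArg v ?_)⟩
  rcases e with e | e | e
  · exact absurd ((h.v1 hi).1 (conj_eq_one_iff.1 ((h.ac n hn i).trans (e ▸ h.v0)))) i0
  · simp_all
  · exact e
theorem tyG (hi : i < 2048) (hj : j < 2048) (e : g * v i * g⁻¹ = v j) : ty.testBit j = ty.testBit i := by
  obtain ⟨n, hn, k⟩ := h.fus1 m (h.vm i) (e ▸ h.vm j)
  rw [← h.tyi m hn i hi, h.vi _ (mv_lt _ _) _ hj ((h.ac n hn i).symm.trans (k.trans e))]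
theorem TC : T ≤ C[v 1] := (closure_le _).2 fun a ha => by
  rcases ha.2 with e | ⟨j, hj, e⟩
  · exact cent_le_cent1 (h.vm 1) (h.cent.ge ((h.ker ha.1).1 e))
  · exact (h.fixi ha.1 (by decide)).2 (e ▸ Nat.beq_eq ▸ (allTo_iff _ _).1 m.s j hj)
theorem s1 : v 1 ≠ 1 := _root_.mt (h.v1 (by decide)).1 (by decide)
theorem exInv : ∃ t ∈ N(V), t * t = 1 ∧ t ∉ V := by
  obtain ⟨r, g, IM, Pm, r1, o1, o2, d⟩ := m.l
  obtain ⟨n, hn, e⟩ := h.sur r o1
  obtain ⟨j, k⟩ := h.lift2 d hn e o2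
  exact ⟨_, mul_mem (h.VN (h.vm j)) hn, k, fun q => r1 (e ▸ (h.ker hn).2 ((Subgroup.mul_mem_cancel_left _ (h.vm j)).1 q))⟩
theorem pur (f : fl = true) (l : B ≤ V) (k : ∀ i < 2048, v i ∈ B → ty.testBit i = false) : #B ≤ 4 := by
  by_contra c
  have ex : ∀ (X : Subgroup G) (s : Finset G), s.card < #X → ∃ x ∈ X, x ∉ s := fun X s c => by
    by_contra! q
    exact c.not_ge (Set.ncard_coe_finset s ▸ Set.ncard_le_ncard (s := (X : Set G)) (t := s) q)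
  classical
  obtain ⟨b, hb, b1⟩ := ex B {1} (by simp; omega)
  obtain ⟨i, hi, rfl⟩ := h.vs b (l hb)
  obtain ⟨n, hn, e⟩ := h.tr2 m hi (k i hi hb) (by rintro rfl; simp [h.v0] at b1)
  have k' : ∀ i < 2048, v i ∈ cj n B → ty.testBit i = false := fun i hi q => by
    obtain ⟨y, hy, ey⟩ := mem_cj'.1 q
    obtain ⟨j, hj, rfl⟩ := h.vs y (l hy)
    rw [h.tyG m hj hi ey, k j hj hy]
  have l' : cj n B ≤ V := cj_le_of_mem_norm hn l
  have m0 : v d0 ∈ cj n B := e ▸ conj_mem_cj.2 hb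
  have x : ∀ {i j}, i < 2048 → j < 2048 → v i ∈ cj n B → v j ∈ cj n B → i ^^^ j < 2048 ∧ v (i ^^^ j) ∈ cj n B :=
    fun hi hj a b => ⟨Nat.xor_lt_two_pow (n := 11) hi hj, h.vx _ _ ▸ mul_mem a b⟩
  have d := m.p f
  have l0 := (h.tyd m).2.1
  simp only [force_eq, bor_iff, bimp_iff, bnot_iff, allTo2_iff, memL_iff, tb_eq, xor_eq', Bool.not_eq_true, List.mem_cons,
    List.not_mem_nil, or_false] at d
  obtain ⟨a, ha, na⟩ := ex (cj n B) {v 0, v d0} (lt_of_le_of_lt Finset.card_le_two (by rw [card_cj]; omega))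
  obtain ⟨i, hi, rfl⟩ := h.vs a (l' ha)
  obtain ⟨b, hb, nb⟩ := ex (cj n B) {v 0, v d0, v i, v (i ^^^ d0)} (lt_of_le_of_lt Finset.card_le_four (by rw [card_cj]; omega))
  obtain ⟨j, hj, rfl⟩ := h.vs b (l' hb)
  have x1 := x hi l0 ha m0
  have x2 := x hj l0 hb m0
  have x3 := x hj hi hb ha
  have x4 := x x3.1 l0 x3.2 m0
  rcases d i hi (k' i hi ha) (k' _ x1.1 x1.2) with (rfl | rfl) | d
  · simp at na
  · simp at na
  have := d j hj
  simp only [k' j hj hb, k' _ x2.1 x2.2, k' _ x3.1 x3.2, k' _ x4.1 x4.2, Bool.false_eq_true, false_or, or_self] at this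
  rcases this with rfl | rfl | rfl | rfl <;> simp at nb
variable (hO : Oc {2}ᶜ C[v 1] = ⊥)
include hO
theorem O1 : Oc {2}ᶜ (⊤ : Subgroup G) = ⊥ := by
  obtain ⟨i, hi, i1, t1, t2⟩ := m.q
  rw [tb_eq] at t1 t2
  have n : v i ∉ zpowers (v 1) := fun k => by
    rcases (zp2 (h.vv 1)).1 k with k | k
    · obtain rfl := (h.v1 hi).1 k
      simp [(h.tyd m).2.2.1] at t1
    · exact i1 (h.vi _ hi _ (by decide) k)
  have l : zpowers (v 1) ⊔ zpowers (v i) ≤ V := sup_le (zpowers_le.2 (h.vm _)) (zpowers_le.2 (h.vm _))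
  have c := c4 h.sq (zpowers_le.2 (h.vm 1)) (h.vm i) n
  rw [c2 (h.vv 1) (h.s1 m)] at c
  refine le_bot_iff.1 (le_of_cent1_le (comm_iff_le_cent.2 (ab_sq fun a ha => h.sq a (l ha))) (ncyc (fun a ha => h.sq a (l ha))
    (by omega)) (le_top.trans (Oc_norm _ _)) ((Oc_pi _ _).coprime' (h.pg.of_le l)) fun x hx x1 => ?_)
  obtain ⟨g, e⟩ : ∃ g, g * x * g⁻¹ = v 1 := by
    rcases adj (norms_of_cents (cents_mono (ab_sq h.sq) le_rfl (zpowers_le.2 (h.vm 1))) (h.vm i))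
      (h.vv i ▸ one_mem _) hx with k | ⟨b, k, rfl⟩ <;> rcases (zp2 (h.vv 1)).1 k with rfl | rfl
    · exact absurd rfl x1
    · exact ⟨1, by simp⟩
    · exact (h.tr1 m hi t1).imp fun g k => by simpa using k.2
    · exact (h.tr1 m (Nat.xor_lt_two_pow (n := 11) hi (by decide)) t2).imp fun g k => h.vx _ _ ▸ k.2
  have := Oc_inf_le (π := {2}ᶜ) (le_top : C[x] ≤ ⊤)
  rwa [← cj_le_cj (g := g), cj_Oc, cj_cent1, e, hO, le_bot_iff, cj_eq_bot, ← le_bot_iff] at this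
theorem F (hH : C[v 1] ≤ N(V)) : V.Normal := by
  have P : PLs ⊤ T V ⊥ := ⟨h.sG m le_top, h.VT, h.TN, bot_le, norm_bot.ge, h.sq, fun g _ k => h.wcN m (k.trans h.TN)⟩
  have key : ∀ g d, Bad ⊤ V g d → ∃ k E, E ≤ cj k V ∧ ¬ E ≤ V ∧ #E = #(V ⊓ cm (V ⊓ cj g V) {d}) ∧ #E ≤ 64 ∧
      ((∀ a ∈ V ⊔ E, a ∉ V → #(V ⊓ C[a]) ≤ 64) → False) ∧ ∀ e ∈ E, e ∉ V → Bad ⊤ V k e := fun g d b => by
    obtain ⟨k, -, E, l1, l2, l3, c1, -, c3, n, r⟩ := P.main b
    have s := fun a ha => sq_cj h.sq k a (l2 ha)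
    have nE := l1.trans h.TN
    obtain ⟨f, c, e1, -, e2, e3, e4, e5, e6, e7⟩ := h.ea m le_sup_left (sup_le h.VT l1) fun x hx => by
      obtain ⟨a, ha, b, hb, rfl⟩ := (mem_sup_of_norm nE).1 hx
      convert mul_mem ha (conj_mem_of_norm (nE hb) ha) using 1
      rw [inv_eq_of_mul_eq_one_right (s b hb)]; simp [mul_assoc]
    have e := card_sup_mul_inf nE
    rw [show V ⊓ E = V ⊓ cj k V from le_antisymm (inf_le_inf_left _ l2) (le_inf inf_le_left l3), e1, h.cV] at e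
    have pu : ∀ i < 2048, v i ∈ V ⊓ cj k V → ty.testBit i = false := fun i hi q => Bool.eq_false_iff.2 fun t => by
      obtain ⟨u, hu, eu⟩ := h.tr1 m hi t
      have : cj u (cj k V) ≤ N(V) := le_trans (by
        rw [← eu, ← cj_cent1]; exact cj_mono u (le_cent1_iff.2 (ab_sq (sq_cj h.sq k) q.2))) hH
      rw [cj_cj] at this
      exact n (l2.trans (cj_of_mem_norm ((Subgroup.mul_mem_cancel_left _ hu).1 (h.memN m this))).le)
    have s0 : v 1 ∉ V ⊓ cj k V := fun q => by simpa [(h.tyd m).1] using pu 1 (by decide) q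
    have c2 := e3 (V ⊓ cj k V ⊔ zpowers (v 1)) (sup_le (le_inf inf_le_left (cents_sup (inf_le_left.trans h.cent.ge)
      (inf_le_right.trans (cents_mono (ab_sq (sq_cj h.sq k)) le_rfl l2)))) (zpowers_le.2 ⟨h.vm 1,
        le_cent1_iff.1 ((sup_le h.VT l1).trans (h.TC m))⟩)) fun i hi q => by
      simp only [d2, bnot_iff, band_iff, tb_eq, xor_eq', not_and, Bool.not_eq_true]
      rcases adj (norms_of_cents (cents_mono (ab_sq h.sq) le_rfl inf_le_left) (h.vm 1)) (h.vv 1 ▸ one_mem _) q with q | ⟨b, q, eb⟩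
      · simp [pu i hi q]
      · exact fun _ => pu _ (Nat.xor_lt_two_pow (n := 11) hi (by decide)) (by
          rwa [Nat.xor_comm, h.vx, eb, ← mul_assoc, h.vv, one_mul])
    rw [c4 h.sq inf_le_left (h.vm 1) s0] at c2
    have p4 := fun f => h.pur m f inf_le_left pu
    obtain ⟨j, ej⟩ := (h.pg.infl (cj k V)).exists_card
    rw [h.cV] at c3
    generalize #(V ⊓ cj k V) = b at *
    have e8 : #E = f * b := by nlinarith
    have e9 : 2048 ≤ f * f * b := by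
      have : 0 < b := ej ▸ Nat.two_pow_pos j
      rw [e8] at c3; nlinarith
    have b4 : b ≤ 4 := by
      by_contra q
      have : 8 ≤ b := ej ▸ Nat.pow_le_pow_right (n := 2) (i := 3) two_pos (by
        by_contra; have : j ≤ 2 := by omega
        interval_cases j <;> omega)
      rcases e7 (by omega) with q | q
      · have := p4 q; omega
      · nlinarith
    refine ⟨k, E, l2, n, c1, ?_, fun q => ?_, r⟩
    · have : j ≤ 2 := by by_contra; have := Nat.pow_le_pow_right (n := 2) (i := 3) (j := j) two_pos (by omega); omega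
      interval_cases j <;> simp at ej <;> subst ej <;> omega
    · have := e2 q; nlinarith
  have sc := P.SC fun g d b => by
    obtain ⟨k, E, l, n, -, -, q, r⟩ := key g d b
    refine q fun a ha na => ?_
    obtain ⟨u, hu, e, he, rfl⟩ := (mem_sup_of_norm (A := V) (B := E) fun e he => by
      by_cases c : e ∈ V
      exacts [h.VN c, (r e he c).nd]).1 ha
    have b' := r e he fun c => na (mul_mem hu c)
    obtain ⟨-, E', -, -, c1, c2, -⟩ := key k e b'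
    refine (card_le fun x hx => ?_).trans (c1 ▸ c2)
    exact ⟨hx.1, cent_cm (P.nA bot_le inf_le_left hx.1) (mem_cent1_symm.1 ((Subgroup.mul_mem_cancel_left _
      (cent_le_cent1 hx.1 (h.cent.ge hu))).1 (mem_cent1_symm.1 hx.2)))⟩
  obtain ⟨D, l, nD, k1, k2⟩ := gs sc h.cent.ge (h.O1 m hO)
  rcases h.simp (D ⊓ N(V)) (le_inf l h.VN) (nD.inf_le le_top) with e | e
  · exact normalizer_eq_top_iff.1 (top_le_iff.1 (k2 (e.symm ▸ Hall.self h.pg) (e.symm ▸ h.cent.ge)))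
  · obtain ⟨t, ht, tt, n⟩ := h.exInv m
    exact absurd (k1 t (inf_eq_right.1 e ht) ht tt) n
end IF
end H10.RF
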