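import Cfsg.Agent.H10.RF.B4

/-! Enumeration with both directions, standard subspaces. -/

set_option autoImplicit false
set_option linter.unusedSectionVars false
set_option linter.unusedVariables false
set_option maxRecDepth 100000
open Cfsg Subgroup H19 H0 H15
open scoped commutatorElement Pointwise
namespace H10.RF
local notation "cj" => H19.cj
variable {G : Type*} [Group G] [Finite G]
variable {V : Subgroup G} {ρ : G → ℕ} {v : ℕ → G} {ub dc : ℕ} {A B X Y : Subgroup G} {a b c n w x y : G} {i j k : ℕ}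
local notation "T" => TG V ρ gT 4
local notation:max "Ai" n:max i:max => mv (mt ub dc (ρ n)) i
/-- the span of the first `k` basis vectors -/
def VS (v : ℕ → G) (k : ℕ) : Subgroup G := closure (v '' Set.Iio (2 ^ k))
namespace VB
variable (h : VB V v)
include h
theorem VS_le : VS v k ≤ V := (closure_le _).2 (by rintro _ ⟨i, -, rfl⟩; exact h.vm i)
theorem exVS (ha : a ∈ VS v k) : ∃ i < 2 ^ k, v i = a :=
  fin_ind (P := fun a => ∃ i < 2 ^ k, v i = a) ⟨0, Nat.two_pow_pos k, h.v0⟩ (by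
    rintro _ _ ⟨j, hj, rfl⟩ ⟨i, hi, rfl⟩; exact ⟨_, Nat.xor_lt_two_pow hi hj, h.vx i j⟩) a ha
theorem mVS (hi : i < 2 ^ k) : v i ∈ VS v k := Subgroup.subset_closure ⟨i, hi, rfl⟩
theorem memVS (hk : k ≤ 11) (hi : i < 2048) : v i ∈ VS v k ↔ i < 2 ^ k := ⟨fun q => by
  obtain ⟨j, hj, e⟩ := h.exVS q
  rwa [← h.vi _ (hj.trans_le (Nat.pow_le_pow_right (n := 2) (by decide) hk)) _ hi e], h.mVS⟩
theorem cVS (hk : k ≤ 11) : #(VS v k) = 2 ^ k := by
  classical
  rw [h.card h.VS_le, ← Finset.card_range (2 ^ k)]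
  congr 1; ext i
  have := Nat.pow_le_pow_right (n := 2) (by decide) hk
  simp only [Finset.mem_filter, Finset.mem_range]
  exact ⟨fun q => (h.memVS hk q.1).1 q.2, fun q => ⟨by omega, h.mVS q⟩⟩
theorem VS_mono (l : j ≤ k) : VS v j ≤ VS v k :=
  closure_mono (Set.image_mono fun _ q => lt_of_lt_of_le q (Nat.pow_le_pow_right (by decide) l))
theorem VS1 : VS v 1 = zpowers (v 1) := le_antisymm (fun a ha => by
  obtain ⟨i, hi, rfl⟩ := h.exVS ha
  interval_cases i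
  exacts [h.v0 ▸ one_mem _, mem_zpowers _]) (zpowers_le.2 (h.mVS (by decide)))
end VB
namespace IF
variable (h : IF V ρ v ub dc)
include h
/-- commutators modulo a standard subspace -/
theorem cmS (hk : k ≤ 11) (hn : n ∈ N(V)) (hi : i < 2048) : ⁅n, v i⁆ ∈ VS v k ↔ Ai n i ^^^ i < 2 ^ k := by
  rw [h.cmv hn, h.memVS hk (Nat.xor_lt_two_pow (n := 11) (mv_lt _ _) hi)]
theorem nVS (hn : n ∈ N(V)) (q : ∀ j < k, Ai n (2 ^ j) < 2 ^ k) : n ∈ N(VS v k) := mem_norm_of_cj_le fun y hy => by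
  obtain ⟨y, hz, rfl⟩ := mem_cj'.1 hy
  obtain ⟨i, hi, rfl⟩ := h.exVS hz
  rw [h.ac n hn]
  refine h.mVS ?_
  have := map_lin (mv (mt ub dc (ρ n))) (mv_zero _) (mv_xor _) (fun j => 2 ^ j) k i
  rw [lin_two_pow, Nat.mod_eq_of_lt hi] at this
  exact this ▸ lin_lt _ _ k q i
theorem dfs2 {FT : ℕ → ℕ} {P : ℕ → ℕ → ℕ → Bool} (hF : ∀ e < 192, FT e = fm 0 (mt ub dc (getP tI e)))
    (hA : A ≤ T) (s : ∀ a ∈ A, a * a ∈ V) (fuel : ℕ) : ∀ {f els fmk cand fix : ℕ} {B : Subgroup G}, V ≤ B → B ≤ A →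
    #B = f * 2048 → (∀ k < f, cl11 els k < 192 ∧ ∃ b ∈ B, ρ b = getP tI (cl11 els k)) →
    (∀ b ∈ B, ∃ k < f, ρ b = getP tI (cl11 els k)) → (∀ e, fmk.testBit e = true → e < 192 ∧ ∃ b ∈ B, ρ b = getP tI e) →
    (∀ a ∈ A, a ∉ B → ∀ e < 192, ρ a = getP tI e → cand.testBit e = true) → (∀ i < 2048, v i ∈ C(B) ↔ sl fix i = true) →
    (∀ b ∈ B, ∃ e < 192, fmk.testBit e = true ∧ ρ b = getP tI e) →
    dfs FT P fuel f (sx els) (sx fmk) (sx cand) (sx fix) = true → ∃ f fmk fix, P f fmk fix = true ∧ #A = f * 2048 ∧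
      (∀ e, fmk.testBit e = true → e < 192 ∧ ∃ b ∈ A, ρ b = getP tI e) ∧ (∀ i < 2048, v i ∈ C(A) ↔ sl fix i = true) ∧
      ∀ b ∈ A, ∃ e < 192, fmk.testBit e = true ∧ ρ b = getP tI e := by
  classical
  have AN := hA.trans h.TN
  have cm' : ∀ a ∈ A, ∀ b ∈ A, ⁅a, b⁆ ∈ V := fun a ha b hb => by
    convert mul_mem (mul_mem (s _ (mul_mem ha hb)) (conj_mem_of_norm' (AN hb) (s _ (inv_mem ha)))) (s _ (inv_mem hb)) using 1
    simp only [commutatorElement_def]; group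
  induction fuel with
  | zero => intro _ _ _ _ _ _ _ _ _ _ _ _ _ _ _ d; exact absurd d (by simp [dfs])
  | succ fuel ih =>
    intro f els fmk cand fix B l1 l2 c k1 k2 k3 k4 k5 k6 d
    rw [show dfs FT P (fuel + 1) = dst FT P (dfs FT P fuel) from rfl, dst, band_iff] at d
    replace d := And.intro d.1 (allB_spec d.2)
    simp only [band_iff, allTo_iff, bimp_iff, force_eq, tb_eq, Nat.ble_eq, Nat.mul_eq, Nat.pow_eq, Nat.land_eq, Nat.lor_eq,
      xor_eq', Nat.sub_eq, un_sx, rmv] at d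
    by_cases e : B = A
    · exact ⟨f, fmk, fix, d.1, e ▸ c, e ▸ k3, e ▸ k5, e ▸ k6⟩
    have ex : ∃ e, e < 192 ∧ ∃ a ∈ A, a ∉ B ∧ ρ a = getP tI e := by
      obtain ⟨a, ha, n⟩ := SetLike.exists_of_lt (lt_of_le_of_ne l2 e)
      obtain ⟨e, he, k⟩ := h.exI (hA ha) (s a ha)
      exact ⟨e, he, a, ha, n, k⟩
    obtain ⟨he, a, ha, na, ea⟩ := Nat.find_spec ex
    have mn := fun e k => Nat.find_min' ex (m := e) k
    generalize Nat.find ex = e at he ea mn
    have aB : a ∈ N(B) := mem_norm_of_cj_le fun y hy => by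
      obtain ⟨y, k, rfl⟩ := mem_cj'.1 hy
      exact cjcm a y ▸ mul_mem (l1 (cm' _ ha _ (l2 k))) k
    have mu : ∀ b ∈ A, ∀ x < 192, ρ b = getP tI x → (rcm e).testBit x = true ∧ g8 (rmu e) x < 192 ∧
        ρ (a * b) = getP tI (g8 (rmu e) x) := fun b hb x hx k => by
      rw [h.mul _ (AN ha) _ (AN hb), ea, k]
      exact mu_spec he hx (by rw [← ea, ← k]; exact h.cmul (AN ha) (AN hb) (cm' _ ha _ hb))
    have ne : ∀ k < 2 * f, cl11 (nel (rmu e) f els) k = if k < f then cl11 els k else g8 (rmu e) (cl11 els (k - f)) :=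
      fun k hk => by
        rw [nel, Nat.mul_eq, cl11_pk (fun j => ?_) _ _ hk]
        · simp [brec_eq_ite]
        · rw [brec_eq_ite]
          split_ifs
          exacts [cl11_lt _ _, (g8_lt _ _).trans (by decide)]
    have ma : a ∈ B ⊔ zpowers a := mem_sup_right (mem_zpowers a)
    have l3 : B ⊔ zpowers a ≤ A := sup_le l2 (zpowers_le.2 ha)
    have k1' : ∀ k < 2 * f, cl11 (nel (rmu e) f els) k < 192 ∧ ∃ b ∈ B ⊔ zpowers a, ρ b = getP tI (cl11 (nel (rmu e) f els) k) :=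
      fun k hk => by
        rw [ne k hk]
        split_ifs with c
        · exact ⟨(k1 k c).1, (k1 k c).2.imp fun b hb => ⟨mem_sup_left hb.1, hb.2⟩⟩
        · obtain ⟨q, b, hb, eb⟩ := k1 (k - f) (by omega)
          exact ⟨(mu b (l2 hb) _ q eb).2.1, _, mul_mem ma (mem_sup_left hb), (mu b (l2 hb) _ q eb).2.2⟩
    have k3' : ∀ x, (orTo (cl11 (nel (rmu e) f els)) (2 * f)).testBit x = true → x < 192 ∧ ∃ b ∈ B ⊔ zpowers a, ρ b = getP tI x :=
      fun x hx => by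
        obtain ⟨k, hk, rfl⟩ := orTo_spec.1 hx
        exact k1' k hk
    have k2' : ∀ b ∈ B ⊔ zpowers a, ∃ k < 2 * f, ρ b = getP tI (cl11 (nel (rmu e) f els) k) := fun b hb => by
      rcases adj aB (l1 (s a ha)) hb with k | ⟨b, k, rfl⟩ <;> obtain ⟨j, hj, ej⟩ := k2 b k
      · exact ⟨j, by omega, by rw [ne j (by omega), if_pos hj, ej]⟩
      · exact ⟨f + j, by omega, by
          rw [ne _ (by omega), if_neg (by omega), Nat.add_sub_cancel_left, (mu b (l2 k) _ (k1 j hj).1 ej).2.2]⟩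
    refine ih (l1.trans le_sup_left) l3 (by rw [adj_card aB (l1 (s a ha)) na, c, mul_assoc]) k1' k2' k3'
      (fun b hb nb x hx eb => ?_) (fun i hi => ?_) (fun b hb => ?_) (d.2 e (k4 a ha na e he ea) fun k hk => ?_)
    · have n1 := fun k => nb (mem_sup_left k)
      have n2 : (orTo (cl11 (nel (rmu e) f els)) (2 * f)).testBit x = false := Bool.eq_false_iff.2 fun k => by
        obtain ⟨-, c, hc, ec⟩ := k3' x k
        exact nb (h.memr (l1.trans le_sup_left) hc (AN (l3 hc)) (AN hb) (ec.trans eb.symm))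
      have := mn x ⟨hx, b, hb, n1, eb⟩
      simp [Nat.testBit_xor, n2, k4 b hb n1 x hx eb, (mu b hb x hx eb).1, show ¬ x < e by omega]
    · rw [sl_and, Bool.and_eq_true, ← k5 i hi, hF e he, fm_spec _ _ hi, cent_sup, mem_inf, cent_zpowers, mem_cent1_symm,
        h.fixi (AN ha) hi, ea]
      simp
    · obtain ⟨k, hk, ek⟩ := k2' b hb
      exact ⟨_, (k1' k hk).1, orTo_spec.2 ⟨k, hk, rfl⟩, ek⟩
    · obtain ⟨q, b, hb, eb⟩ := k1 k hk
      exact mn _ ⟨(mu b (l2 hb) _ q eb).2.1, _, mul_mem ha (l2 hb), fun k => na ((Subgroup.mul_mem_cancel_right _ hb).1 k),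
        (mu b (l2 hb) _ q eb).2.2⟩
end IF
end H10.RF
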