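import Cfsg.Agent.H10.RF.B5

/-! From a strongly closed extraspecial subgroup to a large one. -/

set_option autoImplicit false
set_option linter.unusedSectionVars false
set_option linter.unusedVariables false
set_option maxRecDepth 100000
open Cfsg Subgroup H19 H0 H15
open scoped commutatorElement Pointwise
namespace H10.RF
local notation "cj" => H19.cj
variable {G : Type*} [Group G] [Finite G]

section
variable {A B D E H K L Y Z : Subgroup G} {a b k : G}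
open H17.GS in
theorem gsZ (sc : SCl A H) (zA : Z ≤ A) (hz : H ≤ C(Z)) (s : ∀ a ∈ A, a * a ∈ Z) (h0 : Oc {2}ᶜ H = ⊥) :
    ∃ D, A ≤ D ∧ D ⊴ H ∧ (∀ t ∈ D, t ∈ N(A) → t * t ∈ Z → t ∈ A) ∧
      (Syl 2 A (D ⊓ N(A)) → D ⊓ N(A) ≤ cm Z A → H ≤ N(A)) := by
  have nz : H ≤ N(Z) := norms_of_cents hz
  have nZ : Z ⊴ H := ⟨zA.trans sc.le, nz⟩
  have AZ := sc.le.trans nz
  obtain ⟨D, l, n, k1, k2⟩ := gs (sc.quo nZ) (ab_sq fun q hq => by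
    obtain ⟨q, hw, rfl⟩ := H19.mem_im.1 hq
    exact qsq (s _ hw)) (O_quo_central h0 (sc.pg.of_le zA) nZ.le hz)
  have e : D ⊓ N(quo Z A) = quo Z (qpre Z D ⊓ N(A)) := le_antisymm (by
    rw [← quo_qpre (D ⊓ _)]
    exact quo_mono _ (le_inf (qpre_mono inf_le_left) (norms_of_quo' (qpre_le_norm _) AZ zA (by rw [quo_qpre]; exact inf_le_right))))
    (le_inf ((quo_mono _ inf_le_left).trans (quo_qpre _).le) ((quo_mono _ inf_le_right).trans im_norm_le))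
  have l2 : qpre Z D ⊓ N(A) ≤ N(Z) := inf_le_left.trans (qpre_le_norm _)
  refine ⟨qpre Z D, (quo_le_iff AZ).1 l, qpre_normal nZ n, fun t ht nt tt => ?_, fun h3 h4 => norms_of_quo' nz AZ zA
    (k2 (e ▸ h3.quo l2) (e ▸ (quo_cents_iff l2 AZ).2 (comm_le_cm h4)))⟩
  obtain ⟨m, ht⟩ := H19.mem_pre.1 ht
  exact (qmem zA AZ (m := ⟨t, m⟩)).1 (k1 _ ht (qnm nt) (qsq tt))
theorem zsyl (n : Y ⊴ H) (s : Syl 2 Z Y) (c : Y ⊓ N(Z) ≤ C(Z)) (h0 : Oc {2}ᶜ H = ⊥) : Y = Z := by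
  have := (H18.Burnside_normal_complement s c).sup_compl (by simpa using s)
  rw [le_bot_iff.1 (h0 ▸ Oc_le_Oc n : Oc {2}ᶜ Y ≤ ⊥), bot_sup_eq] at this
  exact this.symm
theorem odd_mem {n : ℕ} (h1 : k * k ∈ B) (h2 : k ^ n ∈ B) (o : Odd n) : k ∈ B := by
  obtain ⟨j, rfl⟩ := o
  rwa [pow_succ, pow_mul, _root_.sq, Subgroup.mul_mem_cancel_left _ (pow_mem h1 j)] at h2
theorem pow_q (n : K ≤ N(B)) (hk : k ∈ K) : k ^ B.relIndex K ∈ B := by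
  have := orderOf_dvd_iff_pow_eq_one.1 (orderOf_dvd_card' (mem_im_of (f := qmk B) (x := ⟨k, n hk⟩) hk))
  rwa [card_quo n, ← map_pow, qmk_eq_one] at this
theorem gen2 (s : ∀ a ∈ E, a * a = 1) (c : 4 < #E) (n : E ≤ N(K)) (o : PiG {2}ᶜ K)
    (h : ∀ a ∈ E, ∀ b ∈ E, a ≠ 1 → b ≠ 1 → a * b ≠ 1 → K ⊓ C[a] ⊓ C[b] ≤ L) : K ≤ L := by
  have p : PG 2 E := PiN.of_elt fun a ha => piG_zpowers.1 (H0.pg_zpowers (s a ha))
  have ab := fun (X : Subgroup G) (l : X ≤ E) => comm_iff_le_cent.2 (ab_sq fun a ha => s a (l ha))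
  refine le_of_cent1_le (ab _ le_rfl) (ncyc s (by omega)) n (o.coprime' p) fun a ha a1 => ?_
  have z := fun {a} (ha : a ∈ E) => zpowers_le.2 ha
  obtain ⟨b, hb, nb⟩ := ex_out (A := E) (B := zpowers a) (by rw [c2 (s a ha) a1]; omega)
  obtain ⟨d, hd, nd⟩ := ex_out (A := E) (B := zpowers a ⊔ zpowers b) (by rw [c4 s (z ha) hb nb, c2 (s a ha) a1]; omega)
  have l := sup_le (z hb) (z hd)
  have mb : b ∈ zpowers a ⊔ zpowers b := mem_sup_right (mem_zpowers b)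
  have ma : a ∈ zpowers a ⊔ zpowers b := mem_sup_left (mem_zpowers a)
  refine le_of_cent1_le (ab _ l) (ncyc (fun a ha => s a (l ha)) (by
    rw [c4 s (z hb) hd fun k => nd (mem_sup_right k), c2 (s b hb) fun e => nb (e ▸ one_mem _)]; omega))
    (norms_inf (l.trans n) (norms_of_le (l.trans (le_cent1_iff.2 (ab_sq s ha))))) ((o.infl _).coprime' (p.of_le l)) fun y hy y1 => h a ha y (l hy) a1 y1 fun e => ?_
  obtain rfl : y = a := by rw [← inv_eq_of_mul_eq_one_right e, inv_eq_of_mul_eq_one_right (s a ha)]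
  rcases (mem_four (s b hb) (s d hd) (csq s hb hd)).1 hy with rfl | rfl | rfl | e
  exacts [a1 rfl, nb (mem_zpowers _), nd ma, nd ((Subgroup.mul_mem_cancel_left _ mb).1 (e ▸ ma))]
theorem adj_le (ha : a ∈ N(B)) (s : a * a ∈ B) : #(B ⊔ zpowers a) ≤ 2 * #B := by
  by_cases c : a ∈ B
  · rw [sup_eq_left.2 (zpowers_le.2 c)]; omega
  · exact (adj_card ha s c).le
end

variable {V : Subgroup G} {ρ : G → ℕ} {v : ℕ → G} {ub dc ty dp d0 : ℕ} {fl : Bool} {Q E D K : Subgroup G} {a b g k t x : G}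
local notation "T" => TG V ρ gT 4
local notation "ZZ" => zpowers (v 1)
local notation "HH" => C[v 1]
local notation "SS" => cm (zpowers (v 1)) (Q ⊓ V : Subgroup G) ⊓ cm (Q ⊓ V) Q
/-- the extraspecial subgroup -/
structure QS (V : Subgroup G) (ρ : G → ℕ) (v : ℕ → G) (Q E : Subgroup G) (x : G) : Prop where
  es : ES Q (v 1)
  QT : Q ≤ TG V ρ gT 4
  CQ : N(V) ⊓ C[v 1] ≤ N(Q)
  cW : Q ⊓ C(Q ⊓ V) ≤ V
  vQ : V ⊓ cm (zpowers (v 1)) Q ≤ Q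
  xC : x ∈ N(V) ⊓ C[v 1]
  x3 : x ^ 3 = 1
  k0 : N(V) ⊓ C[v 1] ⊓ cm (Q ⊓ V) V ≤ V ⊔ Q ⊔ zpowers x
  EV : E ≤ V
  rk : 4 * #(E ⊓ Q) < #E
  ind : ∀ a ∈ E, ∀ b ∈ E, a ∉ Q → b ∉ Q → a * b ∉ Q → Q ⊓ cm (zpowers (v 1)) {a} ⊓ cm (zpowers (v 1)) {b} ≤ V
  fx : x = 1 ∨ Q ⊓ cm (zpowers (v 1)) {x} ≤ zpowers (v 1)
  c8 : 8 < #Q
theorem HZ {s : G} : C[s] ≤ N(zpowers s) := cent1_le_norm_zpowers s
theorem ZH {s : G} (ss : s * s = 1) : N(zpowers s) ≤ C[s] := fun g hg => by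
  rcases (zp2 ss).1 (conj_mem_of_norm hg (mem_zpowers s)) with e | e
  · rw [conj_eq_one_iff.1 e, cent1_one]; exact mem_top _
  · exact of_cjc e
namespace QS
variable (q : QS V ρ v Q E x) (h : IF V ρ v ub dc) (m : MD ub dc ty dp d0 fl)
include q h m
theorem TC : T ≤ N(V) ⊓ HH := le_inf h.TN (h.TC m)
theorem TQ : T ≤ N(Q) := (q.TC h m).trans q.CQ
theorem VQ : V ≤ N(Q) := h.VT.trans (q.TQ h m)
theorem QV : Q ≤ N(V) := q.QT.trans h.TN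
theorem CW : N(V) ⊓ HH ≤ N(Q ⊓ V) := norms_inf q.CQ inf_le_left
theorem ZW : ZZ ≤ Q ⊓ V := zpowers_le.2 ⟨q.es.zQ, h.vm 1⟩
theorem QM : Q ≤ cm ZZ Q := fun a ha => ⟨HZ (q.es.le_cent ha), fun b hb => q.es.comm_mem ha hb⟩
theorem TL (ht : t ∈ T) (k : ∀ u ∈ V, ⁅t, u⁆ ∈ Q) : ∃ a ∈ V, ∃ b ∈ Q, t = a * b := by
  have n : zpowers x ≤ N(V ⊔ Q) := zpowers_le.2 (norms_sup inf_le_left q.CQ q.xC)
  have l := sup_le h.VT q.QT
  refine (mem_sup_of_norm (q.QV h m)).1 ((syl_mk le_sup_left (h.pT.of_le l) fun d => ?_).mem_of_normal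
    (sup_le le_normalizer n) (q.k0 ⟨q.TC h m ht, q.CW h m (q.TC h m ht), fun u hu => ⟨k u hu, cmN (h.TN ht) hu⟩⟩) (h.pT.elt ht))
  rw [relIndex_sup_of_norm n] at d
  have := (d.trans (relIndex_dvd_card _ _)).trans (Nat.card_zpowers x ▸ orderOf_dvd_of_pow_eq_one q.x3)
  omega
theorem SQ : SS ≤ N(Q) := fun s hs => mem_norm_of_cj_le fun y hy => by
  obtain ⟨y, k, rfl⟩ := mem_cj'.1 hy
  exact cjcm s y ▸ mul_mem (hs.2.2 y k).1 k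
theorem Ssq : ∀ s ∈ SS, s * s ∈ cm ZZ Q := fun s hs => ⟨mul_mem hs.1.1 hs.1.1, fun y hy => by
  have := hs.2.2 y hy
  rw [cml, cjcm s ⁅s, y⁆, mul_assoc, h.sq _ this.2, mul_one]
  exact hs.1.2 _ this⟩
theorem MS : cm ZZ Q ≤ SS := fun s hs => ⟨cm_anti (fun _ k => k.1) hs, mem_norm_of_cj_le fun y hy => by
  obtain ⟨y, k, rfl⟩ := mem_cj'.1 hy
  exact cjcm s y ▸ mul_mem (q.ZW h m (hs.2 y k.1)) k, fun y hy => q.ZW h m (hs.2 y hy)⟩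
theorem SM : SS ≤ N(cm ZZ Q) := cm_nms (inf_le_left.trans cm_le) (q.SQ h m)
theorem VS' : V ≤ SS := fun u hu => by
  have c := q.TC h m (h.VT hu)
  exact ⟨⟨HZ c.2, fun y hy => cm1.2 (cent_le_cent1 hy.2 (h.cent.ge hu)) ▸ one_mem _⟩, q.CW h m c, fun y hy =>
    ⟨cmN (q.CQ c) hy, cms (cmN (q.QV h m hy) hu)⟩⟩
theorem nS (h1 : g ∈ HH) (h2 : g ∈ N(Q)) (h3 : g ∈ N(Q ⊓ V)) : g ∈ N(SS) :=
  norms_inf (A := zpowers g) (zpowers_le.2 (cm_nm (HZ h1) h3)) (zpowers_le.2 (cm_nm h3 h2)) (mem_zpowers g)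
theorem kW (sQ : Syl 2 Q D) (nD : D ⊴ HH) : D ⊓ N(Q) ≤ N(Q ⊓ V) := by
  have EQ := q.EV.trans (q.VQ h m)
  have QW := (q.QT.trans (q.TC h m)).trans (q.CW h m)
  refine (le_of_quo_le inf_le_right (le_inf le_normalizer QW) (gen2 (E := quo Q E) (fun a ha => ?_) ?_
    (quo_norms (norms_inf ((q.EV.trans (h.VT.trans (h.TC m))).trans nD.norm) (norms_norm EQ)))
    ((piG_quo_iff inf_le_right).2 (sQ.of_le (le_inf sQ.le le_normalizer) inf_le_left).idx) fun a ha b hb a1 b1 ab k hk => ?_)).trans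
    inf_le_right
  · obtain ⟨a, hw, rfl⟩ := H19.mem_im.1 ha
    exact qsq (h.sq _ (q.EV hw) ▸ one_mem _)
  · have := q.rk
    rw [card_quo EQ]
    rw [← card_inf_mul_relIndex Q E, inf_comm Q] at this
    nlinarith
  obtain ⟨a, ha', rfl⟩ := H19.mem_im.1 ha
  obtain ⟨b, hb', rfl⟩ := H19.mem_im.1 hb
  obtain ⟨k, hk', rfl⟩ := H19.mem_im.1 hk.1.1
  rw [← map_mul] at ab
  simp only [Ne, qmk_eq_one] at a1 b1 ab
  refine mem_im_of ⟨k.2, mem_norm_of_cj_le fun y hz => ?_⟩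
  obtain ⟨y, hy, rfl⟩ := mem_cj'.1 hz
  have m1 := conj_mem_of_norm k.2 hy.1
  have f : ∀ a : N(Q), (a : G) ∈ E → qmk Q k ∈ C[qmk Q a] → k * y * (k : G)⁻¹ ∈ cm ZZ {(a : G)} := fun a ha e => by
    have e := inv_mem (mem_cm1.1 (qcm.1 e)).2
    have := cm_mul1 (HZ (q.es.le_cent e)) (cm_one e (q.QM h m m1)) (cm_cj1 (HZ (nD.le hk'.1)) (cent_cm (HZ (q.es.le_cent hy.1))
      (cent_le_cent1 (q.EV ha) (h.cent.ge hy.2))))
    rwa [cjcm (k : G) a, inv_mul_cancel_left] at this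
  exact ⟨m1, q.ind _ ha' _ hb' a1 b1 ab ⟨⟨m1, f a ha' hk.1.2⟩, f b hb' hk.2⟩⟩
theorem kM (sQ : Syl 2 Q D) (hk : k ∈ D ⊓ N(Q)) : ∃ n, Odd n ∧ k ^ n ∈ cm ZZ Q := ⟨_, Nat.not_even_iff_odd.1 fun e =>
  (sQ.of_le (le_inf sQ.le le_normalizer) inf_le_left).not_dvd Nat.prime_two e.two_dvd, q.QM h m (pow_q inf_le_right hk)⟩
theorem kS (sQ : Syl 2 Q D) (nD : D ⊴ HH) (hk : k ∈ D ⊓ N(Q)) : ∃ s ∈ SS, ∃ y ∈ zpowers x, k = s * y := by
  have kw := q.kW h m sQ nD hk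
  have kH := nD.le hk.1
  obtain ⟨n, hn, e⟩ := h.fus m inf_le_right (cj_le_of_mem_norm kw le_rfl |>.trans inf_le_right)
  have nC : n ∈ N(V) ⊓ HH := ⟨hn, of_cjc ((e _ (q.ZW h m (mem_zpowers _))).trans (cjc kH))⟩
  have c : n⁻¹ * k ∈ C(Q ⊓ V) := le_cent1_iff.1 fun w hw => mem_cent1_symm.1 (of_cjc (by rw [← cjcj, ← e w hw]; group))
  have nq := mul_mem (inv_mem (q.CQ nC)) hk.2
  have s : n⁻¹ * k ∈ SS := ⟨⟨HZ (mul_mem (inv_mem nC.2) kH), fun w hw => cm1.2 (cent_le_cent1 hw c) ▸ one_mem _⟩,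
    cent_le_norm _ c, fun y hy => ⟨cmN nq hy, q.cW ⟨cmN nq hy,
      cms (cmN (norm_le_norm_cent _ (q.CW h m (q.TC h m (q.QT hy)))) c)⟩⟩⟩
  have xS : zpowers x ≤ N(SS) := zpowers_le.2 (q.nS h m q.xC.2 (q.CQ q.xC) (q.CW h m q.xC))
  refine (mem_sup_of_norm xS).1 (mul_inv_cancel_left n k ▸ mul_mem (sup_le_sup_right (sup_le (q.VS' h m) ((q.QM h m).trans
    (q.MS h m))) _ (q.k0 ⟨nC, q.CW h m nC, fun u hu => ⟨q.vQ ⟨cmN hn hu, ?_⟩, cmN hn hu⟩⟩)) (mem_sup_left s))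
  have uC := q.TC h m (h.VT hu)
  have k1 : ⁅k, u⁆ ∈ D ⊓ N(Q) := cms (cmN (norms_inf (inf_le_right.trans nD.norm) (norms_norm q.CQ) uC) hk)
  obtain ⟨j, o, k2⟩ := q.kM h m sQ k1
  have k3 := odd_mem (q.Ssq h m _ (cmN (q.nS h m kH hk.2 kw) (q.VS' h m hu))) k2 o
  rw [← mul_inv_cancel_left n k, cml] at k3
  exact (Subgroup.mul_mem_cancel_left _ (conj_mem_of_norm (cm_nm (HZ nC.2) (q.CQ nC))
    (cmsq (q.SM h m) (q.Ssq h m) s (q.VS' h m hu)))).1 k3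
theorem kX (sQ : Syl 2 Q D) (nD : D ⊴ HH) (hk : k ∈ D ⊓ N(Q)) : ∃ s ∈ cm ZZ Q, ∃ y ∈ zpowers x, k = s * y := by
  have od : ∀ k ∈ D ⊓ N(Q), k ∈ SS → k ∈ cm ZZ Q := fun k hk s => by
    obtain ⟨j, o, e⟩ := q.kM h m sQ hk
    exact odd_mem (q.Ssq h m _ s) e o
  obtain ⟨s, hs, y, hy, rfl⟩ := q.kS h m sQ nD hk
  refine ⟨s, ?_, y, hy, rfl⟩
  have sM := q.SM h m hs
  have yM : y ∈ N(cm ZZ Q) := zpowers_le.2 (cm_nm (HZ q.xC.2) (q.CQ q.xC)) hy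
  have c : ⁅s * y, s⁆ ∈ cm ZZ Q := od _ (cms (cmN (norms_inf ((inf_le_left.trans cm_le).trans ((ZH (h.vv 1)).trans nD.norm))
    (norms_norm (q.SQ h m)) hs) hk)) (cmN (q.nS h m (nD.le hk.1) hk.2 (q.kW h m sQ nD hk)) hs)
  have c2 : Commute (qmk _ ⟨s, sM⟩) (qmk _ ⟨y, yM⟩) := by
    have := mem_cent1.1 ((qcm (m := ⟨s, sM⟩ * ⟨y, yM⟩) (g := ⟨s, sM⟩)).2 (mem_cm1.2 ⟨mul_mem sM yM, c⟩))
    rw [map_mul, mul_assoc] at this
    exact (mul_left_cancel this).symm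
  obtain ⟨j, o, e⟩ := q.kM h m sQ hk
  have y3 : y ^ 3 = 1 := by
    obtain ⟨i, rfl⟩ := hy
    rw [← zpow_natCast, ← zpow_mul, mul_comm, zpow_mul, zpow_natCast, q.x3, one_zpow]
  have := qpow (g := ⟨s, sM⟩ * ⟨y, yM⟩) (n := j * 3) (by rw [pow_mul]; exact pow_mem e 3)
  rw [map_mul, c2.mul_pow, qpow (g := ⟨y, yM⟩) (by rw [mul_comm, pow_mul]; simp [y3]), mul_one, ← map_pow, qmk_eq_one] at this
  exact odd_mem (q.Ssq h m _ hs) this (o.mul (by decide))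
variable (hO : Oc {2}ᶜ C[v 1] = ⊥)
include hO
theorem fin2 (fx : Q ⊓ cm ZZ {x} ≤ ZZ) (sQ : Syl 2 Q D) (nD : D ⊴ HH) : D ≤ N(Q) := by
  have xQ := q.CQ q.xC
  have xZ := HZ q.xC.2
  have QZ : Q ≤ N(ZZ) := q.es.le_cent.trans HZ
  let A := fun a : G => ZZ ⊔ zpowers a ⊔ zpowers (x * a * x⁻¹)
  have zA : ∀ a, ZZ ≤ A a := fun a => le_sup_left.trans le_sup_left
  have m1 : ∀ a, a ∈ A a := fun a => mem_sup_left (mem_sup_right (mem_zpowers a))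
  have AQ : ∀ a ∈ Q, A a ≤ Q := fun a ha => sup_le (sup_le q.es.zp_le (zpowers_le.2 ha)) (zpowers_le.2 (conj_mem_of_norm xQ ha))
  have nA : ∀ B, ZZ ≤ B → B ≤ Q → cm ZZ Q ≤ N(B) := fun B l1 l2 s hs => mem_norm_of_cj_le fun y hy => by
    obtain ⟨y, k, rfl⟩ := mem_cj'.1 hy
    exact cjcm s y ▸ mul_mem (l1 (hs.2 y (l2 k))) k
  have QA := fun B l1 l2 => (q.QM h m).trans (nA B l1 l2)
  have xA : ∀ a ∈ Q, x ∈ N(A a) := fun a ha => mem_norm_of_cj_le (by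
    have m2 : x * a * x⁻¹ ∈ A a := mem_sup_right (mem_zpowers _)
    have a1 := conj_mem_of_norm xQ ha
    have a2 := conj_mem_of_norm xQ a1
    simp only [A, cj_sup, cj_zpowers, sup_le_iff, cjc q.xC.2]
    refine ⟨⟨zA a, zpowers_le.2 m2⟩, zpowers_le.2 ((Subgroup.mul_mem_cancel_left _ (mul_mem (m1 a) m2)).1 (zA a (fx
      ⟨mul_mem (mul_mem ha a1) a2, cm_sy (mem_cm1.2 ⟨xZ, ?_⟩) (QZ (mul_mem (mul_mem ha a1) a2))⟩)))⟩
    have e : x * (x * (x * a * x⁻¹) * x⁻¹) * x⁻¹ = a := by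
      rw [cjcj, cjcj, show x * x * x = 1 by rw [← q.x3, pow_three']]; simp
    rw [commutatorElement_def, cjmul, cjmul, e]
    convert q.es.comm_mem (mul_mem a1 a2) ha using 1
    simp only [commutatorElement_def]; group)
  have c8 : ∀ a ∈ Q, #(A a) ≤ 8 ∧ (a ∉ ZZ → #(A a) = 8) := fun a ha => by
    have a1 := conj_mem_of_norm xQ ha
    have n1 := QA _ le_sup_left (sup_le q.es.zp_le (zpowers_le.2 ha)) a1
    have s1 : _ ∈ ZZ ⊔ zpowers a := mem_sup_left (q.es.sq_mem a1)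
    refine ⟨(adj_le n1 s1).trans (by have := adj_le (QZ ha) (q.es.sq_mem ha); rw [q.es.card_zp] at this; omega), fun n => ?_⟩
    rw [adj_card n1 s1 fun k => n ?_, adj_card (QZ ha) (q.es.sq_mem ha) n, q.es.card_zp]
    rcases adj (QZ ha) (q.es.sq_mem ha) k with k | ⟨b, hb, e⟩
    · simpa [mul_assoc] using conj_mem_of_norm' xZ k
    · exact fx ⟨ha, cm_sy (mem_cm1.2 ⟨xZ, by rw [commutatorElement_def, e]; exact conj_mem_of_norm (QZ ha) hb⟩) (QZ ha)⟩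
  have o : Oc {2}ᶜ D = ⊥ := le_bot_iff.1 (hO ▸ Oc_le_Oc nD)
  have dz : D ≤ C(ZZ) := cent_zpowers (v 1) ▸ nD.le
  have ex : ∀ a ∈ Q, ∃ X, A a ≤ X ∧ X ⊴ D ∧ Q ⊓ X = A a ∧ (X ≤ cm ZZ (A a) → D ≤ N(A a)) := fun a ha => by
    obtain ⟨X, l, n, k1, k2⟩ := gsZ (H17.GS.SCl.of_syl sQ (AQ a ha) fun b hb g hg k => by
      obtain ⟨c, hc, e⟩ := (sQ.inf (K := cm ZZ {g * b * g⁻¹}) ((q.QM h m).trans (cm_one k))).sconj ((sQ.Jmem hg).inf (by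
        rw [cj_le_iff, cj_cm1, cj_of_mem_norm (inv_mem (HZ (nD.le hg)))]
        simpa [mul_assoc] using (q.QM h m).trans (cm_one (AQ a ha hb))))
      obtain ⟨s, hs, y, hy, e2⟩ := q.kX h m sQ nD (k := c⁻¹ * g) ⟨D.mul_mem (D.inv_mem hc.1) hg,
        mem_norm_iff_cj.2 (by rw [cj_mul, ← e, cj_inv_cj])⟩
      have := conj_mem_of_norm (e2 ▸ mul_mem (nA _ (zA a) (AQ a ha) hs) (zpowers_le.2 (xA a ha) hy)) hb
      rw [← cjcj, cjcm] at this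
      exact (Subgroup.mul_mem_cancel_left _ (zA a (mem_cm1.1 (inv_mem hc.2)).2)).1 this) (zA a) dz
      (fun b hb => q.es.sq_mem (AQ a ha hb)) o
    have e : Q ⊓ X = A a := le_antisymm (fun b hb => k1 b hb.2 (QA _ (zA a) (AQ a ha) hb.1) (q.es.sq_mem hb.1)) (le_inf (AQ a ha) l)
    exact ⟨X, l, n, e, fun c => k2 ((e ▸ sQ.inf_normal n).of_le (le_inf l le_normalizer) inf_le_left) (inf_le_left.trans c)⟩
  choose! X l n e k using ex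
  have key : ∀ a ∈ Q, ∀ b ∈ Q, b ∉ A a → X a ≤ cm ZZ {b} := fun a ha b hb nb => by
    have e1 : Q ⊓ (X a ⊓ X b) = ZZ := le_antisymm (fun c hc => by
      by_contra nc
      have l1 : ∀ a ∈ Q, c ∈ X a → A c ≤ A a := fun a ha k => by
        have := (e a ha).le ⟨hc.1, k⟩
        exact sup_le (sup_le (zA a) (zpowers_le.2 this)) (zpowers_le.2 (conj_mem_of_norm (xA a ha) this))
      exact nb (l1 a ha hc.2.1 ((eq_of_le_of_card_ge (l1 b hb hc.2.2) (by rw [(c8 c hc.1).2 nc]; exact (c8 b hb).1)).ge (m1 b))))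
      (le_inf q.es.zp_le (le_inf ((zA a).trans (l a ha)) ((zA b).trans (l b hb))))
    have n1 := (n a ha).inf (n b hb)
    have := zsyl n1 (e1 ▸ sQ.inf_normal n1) (inf_le_left.trans (n1.le.trans dz)) o
    exact fun c hc => mem_cm1.2 ⟨HZ (nD.le ((n a ha).le hc)), this.le ⟨cms (cmN ((n a ha).norm (sQ.le hb)) hc),
      cmN ((n b hb).norm ((n a ha).le hc)) (l b hb (m1 b))⟩⟩
  refine fun g hg => mem_norm_of_cj_le fun y hy => ?_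
  obtain ⟨a, ha, rfl⟩ := mem_cj'.1 hy
  obtain ⟨b, hb, nb⟩ := ex_out (lt_of_le_of_lt (c8 a ha).1 q.c8)
  refine AQ a ha (conj_mem_of_norm (k a ha (fun c hc => ⟨HZ (nD.le ((n a ha).le hc)), fun y hy => ?_⟩) hg) (m1 a))
  have yb := mul_mem (AQ a ha hy) hb
  simpa using (mem_cm1.1 (cm_mul1 (QZ yb) (key a ha _ yb (fun k => nb ((Subgroup.mul_mem_cancel_left _ hy).1 k)) hc)
    (cm_zp (QZ hb) (key a ha b hb nb hc) (inv_mem (mem_zpowers b))))).2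
theorem nQ (sc : H17.GS.SCl Q HH) : HH ≤ N(Q) := by
  obtain ⟨D, l, n, k1, k2⟩ := gsZ sc q.es.zp_le (cent_zpowers _).ge (fun a ha => q.es.sq_mem ha) hO
  have sT := (h.sG m (h.TC m)).inf_normal n
  have e : T ⊓ D = Q := by
    by_contra ne
    obtain ⟨a, ha, na, c⟩ := fixcos sT.pi h.pT (le_inf q.QT l) (inf_le_left.trans (q.TQ h m)) (q.TQ h m)
      (norms_inf le_normalizer ((h.TC m).trans n.norm)) ne
    obtain ⟨u, hu, b, hb, rfl⟩ := q.TL h m ha.1 fun u hu => c.2 u (h.VT hu)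
    exact na (mul_mem (k1 u ((Subgroup.mul_mem_cancel_right _ (l hb)).1 ha.2) (q.VQ h m hu) (h.sq u hu ▸ one_mem _)) hb)
  rw [e] at sT
  rcases q.fx with x1 | fx
  · refine k2 (sT.of_le (le_inf l le_normalizer) inf_le_left) fun k hk => ?_
    obtain ⟨s, hs, y, hy, rfl⟩ := q.kX h m sT n hk
    rw [x1, zpowers_one_eq_bot, mem_bot] at hy
    rwa [hy, mul_one]
  · rw [sT.eq_Oc (q.fin2 h m hO fx sT n)]
    exact (n.Oc _).norm
theorem large (sc : H17.GS.SCl Q HH) : LE Q (v 1) := by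
  have n := q.nQ h m hO sc
  have l : C(Q) ≤ HH := cent_le_cent1 q.es.zQ
  have nY : C(Q) ⊴ HH := ⟨l, norms_cent n⟩
  have cM : C(Q) ≤ cm ZZ Q := fun t ht => ⟨HZ (l ht), fun y hy => cm1.2 (cent_le_cent1 hy ht) ▸ one_mem _⟩
  have e : T ⊓ C(Q) = ZZ := le_antisymm (fun t ht => by
    obtain ⟨u, hu, b, hb, rfl⟩ := q.TL h m ht.1 fun u hu => q.vQ ⟨cmN (h.TN ht.1) hu,
      cM (cms (cmN (norm_le_norm_cent _ (q.VQ h m hu)) ht.2))⟩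
    exact q.es.center_eq.le ⟨mul_mem (q.vQ ⟨hu, (Subgroup.mul_mem_cancel_right _ (q.QM h m hb)).1 (cM ht.2)⟩) hb, ht.2⟩)
    (le_inf (q.es.zp_le.trans q.QT) (zpowers_le.2 (le_cent1_iff.1 q.es.le_cent)))
  exact ⟨q.es, (zsyl nY (e ▸ (h.sG m (h.TC m)).inf_normal nY) (inf_le_left.trans (cent_zpowers (v 1) ▸ l)) hO).le.trans q.es.zp_le, n⟩
omit hO in
theorem nW (e : LE Q (v 1)) : HH ⊓ N(Q ⊓ V) ≤ N(V) := fun g hg => by
  have p : PG 2 SS := PiN.of_elt fun s hs => (PiN.prime_pow Nat.prime_two 3).dvd (orderOf_dvd_of_pow_eq_one (by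
    have := q.Ssq h m s hs
    rw [show 2 ^ 3 = 2 * 4 from rfl, pow_mul, _root_.sq]
    exact q.es.pow4 (e.mem_of_triv (ZH (h.vv 1) this.1) this.2)))
  have := h.wcP m p (cj_le_of_mem_norm (q.nS h m hg.1 (e.norm hg.1) hg.2) (q.VS' h m)) ((cj_one V).le.trans (q.VS' h m))
  exact mem_norm_iff_cj.2 (this.trans (cj_one V))
end QS
end H10.RF
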