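import Cfsg.Agent.H17.GF2
import Cfsg.Agent.H18.G1b
import Cfsg.Agent.H0.ES4
import Cfsg.Agent.H15.Orb

/-! General lemmas on centralizers modulo a subgroup (copied from the kit of helper26 and helper20). -/

set_option autoImplicit false
set_option linter.unusedSectionVars false
set_option linter.unusedVariables false
open Subgroup H19 H0
open scoped commutatorElement
namespace H10.RF
variable {G : Type*} [Group G]
local notation "cj" => H19.cj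

theorem cjmul (a b c : G) : a * (b * c) * a⁻¹ = a * b * a⁻¹ * (a * c * a⁻¹) := conj_mul.symm
theorem cjcj (a b c : G) : a * (b * c * b⁻¹) * a⁻¹ = a * b * c * (a * b)⁻¹ := by group
theorem of_cjc {a b : G} (h : a * b * a⁻¹ = b) : a ∈ C[b] := mem_cent1.2 (mul_inv_eq_iff_eq_mul.1 h)
theorem cjc {a b : G} (h : a ∈ C[b]) : a * b * a⁻¹ = b := mul_inv_eq_iff_eq_mul.2 (mem_cent1.1 h)
theorem csq {A : Subgroup G} (h : ∀ x ∈ A, x * x = 1) {x y : G} (hx : x ∈ A) (hy : y ∈ A) : x * y = y * x := by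
  rw [← inv_eq_iff_mul_eq_one.2 (h _ (mul_mem hx hy)), mul_inv_rev, inv_eq_iff_mul_eq_one.2 (h x hx),
    inv_eq_iff_mul_eq_one.2 (h y hy)]
theorem sq_cj {A : Subgroup G} (h : ∀ x ∈ A, x * x = 1) (a : G) : ∀ x ∈ cj a A, x * x = 1 := fun x hx => by
  obtain ⟨w, hw, rfl⟩ := mem_cj'.1 hx
  rw [← cjmul, h w hw]; simp
theorem ab_sq {K : Subgroup G} (h : ∀ c ∈ K, c * c = 1) : K ≤ C(K) := fun _ hc => mem_cent.2 fun _ hd => csq h hd hc
theorem fix_mod [Finite G] {S : Set G} {x : G} {p : ℕ} [Fact p.Prime] (h : x ^ p = 1) (hS : ∀ y ∈ S, x * y * x⁻¹ ∈ S) :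
    S.ncard ≡ (S ∩ C[x]).ncard [MOD p] := by
  classical
  have := Fintype.ofFinite S
  let f : Function.End S := fun v => ⟨_, hS _ v.2⟩
  have hf : ∀ n (v : S), ((f ^ n) v : G) = x ^ n * v * (x ^ n)⁻¹ := fun n => by
    induction n with
    | zero => exact fun _ => by simp; rfl
    | succ n ih => intro v; rw [pow_succ, pow_succ]; exact (ih (f v)).trans (by simp only [f]; group)
  have := Equiv.Perm.card_fixedPoints_modEq (f := f) (p := p) (n := 1) (by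
    funext v; apply Subtype.ext; rw [pow_one, hf, h]; simp; rfl)
  rw [← Nat.card_eq_fintype_card, ← Nat.card_eq_fintype_card, Nat.card_coe_set_eq, Nat.card_coe_set_eq,
    ← Set.ncard_image_of_injective _ Subtype.val_injective] at this
  convert this using 2
  ext y
  exact ⟨fun h => ⟨⟨y, h.1⟩, Subtype.ext (mul_inv_eq_iff_eq_mul.2 (mem_cent1.1 h.2).symm), rfl⟩,
    fun ⟨v, h, e⟩ => e ▸ ⟨v.2, mem_cent1.2 (mul_inv_eq_iff_eq_mul.1 (congrArg Subtype.val h)).symm⟩⟩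
theorem fix_sub [Finite G] {A : Subgroup G} {x : G} {p : ℕ} (hp : p.Prime) (h : x ^ p = 1) (hx : x ∈ N(A)) :
    #A ≡ #(A ⊓ C[x] : Subgroup G) [MOD p] :=
  haveI := Fact.mk hp
  fix_mod (S := (A : Set G)) h fun _ hy => conj_mem_of_norm hx hy
theorem cmap [Finite G] {Q : Subgroup G} {c : G} (sq : ∀ q ∈ Q, q * q = 1) (n : c ∈ N(Q)) (c2 : c * c = 1) : ∃ J ≤ Q ⊓ C[c],
    (∀ u ∈ J, ∃ q ∈ Q, q * c * q⁻¹ * c⁻¹ = u) ∧ #J * #(Q ⊓ C[c] : Subgroup G) = #Q := by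
  have m := fun q : Q => conj_mem_of_norm n (inv_mem q.2)
  let φ : Q →* G := MonoidHom.mk' (fun q => q * (c * (q : G)⁻¹ * c⁻¹)) fun p q => by
    rw [coe_mul, mul_inv_rev, cjmul, csq sq (m q) (m p), mul_assoc, mul_assoc (p : G), ← mul_assoc (q : G),
      ← mul_assoc _ (q : G), csq sq q.2 (m p)]
  refine ⟨φ.range, ?_, ?_, ?_⟩
  · rintro _ ⟨q, rfl⟩
    refine ⟨mul_mem q.2 (m q), mem_cent1_symm.1 (of_cjc ?_)⟩
    change c * (q * (c * (q : G)⁻¹ * c⁻¹)) * c⁻¹ = q * (c * (q : G)⁻¹ * c⁻¹)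
    rw [cjmul, cjcj, c2, csq sq q.2 (m q), inv_eq_of_mul_eq_one_right (sq _ q.2)]; simp
  · rintro _ ⟨q, rfl⟩; exact ⟨q, q.2, by simp [φ, mul_assoc]⟩
  · rw [card_eq_card_quotient_mul_card_subgroup φ.ker, Nat.card_congr (QuotientGroup.quotientKerEquivRange φ).toEquiv,
      show φ.ker = C[c].subgroupOf Q from Subgroup.ext fun q => by
        rw [mem_subgroupOf, mem_cent1, ← mul_inv_eq_one]; simp [φ, mul_assoc], card_subgroupOf, inf_comm]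
theorem idx2 [Finite G] {K L : Subgroup G} (h : ∀ u ∈ K, ∀ v ∈ K, u ∉ L → v ∉ L → u * v ∈ L) : #K ≤ 2 * #(K ⊓ L : Subgroup G) := by
  by_cases e : K ≤ L
  · rw [inf_eq_left.2 e]; omega
  obtain ⟨w, hw, n⟩ := SetLike.not_le_iff_exists.1 e
  have : L.relIndex K = 2 := index_eq_two_iff.2 ⟨⟨w, hw⟩, fun b => by
    by_cases k : (b : G) ∈ L
    exacts [.inr ⟨k, fun e => n ((Subgroup.mul_mem_cancel_left _ k).1 e)⟩, .inl ⟨h _ b.2 w hw k n, k⟩]⟩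
  rw [← card_inf_mul_relIndex L K, this, inf_comm, mul_comm]
/-- the class of `y` under `S` -/
def cl (S : Subgroup G) (y : G) : Set G := {w | ∃ a ∈ S, a * y * a⁻¹ = w}
theorem cl_card [Finite G] (S : Subgroup G) (y : G) : (cl S y).ncard * #(S ⊓ C[y] : Subgroup G) = #S := by
  let _ : MulAction S G := MulAction.compHom G ((MulAut.conj : G →* MulAut G).comp S.subtype)
  have h1 : MulAction.orbit S y = cl S y := Set.ext fun w => ⟨fun ⟨g, e⟩ => ⟨g, g.2, e⟩, fun ⟨g, hg, e⟩ => ⟨⟨g, hg⟩, e⟩⟩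
  have h2 : MulAction.stabilizer S y = C[y].subgroupOf S := by
    ext g; exact (mul_inv_eq_iff_eq_mul.trans mem_cent1.symm)
  rw [← h1, ← MulAction.index_stabilizer, h2, mul_comm, inf_comm]
  exact card_inf_mul_relIndex _ _
theorem cml (a b g : G) : ⁅a * b, g⁆ = a * ⁅b, g⁆ * a⁻¹ * ⁅a, g⁆ := by simp only [commutatorElement_def]; group
theorem cmr (a b g : G) : ⁅g, a * b⁆ = ⁅g, a⁆ * (a * ⁅g, b⁆ * a⁻¹) := by simp only [commutatorElement_def]; group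
theorem cmi (a g : G) : ⁅a⁻¹, g⁆ = a⁻¹ * ⁅a, g⁆⁻¹ * a := by simp only [commutatorElement_def]; group
theorem cmc (k a g : G) : k * ⁅a, g⁆ * k⁻¹ = ⁅k * a * k⁻¹, k * g * k⁻¹⁆ := by simp only [commutatorElement_def]; group
theorem cms {B : Subgroup G} {a g : G} (h : ⁅a, g⁆ ∈ B) : ⁅g, a⁆ ∈ B := commutatorElement_inv a g ▸ inv_mem h
theorem cm1 {a g : G} : ⁅a, g⁆ = 1 ↔ a ∈ C[g] := by rw [commutatorElement_eq_one_iff_mul_comm, mem_cent1]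
theorem cjcm (a g : G) : a * g * a⁻¹ = ⁅a, g⁆ * g := by simp only [commutatorElement_def]; group
theorem cmN {B : Subgroup G} {a g : G} (ha : a ∈ N(B)) (hg : g ∈ B) : ⁅a, g⁆ ∈ B :=
  mul_mem (conj_mem_of_norm ha hg) (inv_mem hg)
/-- the centralizer of `X` modulo `B` -/
def cm (B : Subgroup G) (X : Set G) : Subgroup G where
  carrier := {m | m ∈ N(B) ∧ ∀ g ∈ X, ⁅m, g⁆ ∈ B}
  one_mem' := ⟨one_mem _, fun g _ => by simp⟩
  mul_mem' := fun {a b} ha hb => ⟨mul_mem ha.1 hb.1, fun g hg => by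
    rw [cml]; exact mul_mem (conj_mem_of_norm ha.1 (hb.2 g hg)) (ha.2 g hg)⟩
  inv_mem' := fun {a} ha => ⟨inv_mem ha.1, fun g hg => by
    rw [cmi]; exact conj_mem_of_norm' ha.1 (inv_mem (ha.2 g hg))⟩
/-- the `X`-core of `A` -/
def core (X A : Subgroup G) : Subgroup G where
  carrier := {m | ∀ r ∈ X, r * m * r⁻¹ ∈ A}
  one_mem' := fun r _ => by simp
  mul_mem' := fun {a b} ha hb r hr => cjmul r a b ▸ mul_mem (ha r hr) (hb r hr)
  inv_mem' := fun {a} ha r hr => by simpa [mul_assoc] using inv_mem (ha r hr)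
section
variable {A B D X Y : Subgroup G} {S T : Set G} {a b c g k m : G}
theorem mem_core : m ∈ core X A ↔ ∀ r ∈ X, r * m * r⁻¹ ∈ A := Iff.rfl
theorem core_le : core X A ≤ A := fun m h => by simpa using h 1 (one_mem _)
theorem le_core (h1 : B ≤ A) (h2 : X ≤ N(B)) : B ≤ core X A := fun m h r hr => h1 (conj_mem_of_norm (h2 hr) h)
theorem core_nm [Finite G] (h1 : g ∈ N(X)) (h2 : g ∈ N(A) ∨ g ∈ X) : g ∈ N(core X A) := mem_norm_of_cj_le fun y hy r hr => by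
  obtain ⟨m, hm, rfl⟩ := mem_cj'.1 hy
  rcases h2 with h2 | h2
  · simpa [mul_assoc] using conj_mem_of_norm h2 (hm _ (conj_mem_of_norm' h1 hr))
  · exact cjcj r g m ▸ hm _ (mul_mem hr h2)
theorem mem_cm : m ∈ cm B S ↔ m ∈ N(B) ∧ ∀ g ∈ S, ⁅m, g⁆ ∈ B := Iff.rfl
theorem mem_cm1 : m ∈ cm B {g} ↔ m ∈ N(B) ∧ ⁅m, g⁆ ∈ B := by simp [mem_cm]
theorem cm_le : cm B S ≤ N(B) := fun _ h => h.1
theorem cm_anti (h : S ⊆ T) : cm B T ≤ cm B S := fun _ k => ⟨k.1, fun g hg => k.2 g (h hg)⟩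
theorem cm_one (h : g ∈ S) : cm B S ≤ cm B {g} := cm_anti (Set.singleton_subset_iff.2 h)
theorem cm_sy (h : m ∈ cm B {g}) (hg : g ∈ N(B)) : g ∈ cm B {m} := mem_cm1.2 ⟨hg, cms (mem_cm1.1 h).2⟩
theorem cm_sys (h : X ≤ cm B Y) (hY : Y ≤ N(B)) : Y ≤ cm B X := fun g hg => ⟨hY hg, fun m hm => cms ((h hm).2 g hg)⟩
theorem le_cm (h : ∀ g ∈ S, g ∈ N(B)) : B ≤ cm B S := fun m hm => ⟨le_normalizer hm, fun g hg => cms (cmN (h g hg) hm)⟩
theorem le_cm1 (h : g ∈ N(B)) : B ≤ cm B {g} := le_cm (by simpa using h)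
theorem cent_cm (h1 : m ∈ N(B)) (h : m ∈ C[g]) : m ∈ cm B {g} := mem_cm1.2 ⟨h1, cm1.2 h ▸ one_mem _⟩
theorem cm_bot1 : cm ⊥ {g} = C[g] := by ext; rw [mem_cm1, norm_bot, mem_bot, cm1]; simp
theorem cm_bot : cm ⊥ X = C(X) := by
  ext; simp only [mem_cm, norm_bot, mem_top, true_and, mem_bot, mem_cent, commutatorElement_eq_one_iff_mul_comm]
  exact ⟨fun h g hg => (h g hg).symm, fun h g hg => (h g hg).symm⟩
theorem cm_conj (h : m ∈ cm B S) : k * m * k⁻¹ ∈ cm (cj k B) ((fun x => k * x * k⁻¹) '' S) :=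
  ⟨cj_norm k B ▸ conj_mem_cj.2 h.1, by rintro _ ⟨g, hg, rfl⟩; exact cmc k m g ▸ conj_mem_cj.2 (h.2 g hg)⟩
theorem cj_cm (k : G) (B X : Subgroup G) : cj k (cm B X) = cm (cj k B) (cj k X) := by
  ext m
  rw [mem_cj, mem_cm, mem_cm, ← cj_norm, mem_cj]
  refine and_congr_right fun _ => ⟨fun h g hg => mem_cj.2 ?_, fun h g hg => ?_⟩
  · simpa only [← cmc, inv_inv] using (show k⁻¹ * ⁅m, g⁆ * k⁻¹⁻¹ ∈ B from cmc k⁻¹ m g ▸ by simpa using h _ (mem_cj.1 hg))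
  · have := mem_cj.1 (h _ (conj_mem_cj.2 hg))
    rwa [show k⁻¹ * ⁅m, k * g * k⁻¹⁆ * k = ⁅k⁻¹ * m * k, g⁆ by simp only [commutatorElement_def]; group] at this
theorem cj_cm1 (k : G) (B : Subgroup G) (g : G) : cj k (cm B {g}) = cm (cj k B) {k * g * k⁻¹} := by
  ext m
  rw [mem_cj, mem_cm1, mem_cm1, ← cj_norm, mem_cj, mem_cj,
    show k⁻¹ * ⁅m, k * g * k⁻¹⁆ * k = ⁅k⁻¹ * m * k, g⁆ by simp only [commutatorElement_def]; group]
theorem cm_nm (h1 : k ∈ N(B)) (h2 : k ∈ N(X)) : k ∈ N(cm B X) := by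
  rw [mem_norm_iff_cj, cj_cm, cj_of_mem_norm h1, cj_of_mem_norm h2]
theorem cm_nms (h1 : A ≤ N(B)) (h2 : A ≤ N(X)) : A ≤ N(cm B X) := fun _ h => cm_nm (h1 h) (h2 h)
theorem cm_cj1 (h1 : k ∈ N(B)) (h : m ∈ cm B {g}) : k * m * k⁻¹ ∈ cm B {k * g * k⁻¹} := by
  have := conj_mem_cj (g := k).2 h
  rwa [cj_cm1, cj_of_mem_norm h1] at this
theorem cm_mul1 (ha : a ∈ N(B)) (h1 : m ∈ cm B {a}) (h2 : m ∈ cm B {b}) : m ∈ cm B {a * b} :=
  mem_cm1.2 ⟨h1.1, cmr a b m ▸ mul_mem (mem_cm1.1 h1).2 (conj_mem_of_norm ha (mem_cm1.1 h2).2)⟩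
theorem cm_zp (ha : a ∈ N(B)) (h1 : m ∈ cm B {a}) (h : b ∈ zpowers a) : m ∈ cm B {b} :=
  cm_sy (zpowers_le.2 (cm_sy h1 ha) h) h1.1
theorem comm_le_cm (h : X ≤ cm B Y) : ⁅X, Y⁆ ≤ B := commutator_le.2 fun a ha b hb => (h ha).2 b hb
theorem cm_of_comm (h1 : X ≤ N(B)) (h : ⁅X, Y⁆ ≤ B) : X ≤ cm B Y := fun a ha =>
  ⟨h1 ha, fun b hb => h (commutator_mem_commutator ha hb)⟩
theorem qcm {m g : N(B)} : qmk B m ∈ C[qmk B g] ↔ (m : G) ∈ cm B {(g : G)} := by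
  rw [← cm1, ← map_commutatorElement, qmk_eq_one, mem_cm1]; simp [commutatorElement_def]
theorem qmem (h1 : B ≤ A) (h2 : A ≤ N(B)) {m : N(B)} : qmk B m ∈ quo B A ↔ (m : G) ∈ A := by
  rw [qmk_mem_quo h2, sup_eq_right.2 h1]
theorem qnm {g : N(B)} (h : (g : G) ∈ N(A)) : qmk B g ∈ N(quo B A) := im_norm_le (mem_im_of h)
theorem quo_cm1 (h1 : B ≤ A) (h2 : A ≤ N(B)) (hg : g ∈ N(B)) : quo B (A ⊓ cm B {g}) = quo B A ⊓ C[qmk B ⟨g, hg⟩] := by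
  ext u
  obtain ⟨u, rfl⟩ := qmk_surj B u
  rw [qmem (le_inf h1 (le_cm1 hg)) (inf_le_left.trans h2), mem_inf, mem_inf, qmem h1 h2, qcm]
theorem quo_cm (h1 : B ≤ A) (h2 : A ≤ N(B)) (hX : X ≤ N(B)) : quo B (A ⊓ cm B X) = quo B A ⊓ C(quo B X) := by
  ext u
  obtain ⟨u, rfl⟩ := qmk_surj B u
  rw [qmem (le_inf h1 (le_cm hX)) (inf_le_left.trans h2), mem_inf, mem_inf, qmem h1 h2]
  refine and_congr_right fun _ => ⟨fun h => le_cent1_iff.1 fun v hv => ?_, fun h => ⟨u.2, fun g hg => ?_⟩⟩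
  · obtain ⟨v, hw, rfl⟩ := H19.mem_im.1 hv
    exact mem_cent1_symm.1 (qcm.2 (cm_one hw h))
  · exact (mem_cm1.1 ((qcm (g := ⟨g, hX hg⟩)).1 (cent_le_cent1 (mem_im_of hg) h))).2
variable [Finite G]
theorem cq (h1 : B ≤ A) (h2 : A ≤ N(B)) : #A = #B * #(quo B A) := by rw [card_quo h2, card_mul_relIndex h1]
theorem qpow {g : N(B)} {n : ℕ} (h : (g : G) ^ n ∈ B) : qmk B g ^ n = 1 := by rw [← map_pow, qmk_eq_one]; exact h
theorem qsq {g : N(B)} (h : (g : G) * g ∈ B) : qmk B g * qmk B g = 1 := by rw [← map_mul, qmk_eq_one]; exact h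
theorem fixq {p : ℕ} (hp : p.Prime) (h1 : B ≤ A) (h2 : A ≤ N(B)) (hg : g ∈ N(B)) (hA : g ∈ N(A)) (e : g ^ p ∈ B) :
    #A ≡ #(A ⊓ cm B {g}) [MOD p] := by
  rw [cq h1 h2, cq (le_inf h1 (le_cm1 hg)) (inf_le_left.trans h2), quo_cm1 h1 h2 hg]
  exact (fix_sub hp (qpow e) (qnm hA)).mul_left _
theorem fixcos {p : ℕ} (hA : PG p A) (hX : PG p X) (h1 : B ≤ A) (h2 : A ≤ N(B)) (h3 : X ≤ N(B)) (h4 : X ≤ N(A)) (n : A ≠ B) :
    ∃ a ∈ A, a ∉ B ∧ a ∈ cm B X := by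
  have := (hA.quo B).meet_cent (hX.quo B) (quo_norms h4) (mt (quo_eq_bot_iff h2).1 fun e => n (le_antisymm e h1))
  rw [← quo_cm h1 h2 h3, Ne, quo_eq_bot_iff (inf_le_left.trans h2), SetLike.not_le_iff_exists] at this
  obtain ⟨a, ha, k⟩ := this
  exact ⟨a, ha.1, k, ha.2⟩
theorem cmq (h1 : B ≤ A) (h2 : A ≤ N(B)) (s : ∀ a ∈ A, a * a ∈ B) (hg : g ∈ N(B)) (hA : g ∈ N(A)) (e : g * g ∈ B) :
    ∃ J, B ≤ J ∧ J ≤ A ⊓ cm B {g} ∧ (∀ u ∈ J, ∃ a ∈ A, ∃ b ∈ B, u = ⁅a, g⁆ * b) ∧ #J * #(A ⊓ cm B {g}) = #A * #B := by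
  obtain ⟨J, l, k, c⟩ := cmap (Q := quo B A) (fun q hq => by
    obtain ⟨q, hw, rfl⟩ := H19.mem_im.1 hq
    exact qsq (s _ hw)) (qnm (g := ⟨g, hg⟩) hA) (qsq e)
  rw [← quo_cm1 h1 h2 hg] at l c
  have l1 := le_inf h1 (le_cm1 hg)
  refine ⟨qpre B J, le_qpre _, qpre_le l1 l, fun u hu => ?_, ?_⟩
  · obtain ⟨hu, m⟩ := H19.mem_pre.1 hu
    obtain ⟨q, hq, e⟩ := k _ m
    obtain ⟨q, hw, rfl⟩ := H19.mem_im.1 hq
    rw [← commutatorElement_def, ← map_commutatorElement, qmk_eq] at e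
    exact ⟨q, hw, _, e, by simp [commutatorElement_def, mul_assoc]⟩
  · rw [card_qpre, cq l1 (inf_le_left.trans h2), cq h1 h2, ← c]; ring
theorem lbq (h1 : B ≤ A) (h2 : A ≤ N(B)) (s : ∀ a ∈ A, a * a ∈ B) (hg : g ∈ N(B)) (hA : g ∈ N(A)) (e : g * g ∈ B) :
    #A * #B ≤ #(A ⊓ cm B {g}) * #(A ⊓ cm B {g}) := by
  obtain ⟨J, -, l, -, c⟩ := cmq h1 h2 s hg hA e
  exact c ▸ Nat.mul_le_mul_right _ (card_le l)
theorem cbd (h : ∀ x ∈ X, ⁅x, g⁆ ∈ Y) : #X ≤ #(X ⊓ C[g]) * #Y := by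
  rw [← cl_card X g, mul_comm]
  refine Nat.mul_le_mul_left _ ?_
  rw [← Set.ncard_image_of_injective _ (mul_left_injective g⁻¹)]
  have : (fun a => a * g⁻¹) '' cl X g ⊆ (Y : Set G) := by rintro _ ⟨_, ⟨x, hx, rfl⟩, rfl⟩; exact h x hx
  exact Set.ncard_le_ncard this
theorem cbdq (h1 : B ≤ X) (h2 : X ≤ N(B)) (h3 : B ≤ Y) (h4 : Y ≤ N(B)) (hg : g ∈ N(B)) (h : ∀ x ∈ X, ⁅x, g⁆ ∈ Y) :
    #X * #B ≤ #(X ⊓ cm B {g}) * #Y := by
  have := cbd (X := quo B X) (Y := quo B Y) (g := qmk B ⟨g, hg⟩) fun x hx => by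
    obtain ⟨x, hw, rfl⟩ := H19.mem_im.1 hx
    rw [← map_commutatorElement]; exact mem_im_of (h _ hw)
  rw [← quo_cm1 h1 h2 hg] at this
  rw [cq h1 h2, cq (le_inf h1 (le_cm1 hg)) (inf_le_left.trans h2), cq h3 h4]
  nlinarith [Nat.mul_le_mul_left (#B * #B) this]
theorem ncd (h : B ≤ A) : ((A : Set G) \ B).ncard = #A - #B := Set.ncard_sdiff h
theorem orb {n : ℕ} (h : cl X c ⊆ S) (e : S.ncard = n) : #X ≤ n * #(X ⊓ C[c]) ∧ (n * #(X ⊓ C[c]) ≤ #X → cl X c = S) := by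
  have := Set.ncard_le_ncard h
  rw [← cl_card X c, ← e]
  exact ⟨Nat.mul_le_mul_right _ this, fun k => Set.eq_of_subset_of_ncard_le h (Nat.le_of_mul_le_mul_right k (card_pos _))⟩
theorem cl_diff (h1 : X ≤ N(A)) (h2 : X ≤ N(B)) (hc : c ∈ A) (n : c ∉ B) : cl X c ⊆ (A : Set G) \ B := by
  rintro _ ⟨g, hg, rfl⟩
  exact ⟨conj_mem_of_norm (h1 hg) hc, fun e => n (by simpa [mul_assoc] using conj_mem_of_norm' (h2 hg) e)⟩
theorem two_eq (h1 : B ≤ D) (h2 : D ≤ A) (e : #A ≤ 2 * #B) (hc : c ∈ D) (n : c ∉ B) : D = A := by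
  obtain ⟨i, hi⟩ := card_dvd h1
  have := card_lt (lt_of_le_of_ne h1 fun e => n (e ▸ hc))
  have := card_pos B
  refine eq_of_le_of_card_ge h2 (e.trans ?_)
  rw [hi] at *
  rcases i with _ | _ | i <;> nlinarith
theorem two_mul (h1 : B ≤ A) (e : #A ≤ 2 * #B) (ha : a ∈ A) (hb : b ∈ A) (n1 : a ∉ B) (n2 : b ∉ B) : a * b ∈ B := by
  have := card_mul_relIndex h1
  have p := card_pos B
  have p2 := relIndex_pos B A
  have : B.relIndex A = 2 := by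
    have : B.relIndex A ≠ 1 := fun e => n1 (relIndex_eq_one.1 e ha)
    have : B.relIndex A ≤ 2 := by nlinarith
    omega
  exact (mul_mem_iff_of_index_two this (a := ⟨a, ha⟩) (b := ⟨b, hb⟩)).2 (iff_of_false n1 n2)
theorem c2 (h : a * a = 1) (n : a ≠ 1) : #(zpowers a) = 2 := by
  rw [Nat.card_zpowers, orderOf_eq_prime (by rw [_root_.sq, h]) n]
theorem c4 (s : ∀ a ∈ A, a * a = 1) (h1 : B ≤ A) (hb : b ∈ A) (n : b ∉ B) : #(B ⊔ zpowers b) = 2 * #B := by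
  have b1 : b ≠ 1 := fun e => n (e ▸ one_mem _)
  rw [card_sup_of_disjoint (norms_of_cents (cents_mono (ab_sq s) (zpowers_le.2 hb) h1)) (inf_comm B _ ▸ inf_eq_bot_of_prime
    (c2 (s b hb) b1 ▸ Nat.prime_two) (mt zpowers_le.1 n)), c2 (s b hb) b1, mul_comm]
theorem pw2 (h : PG 2 A) {n : ℕ} (c : #A < 2 ^ (n + 1)) : #A ≤ 2 ^ n := by
  obtain ⟨k, e⟩ := h.exists_card
  rw [e] at c ⊢
  exact Nat.pow_le_pow_right two_pos (Nat.lt_succ_iff.1 ((Nat.pow_lt_pow_iff_right (by decide)).1 c))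
theorem pw2' (h : PG 2 A) {n : ℕ} (c : 2 ^ n < #A) : 2 ^ (n + 1) ≤ #A := by
  obtain ⟨k, e⟩ := h.exists_card
  rw [e] at c ⊢
  exact Nat.pow_le_pow_right two_pos ((Nat.pow_lt_pow_iff_right (by decide)).1 c)
theorem infbd (h1 : X ≤ A) (h2 : Y ≤ A) (n : Y ≤ N(X)) : #X * #Y ≤ #A * #(X ⊓ Y) :=
  card_sup_mul_inf n ▸ Nat.mul_le_mul_right _ (card_le (sup_le h1 h2))
theorem ex_out (h : #B < #A) : ∃ a ∈ A, a ∉ B := SetLike.not_le_iff_exists.1 fun e => (card_le e).not_gt h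
end

section
variable [Finite G] {A B X : Subgroup G}
theorem ncyc (s : ∀ a ∈ A, a * a = 1) (c : 2 < #A) : ¬ Cyc A := fun k => by
  obtain ⟨x, rfl⟩ := cyc_iff.1 k
  have := Nat.le_of_dvd two_pos (orderOf_dvd_of_pow_eq_one ((_root_.sq x).trans (s x (mem_zpowers x))))
  rw [Nat.card_zpowers] at c
  omega
open H17.GS in
theorem gs (sc : SCl A X) (ab : A ≤ C(A)) (h0 : Oc {2}ᶜ X = ⊥) : ∃ D, A ≤ D ∧ D ⊴ X ∧ (∀ t ∈ D, t ∈ N(A) → t * t = 1 → t ∈ A) ∧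
    (Syl 2 A (D ⊓ N(A)) → D ⊓ N(A) ≤ C(A) → X ≤ N(A)) := by
  have nK : Kc A X ⊴ X := Kc_normal sc.le
  have o : Oc {2}ᶜ (Kc A X) = ⊥ := le_bot_iff.1 (h0 ▸ le_Oc (nK.Oc _) (Oc_pi _ _))
  obtain ⟨-, -, h2, -⟩ := scl_struct (sc.mono le_Kc nK.le) (comm_iff_le_cent.2 ab) o sc.Kc_Kc
  refine ⟨_, le_Kc, nK, fun t ht n tt => ?_, fun h3 h4 => ?_⟩
  · obtain ⟨T, hT, l⟩ := (sc.pg.sup (H0.pg_zpowers tt) (zpowers_le.2 n)).exists_syl (sup_le le_Kc (zpowers_le.2 ht))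
    exact (h2 T hT (le_sup_left.trans l)).ge (mem_sup_right (mem_Ohm1 (l (mem_sup_right (mem_zpowers t))) (_root_.sq t ▸ tt)))
  · have hS := syl_of_subnorm h3
    have := (H18.Burnside_normal_complement hS h4).sup_compl (by simpa using hS)
    rw [o, bot_sup_eq] at this
    exact this ▸ nK.norm
theorem oddq (h : B ⊴ X) : Oc {2}ᶜ (quo (qpre B (Oc {2}ᶜ (quo B X))) X) = ⊥ := by
  have n := qpre_normal h (Oc_normal {2}ᶜ (quo B X))
  have n2 := qpre_normal n (Oc_normal {2}ᶜ (quo _ X))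
  have c := cq ((le_qpre _).trans (le_qpre _)) (n2.le.trans h.norm)
  rw [card_qpre, card_qpre, mul_assoc, Nat.mul_right_inj (card_pos B).ne'] at c
  have := (quo_le_iff (n2.le.trans h.norm)).1 (le_Oc (n2.quo B) (show PiG {2}ᶜ _ by
    unfold PiG; rw [← c]; exact PiN.mul (Oc_pi _ _) (Oc_pi _ _)))
  exact qpre_inj (le_antisymm (this.trans qpre_bot.ge) (qpre_mono bot_le))
end
theorem cm_cop [Finite G] {B : Subgroup G} {g m : G} {n : ℕ} (p : PG 2 B) (hg : g ∈ N(B)) (e : g ^ n = 1) (o : Odd n)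
    (h : m ∈ cm B {g}) : ∃ b ∈ B, b * m ∈ C[g] := by
  obtain ⟨i, c⟩ := p.exists_card
  rw [← cent_zpowers]
  exact exists_mul_mem_cent (zpowers_le.2 hg) (by
    rw [c, Nat.card_zpowers]; exact ((Nat.coprime_two_left.2 o).coprime_dvd_right (orderOf_dvd_of_pow_eq_one e)).pow_left _)
    (.inl (sol_zpowers g)) fun a ha => cms (mem_cm1.1 (cm_zp hg h ha)).2
theorem card_im [Finite G] {Γ : Type*} [Group Γ] {D H : Subgroup G} (f : D →* Γ) (h : H ≤ D) :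
    #H = #(H ⊓ pre f ⊥) * #(im f H) := by
  rw [inf_comm, ← card_inf_mul_relIndex (pre f ⊥) H, ← relIndex_subgroupOf h, im, ← relIndex_ker]
  congr 2
  exact comap_map_eq_self_of_injective D.subtype_injective _
theorem cos_lb [Finite G] {X Y : Subgroup G} (h : Y ≤ X) {m : ℕ} (r : ℕ → G) (hr : ∀ i < m, r i ∈ X)
    (hi : ∀ i < m, ∀ j < m, (r i)⁻¹ * r j ∈ Y → i = j) : m * #Y ≤ #X := by
  have := Nat.card_le_card_of_injective (fun p : Fin m × Y => (⟨r p.1 * p.2, mul_mem (hr _ p.1.2) (h p.2.2)⟩ : X))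
    fun p q e => by
      have e := congrArg Subtype.val e
      have e1 : p.1 = q.1 := Fin.ext (hi _ p.1.2 _ q.1.2 (by
        rw [show (r p.1)⁻¹ * r q.1 = p.2 * (q.2 : G)⁻¹ from by
          rw [inv_mul_eq_iff_eq_mul, ← mul_assoc, eq_mul_inv_iff_mul_eq]; exact e.symm]
        exact mul_mem p.2.2 (inv_mem q.2.2)))
      refine Prod.ext e1 (Subtype.ext ?_)
      simp only [e1] at e
      exact mul_left_cancel e
  simpa using this
theorem cos_ub [Finite G] {X Y : Subgroup G} {m : ℕ} (r : ℕ → G) (hr : ∀ x ∈ X, ∃ i < m, (r i)⁻¹ * x ∈ Y) :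
    #X ≤ m * #Y := by
  choose f h1 h2 using hr
  have := Nat.card_le_card_of_injective (fun x : X => ((⟨f x x.2, h1 _ _⟩, ⟨_, h2 x x.2⟩) : Fin m × Y)) fun p q e => by
    have e1 : f p p.2 = f q q.2 := congrArg (fun z : Fin m × Y => (z.1 : ℕ)) e
    have e2 : (r (f p p.2))⁻¹ * p = (r (f q q.2))⁻¹ * q := congrArg (fun z : Fin m × Y => (z.2 : G)) e
    rw [e1] at e2
    exact Subtype.ext (mul_left_cancel e2)
  simpa using this
theorem fin_ind [Finite G] {S : Set G} {P : G → Prop} (h1 : P 1) (hs : ∀ x, ∀ s ∈ S, P x → P (x * s)) :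
    ∀ x ∈ closure S, P x := fun x hx => by
  induction hx using closure_induction_right with
  | one => exact h1
  | mul_right x _ s hs' ih => exact hs x s hs' ih
  | mul_inv_cancel x _ s hs' ih =>
    have : ∀ n, P (x * s ^ n) := fun n => by
      induction n with
      | zero => simpa using ih
      | succ n i => rw [pow_succ, ← mul_assoc]; exact hs _ s hs' i
    have e : s⁻¹ = s ^ (orderOf s - 1) := by
      rw [inv_eq_iff_mul_eq_one, ← pow_succ', Nat.sub_add_cancel (orderOf_pos s), pow_orderOf_eq_one]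
    exact e ▸ this _
end H10.RF
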